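import Cfsg.Agent.FGS.FN.BlB

/-!
# Theorem N: basic facts on blocks (port of `INV/B2/FM`)
-/

set_option autoImplicit false
set_option linter.unusedSectionVars false
open Cfsg Subgroup CL.Th CL.MSS CL.Push CL.BHS CL.B2 CL.Dickson CL.Quad
open scoped commutatorElement MatrixGroups

namespace CL.FN

variable {X : Type*} [Group X] [Finite X] {a b c g k t w x y z : X} {A D J P E B Q W V U Y : Subgroup X}
  {F : Type} [Field F] {r : X → SL(2, F)} {ψ : X → Fin 2 → F}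

namespace Bl
variable (m : Bl F P E B Q W r ψ)
include m

theorem le : B ≤ P := m.syl.le
theorem pg : IsPGroup 2 B := m.syl.pgroup
theorem QP : Q ≤ P := m.QB.trans m.le
theorem WQ : W ≤ Q := m.WY.trans (oz_le Q)
theorem QcW : Q ≤ 𝐂 W := m.QcY.trans (centralizer_le m.WY)
theorem Wsq (hy : y ∈ W) : y * y = 1 := m.Ysq (m.WY hy)
theorem elemW : IsElementaryAbelian 2 W := elemAb_mono (oz_elem _) m.WY
theorem cjW (hx : x ∈ P) (hy : y ∈ W) : x * y * x⁻¹ ∈ W := conj_mem_of_normalizes m.nW hx hy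
theorem commW (hy : y ∈ W) (hx : x ∈ P) : ⁅y, x⁆ ∈ W := by
  simpa [commutatorElement_def, mul_assoc] using mul_mem hy (m.cjW hx (inv_mem hy))
theorem ρ_mul (ha : a ∈ B) (hb : b ∈ B) : r (a * b) 0 1 = r a 0 1 + r b 0 1 := by
  rw [m.mul _ (m.le ha) _ (m.le hb), m.eq_u ha, m.eq_u hb, ← u_add]; rfl
theorem ρ_onto (t : F) : ∃ b ∈ B, r b 0 1 = t := let ⟨b, hb, e⟩ := m.uni t; ⟨b, hb, by rw [e]; rfl⟩
theorem α_mul (hx : x ∈ oz Q) (hy : y ∈ oz Q) : ψ (x * y) 1 = ψ x 1 + ψ y 1 := by rw [m.add _ hx _ hy]; rfl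
theorem α_onto (t : F) : ∃ w ∈ W, ψ w 1 = t := let ⟨w, hw, e⟩ := m.surj ![0, t]; ⟨w, hw, by rw [e]; rfl⟩
theorem α_zero (hy : y ∈ oz Q) (hb : b ∈ B) (hQ : b ∉ Q) (hc : ⁅y, b⁆ ∈ 𝐂 P) : ψ y 1 = 0 := by
  have := congrFun ((m.zero _ (m.commY hy (m.le hb))).2 hc) 0
  rw [m.ψ_commB hy hb] at this
  exact (mul_eq_zero.1 (neg_eq_zero.1 this)).resolve_left (mt (m.mem_Q hb).2 hQ)

theorem mem_Q' (hb : b ∈ B) : b ∈ 𝐂 W ↔ r b 0 1 = 0 := by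
  refine ⟨fun h => by_contra fun n => ?_, fun h => m.QcW ((m.mem_Q hb).2 h)⟩
  obtain ⟨w, hw, e⟩ := m.α_onto 1
  exact one_ne_zero (e.symm.trans (m.α_zero (m.WY hw) hb (mt (m.mem_Q hb).1 n) (by
    rw [commutatorElement_eq_one_iff_mul_comm.2 (h w hw)]; exact one_mem _)))

theorem WJ : W ≤ Jt B := m.WY.trans m.YJ

theorem ρ_ontoJ (t : F) : ∃ j ∈ Jt B, r j 0 1 = t := by
  obtain ⟨b, hb, e⟩ := m.ρ_onto t
  obtain ⟨j, hj, q, hq, rfl⟩ := (mem_sup_of_normalizes_right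
    (((thompsonSubgroupOf_le _).trans m.le).trans m.nQ)).1 (m.JQ.ge hb)
  exact ⟨j, hj, by rw [← e, m.ρ_mul (thompsonSubgroupOf_le _ hj) (m.QB hq), (m.mem_Q (m.QB hq)).1 hq, add_zero]⟩

theorem centJ (hy : y ∈ oz Q) : y ∈ 𝐂 (Jt B) ↔ ψ y 1 = 0 := by
  rw [← m.cent hy, ← m.JQ, mem_cent_sup, m.JQ]
  exact ⟨fun h => ⟨h, oz_cent Q hy⟩, fun h => h.1⟩

theorem commZ (hy : y ∈ oz Q) (hb : b ∈ B) : ⁅y, b⁆ ∈ 𝐂 B :=
  (m.cent (m.commY hy (m.le hb))).2 (by rw [m.ψ_commB hy hb]; rfl)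

/-- `E` centralizes the squares of `Q`. -/
theorem sqE (hy : y ∈ Q) : y * y ∈ 𝐂 E := fun g hg => by
  have k2 := m.pu g hg y hy
  have k3 := m.QcW hy _ k2
  have k4 := m.Wsq k2
  generalize hd : g * y * g⁻¹ * y⁻¹ = d at k3 k4
  calc g * (y * y) = g * y * g⁻¹ * y⁻¹ * y * (g * y * g⁻¹ * y⁻¹) * y * g := by group
    _ = y * y * g := by rw [hd, mul_assoc d, ← k3, ← mul_assoc, k4, one_mul]

end Bl

end CL.FN
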