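import Cfsg.Agent.FGS.FN.Defs
import Cfsg.Agent.FGS.CY.BigA
import Cfsg.Agent.CLAS.SLBasic

/-!
# Theorem N: basic properties of a block
-/

set_option autoImplicit false
set_option linter.unusedSectionVars false
open Cfsg Subgroup CL.Th CL.MSS CL.Push CL.BHS CL.B2 CL.Dickson CL.Quad
open CL.B2.PUq (br pre)
open CL.CO (V4 A4 Cf)
open CL.FZ (P2 Bad Fam Mx)
open scoped commutatorElement MatrixGroups

namespace CL.FN

variable {X : Type*} [Group X] [Finite X] {a b c g k s t v w x y z : X}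
  {A B D E G H K L M P Q R S T U V W Y : Subgroup X}

namespace Bl
variable {F : Type} [Field F] {r : X → SL(2, F)} {ψ : X → Fin 2 → F} (h : Bl F P E B Q W r ψ)
include h

theorem BP : B ≤ P := h.syl.le
theorem nY : P ≤ 𝐍 (oz Q) := h.nQ.trans (norm_oz Q)
theorem WY : W ≤ oz Q := h.Weq ▸ commutator_le_left_of_normalizes (h.EP.trans h.nY)
theorem YQ : oz Q ≤ Q := oz_le Q
theorem WB : W ≤ B := h.WY.trans (h.YQ.trans h.QB)
theorem nW : P ≤ 𝐍 W := h.Weq ▸ le_normalizer_commutator h.nY h.nE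
theorem r_one : r 1 = 1 := (h.kerB 1 (one_mem _)).2 (one_mem _)
theorem r_inv (hx : x ∈ P) : r x⁻¹ = (r x)⁻¹ := by
  rw [eq_inv_iff_mul_eq_one, ← h.mul _ (inv_mem hx) _ hx, inv_mul_cancel, h.r_one]
theorem r_conj (hx : x ∈ P) (hy : y ∈ P) : r (x * y * x⁻¹) = r x * r y * (r x)⁻¹ := by
  rw [h.mul _ (mul_mem hx hy) _ (inv_mem hx), h.mul _ hx _ hy, h.r_inv hx]
theorem r_pow (hx : x ∈ P) (n : ℕ) : r (x ^ n) = r x ^ n := by
  induction n with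
  | zero => simpa using h.r_one
  | succ n ih => rw [pow_succ, pow_succ, h.mul _ (pow_mem hx n) _ hx, ih]
theorem ψ_one : ψ 1 = 0 := (h.zero 1 (one_mem _)).2 (one_mem _)
theorem ψ_inv (hx : x ∈ oz Q) : ψ x⁻¹ = -ψ x := by
  rw [eq_neg_iff_add_eq_zero, ← h.add _ (inv_mem hx) _ hx, inv_mul_cancel, h.ψ_one]
theorem ψ_eq_iff (hx : x ∈ oz Q) (hy : y ∈ oz Q) : ψ x = ψ y ↔ x⁻¹ * y ∈ 𝐂 P := by
  rw [← h.zero _ (mul_mem (inv_mem hx) hy), h.add _ (inv_mem hx) _ hy, h.ψ_inv hx, neg_add_eq_zero]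
theorem cjY (hx : x ∈ P) (hy : y ∈ oz Q) : x * y * x⁻¹ ∈ oz Q := conj_mem_of_normalizes h.nY hx hy
theorem eq_u (hb : b ∈ B) : r b = u (r b 0 1) := eq_u_of_fix (h.fix b hb)
theorem mem_Q (hb : b ∈ B) : b ∈ Q ↔ r b 0 1 = 0 := by
  rw [← h.kerB b hb, ← u_eq_one, ← h.eq_u hb]
theorem B_smul (hb : b ∈ B) (v : Fin 2 → F) : r b • v = ![v 0 + r b 0 1 * v 1, v 1] := by
  rw [← u_smul, ← h.eq_u hb]
theorem QcY : Q ≤ 𝐂 (oz Q) := cent_symm (oz_cent Q)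

/-- An element of `P` that centralizes `W` lies in the kernel of `r`. -/
theorem r_eq_one (hx : x ∈ P) (hc : x ∈ 𝐂 W) : r x = 1 := by
  have k : ∀ v : Fin 2 → F, r x • v = v := fun v => by
    obtain ⟨w, hw, rfl⟩ := h.surj v
    rw [← h.act x hx w (h.WY hw), ← hc w hw, mul_inv_cancel_right]
  have k0 := k ![1, 0]
  have k1 := k ![0, 1]
  rw [eq_u_of_fix k0, u_smul] at k1
  rw [eq_u_of_fix k0, u_eq_one]
  simpa using congrFun k1 0

theorem Q_eq : B ⊓ 𝐂 W = Q :=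
  le_antisymm (fun b hb => (h.kerB b hb.1).1 (h.r_eq_one (h.BP hb.1) hb.2))
    (le_inf h.QB (h.QcY.trans (centralizer_le h.WY)))

theorem ozB : oz B ≤ oz Q := fun t ht => by
  have k := mem_oz.1 ht
  exact mem_oz.2 ⟨h.Q_eq.le ⟨k.1, centralizer_le h.WB k.2.1⟩, centralizer_le h.QB k.2.1, k.2.2⟩

theorem commY (hy : y ∈ oz Q) (hx : x ∈ P) : ⁅y, x⁆ ∈ oz Q := by
  simpa [commutatorElement_def, mul_assoc] using mul_mem hy (h.cjY hx (inv_mem hy))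
theorem ψ_comm (hy : y ∈ oz Q) (hx : x ∈ P) : ψ ⁅y, x⁆ = ψ y - r x • ψ y := by
  rw [show ⁅y, x⁆ = y * (x * y⁻¹ * x⁻¹) by simp [commutatorElement_def, mul_assoc],
    h.add _ hy _ (h.cjY hx (inv_mem hy)), h.act _ hx _ (inv_mem hy), h.ψ_inv hy, smul_neg, sub_eq_add_neg]
theorem comm_iff (hy : y ∈ oz Q) (hx : x ∈ P) : ⁅y, x⁆ ∈ 𝐂 P ↔ r x • ψ y = ψ y := by
  rw [← h.zero _ (h.commY hy hx), h.ψ_comm hy hx, sub_eq_zero, eq_comm]
theorem ψ_commB (hy : y ∈ oz Q) (hb : b ∈ B) : ψ ⁅y, b⁆ = ![-(r b 0 1 * ψ y 1), 0] := by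
  rw [h.ψ_comm hy (h.BP hb), h.B_smul hb]; exact vec_ext (by simp) (by simp)
theorem fix_iff (hb : b ∈ B) (hQ : b ∉ Q) {v : Fin 2 → F} : r b • v = v ↔ v 1 = 0 :=
  fix_iff_of_fix_e0 (h.fix b hb) (mt (h.kerB b hb).1 hQ) v
theorem q_eq : Q.relIndex B = Nat.card F :=
  relIndex_of_add (fun x => r x 0 1) (fun x hx y hy => by
    rw [h.mul _ (h.BP hx) _ (h.BP hy), h.eq_u hx, h.eq_u hy, ← u_add]; rfl)
    (fun t => let ⟨b, hb, e⟩ := h.uni t; ⟨b, hb, by rw [e]; rfl⟩) fun _ hx => h.mem_Q hx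

/-- the preimage of the line `F e₀` -/
def Y1 : Subgroup X where
  carrier := {y | y ∈ oz Q ∧ ψ y 1 = 0}
  one_mem' := ⟨one_mem _, by rw [h.ψ_one]; rfl⟩
  mul_mem' := fun {x y} hx hy => ⟨mul_mem hx.1 hy.1, by simp [h.add _ hx.1 _ hy.1, hx.2, hy.2]⟩
  inv_mem' := fun {x} hx => ⟨inv_mem hx.1, by simp [h.ψ_inv hx.1, hx.2]⟩

theorem relIndex_Y1 (h1 : W ≤ U) (h2 : U ≤ oz Q) : h.Y1.relIndex U = Nat.card F :=
  relIndex_of_add (fun x => ψ x 1) (fun x hx y hy => by simp [h.add _ (h2 hx) _ (h2 hy)])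
    (fun t => let ⟨w, hw, e⟩ := h.surj ![0, t]; ⟨w, h1 hw, by rw [e]; rfl⟩)
    fun _ hx => and_iff_right (h2 hx)

theorem mem_Y1 (hy : y ∈ oz Q) (hb : b ∈ B) (hQ : b ∉ Q) (hc : ⁅y, b⁆ ∈ 𝐂 P) : y ∈ h.Y1 :=
  ⟨hy, (h.fix_iff hb hQ).1 ((h.comm_iff hy (h.BP hb)).1 hc)⟩

theorem off_aux (hA : A ∈ Am B) (hQ : ¬ A ≤ Q) (h1 : W ≤ U) (h2 : U ≤ oz Q) :
    Q.relIndex A = Nat.card F ∧ U ⊓ h.Y1 ≤ A ∧ (A ⊓ Q) ⊔ U ∈ Am B := by
  obtain ⟨a, ha, haQ⟩ := SetLike.not_le_iff_exists.1 hQ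
  have XQ := h2.trans h.YQ
  have c : A ⊓ Q ≤ 𝐂 U := inf_le_right.trans (h.QcY.trans (centralizer_le h2))
  have el := Th.elemAb_sup (elemAb_inf_left hA.2.1 Q) (elemAb_mono (oz_elem _) h2) c
  have le : (A ⊓ Q) ⊔ U ≤ B := (sup_le inf_le_right XQ).trans h.QB
  have k1 := PN.card_sup_mul_card_inf (cent_le_norm c)
  have k2 := PN.card_inf_mul_relIndex A U
  have k3 := PN.card_inf_mul_relIndex Q A
  rw [inf_assoc, inf_of_le_right XQ, ← k2, mul_comm (Nat.card (A ⊓ U : Subgroup X)), ← mul_assoc,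
    mul_left_inj' Nat.card_pos.ne'] at k1
  rw [inf_comm] at k3
  have k4 := hA.2.2 _ le el
  have k5 : Q.relIndex A ≤ Nat.card F := h.q_eq ▸ relIndex_le_of_le_right hA.1 (relIndex_ne _ _)
  have s : A ⊓ U ≤ U ⊓ h.Y1 := fun y hy => ⟨hy.2, h.mem_Y1 (h2 hy.2) (hA.1 ha) haQ (by
    rw [commutatorElement_eq_one_iff_mul_comm.2 (elemAb_comm hA.2.1 hy.1 ha)]; exact one_mem _)⟩
  have k6 := PN.card_inf_mul_relIndex h.Y1 U
  rw [h.relIndex_Y1 h1 h2, inf_comm] at k6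
  have k7 : A.relIndex U ≤ Q.relIndex A := by
    rw [k1, ← k3] at k4; exact Nat.le_of_mul_le_mul_left k4 Nat.card_pos
  have k8 : Nat.card (U ⊓ h.Y1 : Subgroup X) ≤ Nat.card (A ⊓ U : Subgroup X) := by
    have := Nat.mul_le_mul_left (Nat.card (A ⊓ U : Subgroup X)) (k7.trans k5)
    rw [k2, ← k6] at this
    exact Nat.le_of_mul_le_mul_right this (Nat.pos_of_ne_zero (h.q_eq ▸ relIndex_ne _ _))
  have e := eq_of_le_of_card_ge s k8
  have k9 : A.relIndex U = Nat.card F := by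
    rw [e, ← k6] at k2; exact Nat.eq_of_mul_eq_mul_left Nat.card_pos k2
  have k10 : Q.relIndex A = Nat.card F := le_antisymm k5 (k9 ▸ k7)
  exact ⟨k10, e.ge.trans inf_le_left,
    mem_maxElemAbIn_of_card_le hA le el (by rw [k1, ← k3, k9, k10])⟩

theorem sup_eq_of_relIndex (hX : U ≤ B) (e : Q.relIndex U = Nat.card F) : U ⊔ Q = B := by
  have k1 := PN.card_sup_mul_card_inf ((hX.trans h.BP).trans h.nQ)
  have k3 := PN.card_inf_mul_relIndex Q U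
  have k4 := PN.card_mul_relIndex h.QB
  rw [← k3, inf_comm, mul_comm, mul_assoc, mul_right_inj' Nat.card_pos.ne', e, ← h.q_eq] at k1
  exact eq_of_le_of_card_ge (sup_le hX h.QB) (by rw [k1, ← k4, mul_comm])

theorem exists_off : ∃ A ∈ Am B, ¬ A ≤ Q := by
  by_contra! e
  exact h.jq (thompsonSubgroupOf_le_iff.2 e)

theorem cent (hy : y ∈ oz Q) : y ∈ 𝐂 B ↔ ψ y 1 = 0 := by
  refine ⟨fun e => ?_, fun e => ?_⟩
  · obtain ⟨b, hb, e'⟩ := h.uni 1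
    refine (h.mem_Y1 hy hb (fun hQ => ?_) (by rw [comm_one_of_mem e hb]; exact one_mem _)).2
    rw [h.mem_Q hb, e'] at hQ
    exact one_ne_zero hQ
  · obtain ⟨A, hA, hQ⟩ := h.exists_off
    obtain ⟨k1, k2, -⟩ := h.off_aux hA hQ h.WY le_rfl
    rw [← h.sup_eq_of_relIndex hA.1 k1]
    exact mem_cent_sup.2 ⟨Th.elemAb_le_centralizer hA.2.1 (k2 ⟨hy, hy, e⟩), oz_cent Q hy⟩

theorem YJ : oz Q ≤ Jt B := by
  obtain ⟨A, hA, hQ⟩ := h.exists_off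
  exact le_sup_right.trans (le_thompsonSubgroupOf (h.off_aux hA hQ h.WY le_rfl).2.2)

theorem JQ : Jt B ⊔ Q = B := by
  obtain ⟨A, hA, hQ⟩ := h.exists_off
  exact le_antisymm (sup_le (thompsonSubgroupOf_le B) h.QB) ((h.sup_eq_of_relIndex hA.1
    (h.off_aux hA hQ h.WY le_rfl).1).ge.trans (sup_le_sup_right (le_thompsonSubgroupOf hA) Q))

theorem mem_cent_of_E (hy : y ∈ oz Q) (hc : y ∈ 𝐂 E) : y ∈ 𝐂 P := by
  refine (h.zero y hy).1 ?_
  have k : ∀ M : SL(2, F), M • ψ y = ψ y := fun M => by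
    obtain ⟨x, hx, rfl⟩ := h.onto M
    rw [← h.act x (h.EP hx) y hy, hc x hx, mul_inv_cancel_right]
  have k1 := congrFun (k (u 1)) 0
  have k2 := congrFun (k (mk2 0 (-1) 1 0 (by simp))) 1
  rw [u_smul] at k1
  simp only [smul_fin_two, mk10, mk11] at k2
  exact vec_ext (by simpa using k2.trans (by simpa using k1)) (by simpa using k1)

theorem Ysq (hy : y ∈ oz Q) : y * y = 1 := (pow_two y).symm.trans (mem_oz.1 hy).2.2

/-- Every subgroup between `W` and `Y` behaves like a natural module for every subgroup `D` between `J(B)` and `B`. -/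
theorem wq (h1 : W ≤ U) (h2 : U ≤ oz Q) (d1 : Jt B ≤ D) (d2 : D ≤ B) : CL.CY.Wq D U := by
  have QU : ∀ {b}, b ∈ B → (b ∈ 𝐂 U ↔ r b 0 1 = 0) := fun hb =>
    ⟨fun e => (h.mem_Q hb).1 (h.Q_eq.le ⟨hb, centralizer_le h1 e⟩),
      fun e => centralizer_le h2 (h.QcY ((h.mem_Q hb).2 e))⟩
  have CD : ∀ {y}, y ∈ oz Q → (y ∈ 𝐂 D ↔ ψ y 1 = 0) := fun hy =>
    ⟨fun e => (h.cent hy).1 (h.JQ ▸ mem_cent_sup.2 ⟨centralizer_le d1 e, oz_cent Q hy⟩),
      fun e => centralizer_le d2 ((h.cent hy).2 e)⟩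
  refine ⟨h2.trans (h.YJ.trans d1), h2.trans (h.YQ.trans (h.QcY.trans (centralizer_le h2))),
    fun w hw => h.Ysq (h2 hw), fun b hb => mem_normalizer_fintype fun y hy => ?_, ?_,
    fun b hb hn w hw e => ?_, fun w hw b hb y hy e => ?_⟩
  · obtain ⟨w, hw, e⟩ := h.surj (ψ y)
    have c := (h.ψ_eq_iff (h.WY hw) (h2 hy)).1 e b (h.BP (d2 hb))
    have := mul_mem (h1 (mul_mem (conj_mem_of_normalizes h.nW (h.BP (d2 hb)) hw) (inv_mem hw))) hy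
    rwa [show b * w * b⁻¹ * w⁻¹ * y = b * y * b⁻¹ from
      calc _ = b * w * b⁻¹ * (w⁻¹ * y * b) * b⁻¹ := by group
        _ = _ := by rw [← c]; group] at this
  · refine (relIndex_of_add (fun x => r x 0 1) (fun x hx y hy => ?_) (fun t => ?_) fun _ hx => QU (d2 hx)).trans
      (relIndex_of_add (fun x => ψ x 1) (fun x hx y hy => by simp [h.add _ (h2 hx) _ (h2 hy)])
        (fun t => let ⟨w, hw, e⟩ := h.surj ![0, t]; ⟨w, h1 hw, by rw [e]; rfl⟩) fun _ hx => CD (h2 hx)).symm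
    · rw [h.mul _ (h.BP (d2 hx)) _ (h.BP (d2 hy)), h.eq_u (d2 hx), h.eq_u (d2 hy), ← u_add]; rfl
    · obtain ⟨b, hb, e⟩ := h.uni t
      have JB := thompsonSubgroupOf_le (p := 2) B
      obtain ⟨j, hj, q, hq, rfl⟩ := (mem_sup_of_normalizes_right (JB.trans (h.BP.trans h.nQ))).1 (h.JQ.ge hb)
      rw [h.mul _ (h.BP (JB hj)) _ (h.BP (h.QB hq)), (h.kerB q (h.QB hq)).2 hq, mul_one] at e
      exact ⟨j, d1 hj, by rw [e]; rfl⟩
  · refine (CD (h2 hw)).2 (h.mem_Y1 (h2 hw) (d2 hb) (fun q => hn (centralizer_le h2 (h.QcY q))) ?_).2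
    rw [commutatorElement_eq_one_iff_mul_comm.2 e.symm]
    exact one_mem _
  · have yQ : y ∈ Q := h.Q_eq.le ⟨d2 hy.1, centralizer_le h1 hy.2⟩
    have k1 : y * y ∈ 𝐂 E := fun g hg => by
      have k2 := h.pu g hg y yQ
      have k3 := h.QcY yQ _ (h.WY k2)
      have k4 := h.Ysq (h.WY k2)
      generalize hd : g * y * g⁻¹ * y⁻¹ = d at k3 k4
      calc g * (y * y) = g * y * g⁻¹ * y⁻¹ * y * (g * y * g⁻¹ * y⁻¹) * y * g := by group
        _ = y * y * g := by rw [hd, mul_assoc d, ← k3, ← mul_assoc, k4, one_mul]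
    have k5 := (h.zero _ (h.commY (h2 hw) (h.BP (d2 hb)))).2
      (h.mem_cent_of_E (h.commY (h2 hw) (h.BP (d2 hb))) (e ▸ k1))
    rw [h.ψ_commB (h2 hw) (d2 hb)] at k5
    have k6 : r b 0 1 * ψ w 1 = 0 := by simpa using congrFun k5 0
    exact (mul_eq_zero.1 k6).symm.imp (CD (h2 hw)).2 (QU (d2 hb)).2

theorem not_solvable [Finite F] (q4 : 4 ≤ Nat.card F) : ¬ Group.IsSolvable E := fun s => by
  let f : E →* SL(2, F) := MonoidHom.mk' (fun x => r x) fun x y => h.mul _ (h.EP x.2) _ (h.EP y.2)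
  have := Group.isSolvable_of_surjective (f := f) fun M => let ⟨x, hx, e⟩ := h.onto M; ⟨⟨x, hx⟩, e⟩
  obtain ⟨d, d0, d1⟩ := SL.exists_sq_ne_one_of_four_le_card (F := F) q4
  have c := CL.SL.commutator_eq_top_of_sq_ne_one (ι := Fin 2) d0 d1
  have : Nontrivial SL(2, F) := ⟨u 1, 1, fun e => one_ne_zero (u_eq_one.1 e)⟩
  exact (Group.IsSolvable.commutator_lt_top_of_nontrivial SL(2, F)).ne c

end Bl

end CL.FN
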