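import Cfsg.Agent.FGS.FN.BlB
import Cfsg.Agent.FGS.NZ.Defs

/-!
# Theorem N: a block gives the configuration `Nq`
-/

set_option autoImplicit false
set_option linter.unusedSectionVars false
open Cfsg Subgroup CL.Th CL.MSS CL.Push CL.BHS CL.B2 CL.Dickson CL.Quad
open CL.B2.PUq (br pre)
open CL.CO (V4 A4 Cf)
open CL.FZ (P2 Bad Fam Mx)
open scoped commutatorElement MatrixGroups

namespace CL.FN

variable {X : Type*} [Group X] [Finite X] {a b c g k s t v w x y z : X}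
  {A B D E G H K L M P Q R S T U V W Y : Subgroup X}

theorem Bl.nq {F : Type} [Field F] [Fintype F] [CharP F 2] {r : X → SL(2, F)} {ψ : X → Fin 2 → F}
    (h : Bl F P E B Q W r ψ) (PG : P ≤ G) (hV : V ≤ oz B) (nV : ¬ V ≤ 𝐂 P) (q4 : 4 ≤ Nat.card F) :
    ∃ x, CL.NZ.Nq G B W x ∧ x ∉ 𝐍 V := by
  obtain ⟨x, hx, ex⟩ := h.onto (mk2 0 (-1) 1 0 (by simp))
  have QW : ∀ {b}, b ∈ B → (b ∈ 𝐂 W ↔ r b 0 1 = 0) := fun hb =>
    ⟨fun e => (h.mem_Q hb).1 (h.Q_eq.le ⟨hb, e⟩), fun e => (h.Q_eq.ge ((h.mem_Q hb).2 e)).2⟩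
  refine ⟨x, ⟨h.wq le_rfl h.WY (thompsonSubgroupOf_le B) le_rfl, PG (h.EP hx),
    fun y hy => h.pu x hx y (h.Q_eq.le hy), fun b hb n b' hb' n' => ?_, ?_,
    fun e => h.jq ((le_inf (thompsonSubgroupOf_le B) e).trans h.Q_eq.le)⟩, fun e => ?_⟩
  · rw [QW hb] at n
    rw [QW hb'] at n'
    obtain ⟨c, hc⟩ := (bijective_frobenius F 2).2 (r b' 0 1 / r b 0 1)
    rw [frobenius_def] at hc
    have c0 : c ≠ 0 := fun q => div_ne_zero n' n (by rw [← hc, q]; simp)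
    obtain ⟨k, k1, k2, -, k4⟩ := h.tor c c0
    have m : k * b * k⁻¹ ∈ B := (mem_normalizer_iff.1 k2 b).1 hb
    refine ⟨k, ⟨PG (h.EP k1), k2⟩, fun y hy => h.pu k k1 y (h.Q_eq.le hy),
      (h.Q_eq.ge ((h.kerB _ (mul_mem (inv_mem m) hb')).1 ?_)).2⟩
    rw [h.mul _ (inv_mem (h.BP m)) _ (h.BP hb'), h.r_inv (h.BP m), h.r_conj (h.EP k1) (h.BP hb), k4, h.eq_u hb,
      dg_u, ← pow_two, hc, div_mul_cancel₀ _ n, ← h.eq_u hb', inv_mul_cancel]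
  · rw [← inf_relIndex_right, inf_comm, h.Q_eq, h.q_eq]
    omega
  · obtain ⟨t, ht, nt⟩ := SetLike.not_le_iff_exists.1 nV
    have p : ∀ u ∈ V, ψ u 1 = 0 := fun u hu => (h.cent (h.ozB (hV hu))).1 (oz_cent B (hV hu))
    have k := p _ ((mem_normalizer_iff.1 e t).1 ht)
    rw [h.act x (h.EP hx) t (h.ozB (hV ht)), ex] at k
    exact nt ((h.zero t (h.ozB (hV ht))).1 (vec_ext (by simpa [smul_fin_two, mk10, mk11] using k) (p t ht)))

end CL.FN
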