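import Cfsg.Agent.FGS.FZ.Defs2
import Cfsg.Agent.INV.B2.FM

/-!
# Theorem N: definitions

Theorem N: `A` acts coprimely on `G` and `C_G(A)` is nilpotent.  Then `G` is solvable.  The proof follows
`FGS/FZ` (Theorem Z), whose structures `P2 Bad Fam Mx Wc Lz` are used unchanged.
-/

set_option autoImplicit false
open Cfsg Subgroup CL.Th CL.MSS CL.Push CL.BHS CL.B2 CL.Dickson CL.Quad
open CL.FZ (P2)
open scoped commutatorElement MatrixGroups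

namespace CL.FN

variable {X : Type*} [Group X]

/-- The hypotheses of Theorem N. -/
structure Hc (A G S : Subgroup X) : Prop where
  nrm : A ≤ 𝐍 G
  syl : SylIn 2 S G
  AS : A ≤ 𝐍 S
  solv : ∀ H ≤ G, A ≤ 𝐍 H → H ≠ G → Group.IsSolvable H
  cop : (Nat.card A).Coprime (Nat.card G)
  nil : Group.IsNilpotent (G ⊓ 𝐂 A : Subgroup X)

/-- A simple counterexample. -/
structure Mn (A G S : Subgroup X) : Prop extends Hc A G S where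
  normal : G.Normal
  simple : IsSimpleGroup G
  nsol : ¬ Group.IsSolvable G

/-- The subgroup `V`. -/
structure Vd (A G S V : Subgroup X) : Prop extends Mn A G S where
  elem : IsElementaryAbelian 2 V
  le : V ≤ S
  ne : V ≠ ⊥
  SV : S ≤ 𝐍 V
  AV : A ≤ 𝐍 V
  p2 : P2 V (G ⊓ 𝐍 V)
  nn : ∀ U : Subgroup X, IsPGroup 2 U → V ≤ U → U ≤ G →
    𝐍 V ⊓ 𝐍 (S ⊓ 𝐂 V : Subgroup X) ≤ 𝐍 U → G ⊓ 𝐍 U ≤ 𝐍 V

/-- A block over a field `F` with at least four elements.  `P` has the Sylow 2-subgroup `B` and the normal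
subgroups `Q ≤ B` and `E`; `r` maps `E` onto `SL₂(F)`, its kernel on `P` acts on `Q` like `Q`;
`ψ` identifies `Y / C_Y(P)`, `Y = oz Q`, with the natural module; `W = [Y, E] ≥ [Q, E]`. -/
structure Bl (F : Type) [Field F] (P E B Q W : Subgroup X) (r : X → SL(2, F)) (ψ : X → Fin 2 → F) :
    Prop where
  syl : SylIn 2 B P
  EP : E ≤ P
  nE : P ≤ 𝐍 E
  QB : Q ≤ B
  nQ : P ≤ 𝐍 Q
  Weq : W = ⁅oz Q, E⁆
  pu : ∀ x ∈ E, ∀ y ∈ Q, x * y * x⁻¹ * y⁻¹ ∈ W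
  jq : ¬ Jt B ≤ Q
  baum : B ≤ 𝐂 (oz (Jt B))
  mul : ∀ x ∈ P, ∀ y ∈ P, r (x * y) = r x * r y
  onto : ∀ M, ∃ x ∈ E, r x = M
  ker : ∀ x ∈ P, r x = 1 → ∃ y ∈ Q, y⁻¹ * x ∈ 𝐂 Q
  kerB : ∀ b ∈ B, r b = 1 ↔ b ∈ Q
  fix : ∀ b ∈ B, r b • ![(1 : F), 0] = ![1, 0]
  uni : ∀ t, ∃ b ∈ B, r b = u t
  tor : ∀ (c : F) (hc : c ≠ 0), ∃ k ∈ E, k ∈ 𝐍 B ∧ Odd (orderOf k) ∧ r k = dg c hc
  add : ∀ x ∈ oz Q, ∀ y ∈ oz Q, ψ (x * y) = ψ x + ψ y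
  zero : ∀ x ∈ oz Q, ψ x = 0 ↔ x ∈ 𝐂 P
  surj : ∀ v, ∃ w ∈ W, ψ w = v
  act : ∀ e ∈ P, ∀ x ∈ oz Q, ψ (e * x * e⁻¹) = r e • ψ x
  Zeq : W ⊓ 𝐂 B = ⁅W, B⁆

/-- There is a block over a field with at least four elements in `H` with the Sylow subgroup `B` that does not
centralize `V`. -/
def Big (H B V : Subgroup X) : Prop :=
  ∃ (F : Type) (_ : Field F) (_ : Fintype F) (_ : CharP F 2) (P E Q W : Subgroup X) (r : X → SL(2, F))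
    (ψ : X → Fin 2 → F), P ≤ H ∧ Bl F P E B Q W r ψ ∧ ¬ V ≤ 𝐂 P ∧ 4 ≤ Nat.card F

end CL.FN
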