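import Cfsg.Agent.FGS.FN.Defs
import Cfsg.Agent.FGS.FZ.LZ

/-!
# Theorem N: the local analysis in the model
-/

set_option autoImplicit false
set_option linter.unusedSectionVars false
open Cfsg Subgroup CL.Th CL.MSS CL.Push CL.BHS CL.B2
open CL.CO hiding Hyp Min Mx Lc
open CL.FZ (Lz Bm_Bm norm_Bm_le cf_Bm cf_not_norm)
open scoped commutatorElement MatrixGroups

namespace CL.FN

/-- The local situation in a model (as `CL.CO.Lc`, without the hypothesis on tori). -/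
structure L0 {X : Type*} [Group X] (K R L T : Subgroup X) : Prop where
  chp : CharPIn 2 K
  syl : SylIn 2 R K
  uniq : MSS.UniqMax R K (K ⊓ 𝐍 R)
  RL : R ≤ L
  LR : L ≤ 𝐍 R
  TZ : T ≤ oz R
  LT : L ≤ 𝐍 T
  h1 : ∀ U ≤ R, T ≤ U → L ≤ 𝐍 U → ¬ K ≤ 𝐍 U

variable {X : Type*} [Group X] [Finite X] {K L P R T U V B : Subgroup X}

theorem bl_of_line (l : Ln0 Set.univ P B) (pu : ⁅O2 P, oU[2] P⁆ ≤ Wo P) {F : Type} [Field F] [Fintype F]
    [CharP F 2] {r : X → SL(2, F)} {ψ : X → Fin 2 → F} (m : FM F P B r ψ) (h4 : 4 ≤ Nat.card F) :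
    Bl F P (oU[2] P) B (O2 P) (Wo P) r ψ := by
  refine ⟨l.syl, oU_le P, oU_normal P, m.Q_le, oP_normal P, rfl, fun x hx y hy => ?_, l.jq, l.baum, m.mul,
    fun M => ?_, fun x hx e => ⟨x, (m.ker x hx).1 e, by rw [inv_mul_cancel]; exact one_mem _⟩,
    fun b hb => m.ker b (m.le hb), fun b hb => (m.fix b (m.le hb)).1 hb, m.exists_u,
    fun c hc => m.exists_dg hc, m.add, m.zero, m.surj, m.act, l.Z_eq.symm⟩
  · rw [← commutatorElement_def, ← commutatorElement_inv]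
    exact inv_mem (pu (commutator_mem_commutator hy hx))
  · let ρ : P →* SL(2, F) := MonoidHom.mk' (fun x => r x) fun x y => m.mul _ x.2 _ y.2
    have hρ : Function.Surjective ρ := fun M => let ⟨x, hx, e⟩ := m.onto M; ⟨⟨x, hx⟩, e⟩
    obtain ⟨c, c0, c1⟩ := SL.exists_sq_ne_one_of_four_le_card (F := F) h4
    have hM : M ∈ _root_.commutator SL(2, F) := (SL.commutator_eq_top_of_sq_ne_one c0 c1).ge (mem_top M)
    rw [← res_sl2 (p := 2), ← oU_pResidual_map hρ] at hM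
    obtain ⟨e, he, rfl⟩ := hM
    exact ⟨e, ⟨e, he, rfl⟩, rfl⟩

namespace L0
variable (h : L0 K R L T)
include h

theorem TR : T ≤ R := h.TZ.trans (oz_le R)

theorem RT : R ≤ 𝐂 T := cent_symm (h.TZ.trans (oz_cent R))

theorem le_N (h1 : R ≤ U) (h2 : U ≤ K) (h3 : ¬ K ≤ U) : U ≤ 𝐍 R :=
  ((h.uniq.le_or_eq h1 h2).resolve_right fun e => h3 e.ge).trans inf_le_right

theorem cT : K ⊓ 𝐂 T ≤ 𝐍 R :=
  h.le_N (le_inf h.syl.le h.RT) inf_le_left fun e =>
    h.h1 T h.TR le_rfl h.LT (cent_le_norm (e.trans inf_le_right))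

theorem TV : T ≤ oz (O2 K) :=
  have k : T ≤ 𝐂 (O2 K) := cent_symm ((oP_le_sylIn h.syl).trans h.RT)
  le_oz (elemAb_of_le (oz_elem R) h.TZ) ((le_inf (h.TR.trans h.syl.le) k).trans h.chp) k

theorem inf_le (h1 : U ≤ K ⊓ 𝐍 R) (h2 : K ≤ 𝐍 U) : R ⊓ U ≤ O2 K :=
  h.uniq.inf_le_pcoreOf h.syl h1 h2

theorem nV : K ≤ 𝐍 (oz (O2 K)) := (oP_normal K).trans (norm_oz _)

theorem nC : K ≤ 𝐍 (K ⊓ 𝐂 (oz (O2 K)) : Subgroup X) :=
  CL.MSS.le_normalizer_inf le_normalizer (CL.MSS.le_normalizer_centralizer h.nV)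

theorem CN : K ⊓ 𝐂 (oz (O2 K)) ≤ 𝐍 R := (inf_le_inf_left _ (centralizer_le h.TV)).trans h.cT

theorem OV : R ⊓ 𝐂 (oz (O2 K)) = O2 K :=
  le_antisymm ((le_inf inf_le_left (inf_le_inf_right _ h.syl.le)).trans
    (h.inf_le (le_inf inf_le_left h.CN) h.nC)) (le_inf (oP_le_sylIn h.syl) (cent_symm (oz_cent _)))

theorem CR (hU : IsPGroup 2 U) (hK : U ≤ K) : ⁅K ⊓ 𝐂 (oz (O2 K)), U⁆ ≤ O2 K := by
  obtain ⟨g, hg, e⟩ := h.syl.exists_le_conj hU hK
  have e1 : g •ᶜ (K ⊓ 𝐂 (oz (O2 K))) = K ⊓ 𝐂 (oz (O2 K)) := cj_eq_of_mem_normalizer (h.nC hg)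
  have k : ⁅K ⊓ 𝐂 (oz (O2 K)), R⁆ ≤ O2 K :=
    (commutator_le_inf_of_normalizes h.CN (h.syl.le.trans h.nC)).trans
      ((le_inf inf_le_right (inf_le_left.trans inf_le_right)).trans h.OV.le)
  refine (commutator_mono e1.ge e).trans ?_
  rw [← map_commutator]
  exact (map_mono k).trans (cj_eq_of_mem_normalizer (oP_normal K hg)).le

theorem ls : ∃ 𝓛, LS K (oz (O2 K)) 𝓛 := by
  have hf := K.subtype_injective
  have hVH : oz (O2 K) ≤ K := (oz_le _).trans (oP_le K)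
  have eV : ((oz (O2 K)).subgroupOf K).map K.subtype = oz (O2 K) := map_subgroupOf_eq_of_le hVH
  have eR : (R.subgroupOf K).map K.subtype = R := map_subgroupOf_eq_of_le h.syl.le
  have : ((oz (O2 K)).subgroupOf K).Normal := (normal_subgroupOf_iff_le_normalizer hVH).2 h.nV
  have hV := MSS.elemAb_subgroupOf (oz_elem (p := 2) (O2 K)) K
  have s := (ls_top (stdModel _) (fh_of (stdModel _) hV (subgroupOf_self K ▸ h.syl.subgroupOf le_rfl)
    (fun N hN e => ?_) fun k hk => ?_) hV).map hf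
  · rw [eV, ← MonoidHom.range_eq_map, range_subtype] at s
    exact ⟨_, s⟩
  · have e1 : N.map K.subtype ≤ (K ⊓ 𝐂 (oz (O2 K))) ⊔ R := by
      refine (map_mono e).trans ?_
      rw [Subgroup.map_sup, eR, sup_comm]
      exact sup_le_sup_right (le_inf (map_subtype_le _)
        (((map_le_cent_iff hf).2 le_rfl).trans (eV.symm ▸ le_rfl))) _
    have e2 : K ≤ 𝐍 (N.map K.subtype) := by
      have := (map_mono (le_normalizer_of_normal : ⊤ ≤ 𝐍 N)).trans (le_normalizer_map K.subtype)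
      rwa [← MonoidHom.range_eq_map, range_subtype] at this
    rw [← map_le_cent_iff hf, eV, ← oU_sup_sylIn (h.syl.inf_normal_of_le e2 (map_subtype_le _))]
    exact sup_le ((oU_le_of_le_sup h.syl.pgroup (h.syl.le.trans h.nC) e1).trans inf_le_right)
      ((h.inf_le (le_inf (map_subtype_le _) (e1.trans (sup_le h.CN le_normalizer))) e2).trans
        (cent_symm (oz_cent _)))
  · rw [← map_mem_cent_iff hf, map_inf_cent hf, eV, eR] at hk
    have k1 : (k : X) ∈ 𝐍 R := h.cT ⟨k.2, centralizer_le (le_inf h.TV (cent_symm h.RT)) hk⟩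
    refine mem_normalizer_iff.2 fun x => ?_
    exact mem_normalizer_iff.1 k1 x

theorem TJ : T ≤ Jt R := h.TZ.trans (omegaOne_center_le_thompsonSubgroupOf R)

theorem jn : ¬ Jt R ≤ O2 K := fun e =>
  h.h1 _ (thompsonSubgroupOf_le R) h.TJ (h.LR.trans (normalizer_le_normalizer_thompsonSubgroupOf R))
    (by
      rw [← thompsonSubgroupOf_eq_of_le e (oP_le_sylIn h.syl)]
      exact (oP_normal K).trans (normalizer_le_normalizer_thompsonSubgroupOf _))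

end L0

theorem L0.exists_line (h : L0 K R L T) : ∃ P ≤ K, Ln0 Set.univ P (Bm R) := by
  obtain ⟨𝓛, s⟩ := h.ls
  have VR : oz (O2 K) ≤ R := (oz_le _).trans (oP_le_sylIn h.syl)
  obtain ⟨A, hA, L', hL, e⟩ : ∃ A ∈ Am R, ∃ L' ∈ 𝓛, ¬ A ⊓ L' ≤ 𝐂 (oz (O2 K)) := by
    by_contra! hc
    refine h.jn (thompsonSubgroupOf_le_iff.2 fun A hA => (le_inf hA.1 ?_).trans h.OV.le)
    have off := off_am h.syl s.elem VR hA
    refine (s.dec A off).trans (sup_le inf_le_right (iSup₂_le fun L' hL => ?_))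
    rw [cpt_eq (s.cp L' hL) s.norm off.le]
    exact sup_le (hc A hA L' hL) inf_le_right
  obtain ⟨P₀, R', h1, h2, h3, p, -⟩ := extB' h.syl s h.OV (fun _ => h.CR) h.CN VR hL hA e
  obtain ⟨P, k1, k2, -⟩ := extA (D := Set.univ) p (t := 1) trivial (one_mem _) (one_mem _)
  have j : Jt R' = Jt R := thompsonSubgroupOf_eq_of_le ((J_le_baum R).trans h3) h2
  have b : Bm R' = Bm R := by
    show R' ⊓ 𝐂 (oz (Jt R')) = _
    rw [j]
    exact le_antisymm (inf_le_inf_right _ h2) (le_inf h3 inf_le_right)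
  exact ⟨P, k1.trans h1, b ▸ k2⟩

namespace L0
variable (h : L0 K R L T) (hP : P ≤ K) (l : Ln0 Set.univ P (Bm R))
include h hP l

theorem sup_eq : K ≤ P ⊔ R := by
  by_contra e
  obtain ⟨x, hx, hn⟩ := l.exists_x
  exact hn (norm_baum R (h.le_N le_sup_right (sup_le hP h.syl.le) e (mem_sup_left (oU_le P hx))))

theorem pu : ⁅O2 P, oU[2] P⁆ ≤ Wo P := by
  refine amalPU (K := L) l le_rfl (sup_of_le_left l.Q_le) inf_le_right ((baum_le R).trans h.RL)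
    (h.LR.trans (norm_baum R)) fun U hU hn => ?_
  have nK : K ≤ 𝐍 U := (h.sup_eq hP l).trans ((sup_le_sup_left h.RL _).trans hn)
  have nC : K ≤ 𝐍 (K ⊓ 𝐂 U : Subgroup X) :=
    CL.MSS.le_normalizer_inf le_normalizer (CL.MSS.le_normalizer_centralizer nK)
  refine (oU_mono hP).trans ((h.uniq.presOf_le_of_not_le h.syl.pgroup inf_le_left
    (h.syl.le.trans nC) fun e => ?_).trans inf_le_right)
  have e1 : R ⊓ 𝐂 U = O2 K ⊓ 𝐂 U := le_antisymm (le_inf ((le_inf inf_le_left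
    (inf_le_inf_right _ h.syl.le)).trans (h.inf_le e nC)) inf_le_right)
    (inf_le_inf_right _ (oP_le_sylIn h.syl))
  refine h.h1 (R ⊓ 𝐂 U) inf_le_left (le_inf h.TR (cent_symm ((hU.trans (baum_le R)).trans h.RT)))
    (CL.MSS.le_normalizer_inf h.LR (CL.MSS.le_normalizer_centralizer (le_sup_right.trans hn))) ?_
  rw [e1]
  exact CL.MSS.le_normalizer_inf (oP_normal K) (CL.MSS.le_normalizer_centralizer nK)

end L0

theorem L0.cf (h : L0 K R L T) : (∃ z v, ∃ x ∈ K, Cf R z v x) ∨ Big K (Bm R) T := by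
  obtain ⟨P, hP, l⟩ := h.exists_line
  by_cases hq : qo P (Bm R) = 2
  swap
  · obtain ⟨F, _, _, _, r, ψ, m⟩ := l.fm
    have h4 : 4 ≤ Nat.card F := m.q_eq ▸ l.four_le_q hq
    exact .inr ⟨F, _, ‹_›, ‹_›, P, _, _, _, r, ψ, hP, bl_of_line l (h.pu hP l) m h4, fun e =>
      h.h1 T h.TR le_rfl h.LT (cent_le_norm ((h.sup_eq hP l).trans (sup_le (cent_symm e) h.RT))), h4⟩
  left
  obtain ⟨z, z2, hz⟩ := l.two_Z hq
  obtain ⟨v, hv, hn⟩ := SetLike.not_le_iff_exists.1 l.W_not_le_Z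
  obtain ⟨A, hA, hQ⟩ := l.exists_off
  obtain ⟨j, hj, hj'⟩ := SetLike.not_le_iff_exists.1 hQ
  obtain ⟨x, hx, -, -, e1, e2, -⟩ := l.two_e hq hz hv hn (hA.1 hj) hj'
    ((pow_two j).symm.trans ((Th.elemAb_iff.1 hA.2.1).2 j hj))
  have zZ : z ∈ Zo P (Bm R) := hz ▸ mem_zpowers z
  have zW := l.Z_le zZ
  have zz := LB.Ysq (W_le_Y P zW)
  have vv := LB.Ysq (W_le_Y P hv)
  have zv := LB.Ycomm (W_le_Y P zW) (W_le_Y P hv)
  have z1 : z ≠ 1 := fun e => by simp [e] at z2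
  refine ⟨z, v, x, hP (oU_le P hx), ⟨zz, vv, z1, zv, e1, e2⟩, l.W_le zW, l.W_le hv,
    fun b hb => l.Z_cent zZ b hb, fun b hb => ?_, fun q hq' e => ?_, j, ?_, l.two_cj hq hz hv hn (hA.1 hj) hj'⟩
  · by_cases e : b ∈ O2 P
    · exact Or.inl (by rw [← Q_le_cent_W P e v hv, mul_inv_cancel_right])
    · exact Or.inr (l.two_cj hq hz hv hn hb e)
  · have k : q ∈ O2 P := by
      by_contra e'
      have := l.two_cj hq hz hv hn hq' e'
      rw [e, mul_inv_cancel_right] at this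
      exact z1 (left_eq_mul.1 this)
    have k' : ⁅x, q⁆ ∈ Wo P := by
      rw [← commutatorElement_inv]
      exact inv_mem (h.pu hP l (commutator_mem_commutator k hx))
    exact (mem_V4 zz vv zv).2 (l.two_W hq hz hv hn k')
  · rw [← Jt_Bm]
    exact le_thompsonSubgroupOf hA hj

theorem Big.mono {H H' : Subgroup X} (h : Big H B V) (e : H ≤ H') : Big H' B V :=
  let ⟨F, _, _, _, P, E, Q, W, r, ψ, h1, h2⟩ := h
  ⟨F, _, ‹_›, ‹_›, P, E, Q, W, r, ψ, h1.trans e, h2⟩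

theorem lz_cf (h : Lz K R L V) (LV : L ≤ 𝐍 V) :
    (∃ z v, ∃ x ∈ K, Cf R z v x ∧ x ∉ 𝐍 V) ∨ Big K (Bm R) V := by
  obtain ⟨P, hP, cp, s, u, hn⟩ := h.par
  refine (L0.cf (K := P) (R := Bm R) (L := L) (T := V) ⟨cp, s, u,
    (baum_le R).trans h.RL, h.LB, h.VZ, LV, h.h1' hP hn⟩).imp ?_ fun b => (Bm_Bm R ▸ b).mono hP
  rintro ⟨z, v, x, hx, c⟩
  refine ⟨z, v, x, hP hx, cf_Bm.1 c, fun e => cf_not_norm (cf_Bm.1 c) ?_⟩
  exact (u.max (P ⊓ 𝐍 V) (le_inf s.le ((baum_le R).trans h.RV))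
    (inf_lt_left.2 hn) ⟨hx, e⟩).2

end CL.FN
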