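import Cfsg.Agent.FGS.FZ.MB
import Cfsg.Agent.SOLV.Coprime

/-!
# Coprime action with nilpotent fixed points, module lemma: orbit products and small elements
-/

set_option autoImplicit false
set_option linter.unusedSectionVars false
open Cfsg Subgroup CL.MSS CL.B2 CL.FZ.Mo
open scoped commutatorElement

namespace CL.FN

/-- The product over an orbit of commuting elements. -/
theorem orb {A Γ : Type*} [Group A] [Group Γ] [Finite Γ] (φ : A →* MulAut Γ) (g : Γ)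
    (hc : ∀ a, Commute (φ a g) g) : ∃ g', (∀ a, φ a (g * g') = g * g') ∧
      ∀ K : Subgroup Γ, (∀ a, φ a g ≠ g → φ a g ∈ K) → g' ∈ K := by
  classical
  let Ω : Finset Γ := (Set.toFinite {z | ∃ a, φ a g = z}).toFinset
  have mΩ : ∀ {z}, z ∈ Ω ↔ ∃ a, φ a g = z := Set.Finite.mem_toFinset _
  have cm' : (Ω : Set Γ).Pairwise (Function.onFun Commute id) := fun x hx y hy _ => by
    obtain ⟨a, rfl⟩ := mΩ.1 hx
    obtain ⟨b, rfl⟩ := mΩ.1 hy
    have := (hc (b⁻¹ * a)).map (φ b)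
    rwa [← MulAut.mul_apply, ← map_mul, mul_inv_cancel_left] at this
  have g0 : g ∈ Ω := mΩ.2 ⟨1, by simp⟩
  refine ⟨(Ω.erase g).noncommProd id (cm'.mono (Finset.coe_subset.2 (Finset.erase_subset _ _))), fun a => ?_,
    fun K hK => noncommProd_mem _ _ fun z hz => ?_⟩
  · have e := Finset.mul_noncommProd_erase Ω g0 id cm'
    rw [id] at e
    rw [e]
    have inj : Set.InjOn (φ a) Ω := (φ a).injective.injOn
    have im : Ω.image (φ a) = Ω := Finset.eq_of_subset_of_card_le (fun b hb => by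
      obtain ⟨c, hc, rfl⟩ := Finset.mem_image.1 hb
      obtain ⟨d, rfl⟩ := mΩ.1 hc
      exact mΩ.2 ⟨a * d, by rw [map_mul, MulAut.mul_apply]⟩) (Finset.card_image_of_injOn inj).ge
    refine (Finset.map_noncommProd Ω id cm' (φ a)).trans ?_
    unfold Finset.noncommProd
    congr 1
    rw [Multiset.map_id]
    exact (Finset.image_val_of_injOn inj).symm.trans (congrArg Finset.val im)
  · obtain ⟨a, rfl⟩ := mΩ.1 (Finset.mem_of_mem_erase hz)
    exact hK a (Finset.ne_of_mem_erase hz)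

theorem orb_cj {Γ : Type*} [Group Γ] [Finite Γ] (A : Subgroup Γ) (g : Γ) (hc : ∀ a ∈ A, Commute (a * g * a⁻¹) g) :
    ∃ g', g * g' ∈ 𝐂 A ∧ ∀ K : Subgroup Γ, (∀ a ∈ A, a * g * a⁻¹ ≠ g → a * g * a⁻¹ ∈ K) → g' ∈ K := by
  obtain ⟨g', h1, h2⟩ := orb (MulAut.conj.comp A.subtype) g fun a => hc a a.2
  exact ⟨g', fun a ha => mul_inv_eq_iff_eq_mul.1 (h1 ⟨a, ha⟩), fun K hK => h2 K fun a => hK a a.2⟩

/-- An inverted element and its involution, whose other conjugates commute with both. -/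
theorem n2_false {Γ : Type*} [Group Γ] [Finite Γ] {A F S : Subgroup Γ} (odd : Odd (Nat.card F)) (AF : A ≤ 𝐍 F)
    (AS : A ≤ 𝐍 S) (n2 : ∀ x ∈ F, x ∈ 𝐂 A → ∀ s ∈ S, s ∈ 𝐂 A → x * s = s * x) {x t : Γ} (hx : x ∈ F) (ht : t ∈ S)
    (e : t * x * t⁻¹ = x⁻¹) (H : ∀ a ∈ A, (a * x * a⁻¹ = x ∧ a * t * a⁻¹ = t) ∨
      (Commute (a * x * a⁻¹) x ∧ Commute (a * x * a⁻¹) t ∧ Commute (a * t * a⁻¹) t)) : x = 1 := by
  obtain ⟨f, f1, f2⟩ := orb_cj A x fun a ha => (H a ha).elim (fun h => by rw [h.1]) fun h => h.1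
  obtain ⟨s, s1, s2⟩ := orb_cj A t fun a ha => (H a ha).elim (fun h => by rw [h.2]) fun h => h.2.2
  have fF : f ∈ F := f2 F fun a ha _ => (mem_normalizer_iff.1 (AF ha) x).1 hx
  have sS : s ∈ S := s2 S fun a ha _ => (mem_normalizer_iff.1 (AS ha) t).1 ht
  have ft : f * t = t * f := mem_centralizer_singleton_iff.1 (f2 (centralizer {t}) fun a ha n =>
    mem_centralizer_singleton_iff.2 ((H a ha).resolve_left fun h => n h.1).2.1)
  have st : s * t = t * s := mem_centralizer_singleton_iff.1 (s2 (centralizer {t}) fun a ha n =>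
    mem_centralizer_singleton_iff.2 ((H a ha).resolve_left fun h => n h.2).2.2)
  have sx : s * x = x * s := mem_centralizer_singleton_iff.1 (s2 (centralizer {x}) fun a ha n => by
    have k := ((H a⁻¹ (A.inv_mem ha)).resolve_left fun h => n (by nth_rewrite 1 [← h.2]; group)).2.1
    refine mem_centralizer_singleton_iff.2 ?_
    calc a * t * a⁻¹ * x = a * (t * (a⁻¹ * x * a⁻¹⁻¹)) * a⁻¹ := by group
      _ = _ := by rw [← k.eq]; group)
  have k := n2 _ (F.mul_mem hx fF) f1 _ (S.mul_mem ht sS) s1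
  have k1 : x * x = s * f * s⁻¹ * f⁻¹ := by
    calc x * x = x * (x * f * (t * s)) * s⁻¹ * t⁻¹ * f⁻¹ := by group
      _ = x * (t * (s * x) * t⁻¹) * (t * f) * s⁻¹ * t⁻¹ * f⁻¹ := by rw [k]; group
      _ = x * (t * x * t⁻¹) * (t * s) * t⁻¹ * (f * t) * s⁻¹ * t⁻¹ * f⁻¹ := by rw [sx, ft]; group
      _ = s * f * (t * s⁻¹ * t⁻¹) * f⁻¹ := by rw [e, ← st]; group
      _ = _ := by rw [← conj_inv, ← st]; group
  have c : Commute t (x * x) := by
    have a : Commute t f := ft.symm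
    have b : Commute t s := st.symm
    rw [k1]
    exact ((b.mul_right a).mul_right b.inv_right).mul_right a.inv_right
  have k2 : x * x = (x * x)⁻¹ := by
    calc x * x = t * (x * x) * t⁻¹ := by rw [c.eq]; group
      _ = (t * x * t⁻¹) * (t * x * t⁻¹) := by group
      _ = _ := by rw [e]; group
  exact CL.TDih.ne_inv_of_odd odd hx (eq_inv_of_mul_eq_one_left (CL.TDih.ne_inv_of_odd odd (F.mul_mem hx hx) k2))

variable {W : Type*} [CommGroup W] [Finite W] {A F S : Subgroup (MulAut W)} {a b g t x y z : MulAut W}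
  {U U' : Subgroup W} {u v w : W}

/-- `F` is a nilpotent group of odd order acting on `W`, normalized by the coprime group `A`, and the
fixed points of `A` in `F` and in `W` commute. -/
structure Hn (A F : Subgroup (MulAut W)) : Prop where
  two : ∀ w : W, w * w = 1
  odd : Odd (Nat.card F)
  nil : Group.IsNilpotent F
  AF : A ≤ 𝐍 F
  cop : (Nat.card A).Coprime (Nat.card F)
  oA : Odd (Nat.card A)
  n1 : ∀ x ∈ F, x ∈ 𝐂 A → ∀ w ∈ fxs A, x w = w

theorem ord_dvd {Γ : Type*} [Group Γ] {F : Subgroup Γ} {x : Γ} (hx : x ∈ F) : orderOf x ∣ Nat.card F := by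
  rw [← Nat.card_zpowers]; exact card_dvd_of_le (zpowers_le.2 hx)

theorem Hn.oo (k : Hn A F) (hx : x ∈ F) : Odd (orderOf x) := Odd.of_dvd_nat k.odd (ord_dvd hx)
theorem Hn.oa (k : Hn A F) (hx : x ∈ A) : Odd (orderOf x) := Odd.of_dvd_nat k.oA (ord_dvd hx)
theorem Hn.cj (k : Hn A F) (ha : a ∈ A) (hx : x ∈ F) : a * x * a⁻¹ ∈ F := (mem_normalizer_iff.1 (k.AF ha) x).1 hx

theorem one_of (two : ∀ w : W, w * w = 1) (ho : Odd (orderOf g)) (h1 : w ∈ cm g) (h2 : g w = w) : w = 1 :=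
  mem_bot.1 ((fx_inf_cm two ho).le ⟨h2, h1⟩)

theorem Hn.fix (k : Hn A F) (hx : x ∈ F) (H : ∀ a ∈ A, (a * x * a⁻¹ = x ∧ a w = w) ∨
    (Commute (a * x * a⁻¹) x ∧ (a * x * a⁻¹) w = w)) : x w = w := by
  obtain ⟨f, f1, f2⟩ := orb_cj A x fun a ha => (H a ha).elim (fun h => by rw [h.1]) fun h => h.1
  obtain ⟨v, v1, v2⟩ := orb A.subtype w fun _ => Commute.all _ _
  have fF : f ∈ F := f2 F fun a ha _ => k.cj ha hx
  have fc : f * x = x * f := mem_centralizer_singleton_iff.1 (f2 (centralizer {x}) fun a ha n =>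
    mem_centralizer_singleton_iff.2 ((H a ha).resolve_left fun h => n h.1).1)
  have fw : f w = w := f2 (MulAction.stabilizer (MulAut W) w) fun a ha n => ((H a ha).resolve_left fun h => n h.1).2
  have xv : x v = v := v2 (fx x) fun a n => by
    have e := ((H a⁻¹ (A.inv_mem a.2)).resolve_left fun h => n (by
      change a.1 w = w
      nth_rewrite 1 [← h.2]
      simp)).2
    have := congrArg a.1 e
    simpa [mem_fx] using this
  have e := k.n1 _ (F.mul_mem hx fF) f1 _ (mem_fxs.2 fun a ha => v1 ⟨a, ha⟩)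
  have c : ∀ u, f (x u) = x (f u) := fun u => by rw [← MulAut.mul_apply, fc, MulAut.mul_apply]
  have e1 : x (w * v) * (w * v)⁻¹ = x w * w⁻¹ := by rw [map_mul, xv, mul_inv, mul_mul_mul_comm, mul_inv_cancel, mul_one]
  have e2 : (x * f) (x w * w⁻¹) = x w * w⁻¹ := by
    have e' : x (f (w * v)) = w * v := e
    rw [← e1, map_mul, map_inv, e, MulAut.mul_apply, c, e']
  rw [MulAut.mul_apply, map_mul f, map_inv, c, fw] at e2
  exact mul_inv_eq_one.1 (one_of k.two (k.oo hx) (cm_mem x w) e2)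

theorem four (h4 : Nat.card U ≤ 4) {p q c d : W} (hp : p ∈ U) (hq : q ∈ U) (hc : c ∈ U) (hd : d ∈ U) (p1 : p ≠ 1)
    (q1 : q ≠ 1) (pq : p ≠ q) (c1 : c ≠ 1) (cp : c ≠ p) (cq : c ≠ q) (d1 : d ≠ 1) (dp : d ≠ p) (dq : d ≠ q) : c = d := by
  classical
  by_contra n
  have s : ({1, p, q, c, d} : Finset W).card = 5 := by
    rw [Finset.card_insert_of_notMem (by simp [p1.symm, q1.symm, c1.symm, d1.symm]),
      Finset.card_insert_of_notMem (by simp [pq, cp.symm, dp.symm]),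
      Finset.card_insert_of_notMem (by simp [cq.symm, dq.symm]), Finset.card_pair n]
  have l : (({1, p, q, c, d} : Finset W) : Set W) ⊆ (U : Set W) := by
    intro w hw
    simp only [Finset.coe_insert, Finset.coe_singleton, Set.mem_insert_iff, Set.mem_singleton_iff] at hw
    rcases hw with rfl | rfl | rfl | rfl | rfl
    exacts [one_mem _, hp, hq, hc, hd]
  have e := Set.ncard_le_ncard l
  rw [Set.ncard_coe_finset, s, ← Nat.card_coe_set_eq] at e
  exact absurd (e.trans h4) (by norm_num)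

theorem third (two : ∀ w : W, w * w = 1) (h4 : Nat.card U ≤ 4) {p q c : W} (hp : p ∈ U) (hq : q ∈ U) (hc : c ∈ U)
    (p1 : p ≠ 1) (q1 : q ≠ 1) (pq : p ≠ q) (c1 : c ≠ 1) (cp : c ≠ p) (cq : c ≠ q) : c = p * q :=
  four h4 hp hq hc (mul_mem hp hq) p1 q1 pq c1 cp cq
    (fun e => pq ((eq_inv_of_mul_eq_one_left e).trans (inv_eq_of_mul_eq_one_right (two q)))) (by simpa using q1)
    (by simpa using p1)

theorem le_of_two (two : ∀ w : W, w * w = 1) (h4 : Nat.card U ≤ 4) {p q : W} (hp : p ∈ U) (hq : q ∈ U) (hp' : p ∈ U')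
    (hq' : q ∈ U') (p1 : p ≠ 1) (q1 : q ≠ 1) (pq : p ≠ q) : U ≤ U' := fun c hc => by
  by_cases c1 : c = 1
  · exact c1 ▸ one_mem _
  by_cases cp : c = p
  · exact cp ▸ hp'
  by_cases cq : c = q
  · exact cq ▸ hq'
  exact third two h4 hp hq hc p1 q1 pq c1 cp cq ▸ mul_mem hp' hq'

theorem sq_eq (two : ∀ w : W, w * w = 1) (ho : Odd (orderOf g)) (h4 : Nat.card U ≤ 4) (hg : Iv g U) (hu : u ∈ U)
    (n : g u ≠ u) : g (g u) = u * g u := by
  have u1 : u ≠ 1 := by rintro rfl; simp at n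
  exact third two h4 hu (hg u hu) (hg _ (hg u hu)) u1 (by simpa using u1) n.symm (by simpa using u1)
    (fun e => n (mem_fx.1 (fx_sq ho ▸ (e : u ∈ fx (g * g))))) fun e => n (g.injective e)

theorem cube (two : ∀ w : W, w * w = 1) (ho : Odd (orderOf g)) (h4 : Nat.card U ≤ 4) (hg : Iv g U) (hu : u ∈ U) :
    (g ^ 3) u = u := by
  rw [pow_three', MulAut.mul_apply, MulAut.mul_apply]
  by_cases n : g u = u
  · rw [n, n, n]
  · have e := sq_eq two ho h4 hg hu n
    rw [e, map_mul, e, mul_left_comm, two, mul_one]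

/-- an element of order prime to six is trivial on a four-group -/
theorem triv (two : ∀ w : W, w * w = 1) (ho : Odd (orderOf g)) (h3 : ¬ 3 ∣ orderOf g) (h4 : Nat.card U ≤ 4) (hg : Iv g U)
    (hu : u ∈ U) : g u = u :=
  mem_fx.1 (fx_of_pow ((Nat.Prime.coprime_iff_not_dvd Nat.prime_three).2 h3) ▸ (cube two ho h4 hg hu : u ∈ fx (g ^ 3)))

theorem exists_cm (x1 : x ≠ 1) : ∃ u ∈ cm x, u ≠ 1 := by
  by_contra! h
  exact x1 (eq_one_of_cm (eq_bot_iff.2 fun u hu => h u hu))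

theorem one_of_fix (two : ∀ w : W, w * w = 1) (ho : Odd (orderOf z)) (h4 : Nat.card U ≤ 4) (hz : cm z ≤ U) (hu : u ∈ U)
    (u1 : u ≠ 1) (e : z u = u) : z = 1 := by
  by_contra z1
  obtain ⟨v, hv, v1⟩ := exists_cm z1
  exact u1 (one_of two ho (le_of_two two h4 (hz hv) (hz (iv_of_cm_le le_rfl v hv)) hv (iv_of_cm_le le_rfl v hv) v1
    (by simpa using v1) (fun e => v1 (one_of two ho hv e.symm)) hu) e)

theorem comm_of_inv {Γ : Type*} [Group Γ] [Finite Γ] {a x : Γ} (ho : Odd (orderOf a)) (e : a * x * a⁻¹ = x⁻¹) :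
    a * x * a⁻¹ = x := by
  have c : Commute (a ^ 2) x := by
    rw [commute_iff_eq, ← mul_inv_eq_iff_eq_mul]
    calc a ^ 2 * x * (a ^ 2)⁻¹ = a * (a * x * a⁻¹) * a⁻¹ := by rw [sq]; group
      _ = _ := by rw [e, ← conj_inv, e, inv_inv]
  obtain ⟨n, hn⟩ := exists_pow_eq_self_of_coprime (x := a) (n := 2) (Nat.coprime_two_left.2 ho)
  rw [mul_inv_eq_iff_eq_mul, ← hn]
  exact (c.pow_left n).eq

namespace Hn
variable (k : Hn A F)
include k

theorem eq_of (hx : x ∈ F) (hy : y ∈ F) (h4 : Nat.card (cm x) ≤ 4) (h4' : Nat.card (cm y) ≤ 4)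
    (hv : v ∈ cm x) (hv' : v ∈ cm y) (v1 : v ≠ 1) (i : Iv x (cm y)) : y = x ∨ y = x⁻¹ := by
  have ix : Iv x (cm x) := iv_of_cm_le le_rfl
  have n : x v ≠ v := fun e => v1 (one_of k.two (k.oo hx) hv e)
  have le : cm y ≤ cm x := le_of_two k.two h4' hv' (i v hv') hv (ix v hv) v1 (by simpa using v1) n.symm
  have m : y v ∈ cm x := le (iv_of_cm_le le_rfl v hv')
  have x3 : x ^ 3 = 1 := one_of_fix k.two (k.oo (F.pow_mem hx 3)) h4 (cm_pow x 3) hv v1 (cube k.two (k.oo hx) h4 ix hv)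
  by_cases e : y v = x v
  · refine .inl (inv_mul_eq_one.1 (one_of_fix k.two (k.oo (F.mul_mem (F.inv_mem hy) hx)) h4
      ((cm_mul _ _).trans (sup_le ((cm_inv y).le.trans le) le_rfl)) hv v1 ?_))
    rw [MulAut.mul_apply, ← e]; simp
  · have e1 := third k.two h4 hv (ix v hv) m v1 (by simpa using v1) n.symm (by simpa using v1)
      (fun e => v1 (one_of k.two (k.oo hy) hv' e)) e
    refine .inr (eq_inv_of_mul_eq_one_right (one_of_fix k.two (k.oo (F.mul_mem hx hy)) h4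
      ((cm_mul _ _).trans (sup_le le_rfl le)) hv v1 ?_))
    rw [MulAut.mul_apply, e1, ← sq_eq k.two (k.oo hx) h4 ix hv n, ← MulAut.mul_apply, ← MulAut.mul_apply, ← pow_three', x3]
    rfl

theorem dich (hx : x ∈ F) (hy : y ∈ F) (h4 : Nat.card (cm x) ≤ 4) (h4' : Nat.card (cm y) ≤ 4)
    (c : Commute y x) : (y = x ∨ y = x⁻¹) ∨ cm x ≤ fx y := by
  by_cases e : cm x ⊓ cm y = ⊥
  · have d := dec k.two (k.oo hy) (U := cm x) (iv_cm' (.inl (mul_inv_eq_iff_eq_mul.2 c.eq)))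
    rw [e, sup_bot_eq] at d
    exact .inr (d.le.trans inf_le_right)
  · obtain ⟨⟨v, hv⟩, v1⟩ := ne_bot_iff_exists_ne_one.1 e
    exact .inl (k.eq_of hx hy h4 h4' hv.1 hv.2 (fun e => v1 (Subtype.ext e))
      (iv_cm' (.inl (mul_inv_eq_iff_eq_mul.2 c.symm.eq))))

theorem star (hx : x ∈ F) (hy : y ∈ F) (h4 : Nat.card (cm x) ≤ 4) (h4' : Nat.card (cm y) ≤ 4)
    (c : Commute (y * x * y⁻¹) x) : y * x * y⁻¹ = x := by
  by_cases x1 : x = 1
  · simp [x1]
  have hx' : y * x * y⁻¹ ∈ F := F.mul_mem (F.mul_mem hy hx) (F.inv_mem hy)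
  have h5 : Nat.card (cm (y * x * y⁻¹)) ≤ 4 := (card_cm_cj y x).trans_le h4
  rcases k.dich hx hx' h4 h5 c with (e | e) | l
  · exact e
  · exact comm_of_inv (k.oo hy) e
  rcases k.dich hx' hx h5 h4 c.symm with (e | e) | l'
  · exact e.symm
  · exact comm_of_inv (k.oo hy) (inv_eq_iff_eq_inv.1 e.symm)
  exfalso
  have ix : Iv x (cm x) := iv_of_cm_le le_rfl
  have m : ∀ u ∈ cm x, y u ∈ cm (y * x * y⁻¹) := fun u hu => iv_cm rfl hu
  have ne : ∀ u ∈ cm x, y u = u → u = 1 := fun u hu e => one_of k.two (k.oo hx) hu (by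
    have := l' (m u hu)
    rwa [e] at this)
  obtain ⟨u, hu, u1⟩ := exists_cm x1
  have p : ∀ u ∈ cm x, y u * u⁻¹ ∈ cm x ⊔ cm (y * x * y⁻¹) := fun u hu =>
    mul_mem (mem_sup_right (m u hu)) (mem_sup_left (inv_mem hu))
  have le : cm y ≤ cm x ⊔ cm (y * x * y⁻¹) := le_of_two k.two h4' (cm_mem y u) (cm_mem y (x u)) (p u hu) (p _ (ix u hu))
    (fun e => u1 (ne u hu (mul_inv_eq_one.1 e))) (fun e => u1 (by simpa using ne _ (ix u hu) (mul_inv_eq_one.1 e)))
    fun e => u1 (one_of k.two (k.oo hx) hu (mul_inv_eq_one.1 (ne _ (mul_mem hu (inv_mem (ix u hu))) (by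
      rw [map_mul, map_inv, mul_inv_eq_iff_eq_mul.1 e, mul_right_comm, mul_right_comm (y (x u)), mul_inv_cancel, one_mul,
        mul_comm]))).symm)
  have i2 : Iv (y * y) (cm x) := fun u hu => by
    have a1 : y (y u) ∈ cm x ⊔ cm (y * x * y⁻¹) := by
      simpa using mul_mem (le (cm_mem y (y u))) (mem_sup_right (m u hu))
    obtain ⟨α, hα, β, hβ, e⟩ := mem_sup.1 a1
    have a2 : y (y u) ∈ fx (y * x * y⁻¹) := iv_fx rfl (l' (m u hu))
    have a3 : β ∈ fx (y * x * y⁻¹) := by simpa [← e] using mul_mem (inv_mem (l hα)) a2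
    rw [one_of k.two (k.oo hx') hβ a3, mul_one] at e
    exact (e ▸ hα : y (y u) ∈ cm x)
  obtain ⟨n, hn⟩ := exists_pow_eq_self_of_coprime (x := y) (n := 2) (Nat.coprime_two_left.2 (k.oo hy))
  have i1 := i2.pow n u hu
  rw [← sq, hn] at i1
  exact u1 (by simpa using one_of k.two (k.oo hx) i1 (l' (m u hu)))

theorem comm4 (hx : x ∈ F) (hy : y ∈ F) (h4 : Nat.card (cm x) ≤ 4) (h4' : Nat.card (cm y) ≤ 4) : y * x * y⁻¹ = x := by
  obtain ⟨n, hn⟩ := k.nil.nilpotent'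
  have key : ∀ n, ∀ x y : F, Nat.card (cm x.1) ≤ 4 → Nat.card (cm y.1) ≤ 4 → ⁅y, x⁆ ∈ Subgroup.upperCentralSeries F n →
      y * x * y⁻¹ = x := fun n => by
    induction n with
    | zero => exact fun x y _ _ h => mul_inv_eq_one.1 (mem_bot.1 h)
    | succ n ih =>
      intro x y h4 h4' h
      have e := ih x (y * x * y⁻¹) h4 ((card_cm_cj y.1 x.1).trans_le h4) (by
        convert Subgroup.mem_upperCentralSeries_succ_iff.1 h x using 1
        simp only [commutatorElement_def]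
        group)
      exact Subtype.ext (k.star x.2 y.2 h4 h4' (mul_inv_eq_iff_eq_mul.1 (congrArg Subtype.val e)))
  exact congrArg Subtype.val (key n ⟨x, hx⟩ ⟨y, hy⟩ h4 h4' (hn ▸ mem_top _))

theorem not3 (hx : x ∈ F) (h3 : 3 ∣ orderOf x) (ha : a ∈ A) : ¬ 3 ∣ orderOf a := fun h =>
  absurd (Nat.Coprime.eq_one_of_dvd (k.cop.coprime_dvd_left (h.trans (ord_dvd ha))) (h3.trans (ord_dvd hx))) (by norm_num)

theorem big (hx : x ∈ F) (h4 : Nat.card (cm x) ≤ 4) : x = 1 := by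
  by_contra x1
  obtain ⟨u, hu, u1⟩ := exists_cm x1
  have n : x u ≠ u := fun e => u1 (one_of k.two (k.oo hx) hu e)
  have h3 : 3 ∣ orderOf x := by_contra fun h => n (triv k.two (k.oo hx) h h4 (iv_of_cm_le le_rfl) hu)
  refine n (k.fix hx fun a ha => ?_)
  have h5 : Nat.card (cm (a * x * a⁻¹)) ≤ 4 := (card_cm_cj a x).trans_le h4
  have c : Commute (a * x * a⁻¹) x := mul_inv_eq_iff_eq_mul.1 (k.comm4 hx (k.cj ha hx) h4 h5)
  rcases k.dich hx (k.cj ha hx) h4 h5 c with e | l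
  · have e' := e.elim id (comm_of_inv (k.oa ha))
    exact .inl ⟨e', triv k.two (k.oa ha) (k.not3 hx h3 ha) h4 (iv_cm' (.inl e')) hu⟩
  · exact .inr ⟨c, l hu⟩

end Hn

end CL.FN
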