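import Cfsg.Agent.FGS.FN.M1

/-!
# Coprime action with nilpotent fixed points, module lemma: there are no small involutions
-/

set_option autoImplicit false
set_option linter.unusedSectionVars false
open Cfsg Subgroup CL.MSS CL.B2 CL.FZ.Mo CL.FZ.Mo.MB

namespace CL.FN

variable {W : Type*} [CommGroup W] [Finite W] {A F S : Subgroup (MulAut W)} {a b g t x y z : MulAut W}
  {U : Subgroup W} {u v w : W}

/-- the elements of prime order of `F` inverted by `t` -/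
def Iu (F : Subgroup (MulAut W)) (t : MulAut W) : Set (MulAut W) :=
  {x | x ∈ F ∧ (orderOf x).Prime ∧ t * x * t⁻¹ = x⁻¹}

theorem ord_cj {Γ : Type*} [Group Γ] (a x : Γ) : orderOf (a * x * a⁻¹) = orderOf x :=
  MulEquiv.orderOf_eq (MulAut.conj a) x

theorem iu_cj (ha : a ∈ 𝐍 F) (hx : x ∈ Iu F t) : a * x * a⁻¹ ∈ Iu F (a * t * a⁻¹) :=
  ⟨(mem_normalizer_iff.1 ha x).1 hx.1, (ord_cj a x).symm ▸ hx.2.1, by rw [conj_inv (a := x), ← hx.2.2]; group⟩

theorem iu_ne (hx : x ∈ Iu F t) : x ≠ 1 := fun h => Nat.not_prime_one (by simpa [h] using hx.2.1)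

theorem nrm_cl {Γ : Type*} [Group Γ] [Finite Γ] {s : Set Γ} {g : Γ} (h : ∀ x ∈ s, g * x * g⁻¹ ∈ closure s) :
    g ∈ 𝐍 (closure s) := mem_normalizer_fintype fun _ hn =>
  (closure_le ((closure s).comap (MulAut.conj g).toMonoidHom)).2 h hn

theorem far (k : Hm F S) {t' : MulAut W} (ht : Tt S t) (ht' : Tt S t') (ne : t ≠ t') (hx : x ∈ Iu F t) (hy : y ∈ Iu F t') :
    y * x = x * y ∧ y * t = t * y ∧ cm t ≤ fx y := by
  have c := k.comm ht ht'
  have cy := k.cent ht' ht c.symm ne.symm hy.1 hy.2.2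
  have cx := k.cent ht ht' c ne hx.1 hx.2.2
  have e1 : t * (y * x * y⁻¹) * t⁻¹ = (y * x * y⁻¹)⁻¹ := by
    calc t * (y * x * y⁻¹) * t⁻¹ = (t * y) * x * (t * y)⁻¹ := by group
      _ = y * (t * x * t⁻¹) * y⁻¹ := by rw [cy]; group
      _ = _ := by rw [hx.2.2]; group
  have e2 := k.cent ht ht' c ne (F.mul_mem (F.mul_mem hy.1 hx.1) (F.inv_mem hy.1)) e1
  have e3 : Commute (y ^ 2) x := by
    rw [commute_iff_eq, ← mul_inv_eq_iff_eq_mul]
    calc y ^ 2 * x * (y ^ 2)⁻¹ = y * (t' * (y * x * y⁻¹) * t'⁻¹) * y⁻¹ := by rw [e2, sq]; group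
      _ = y * ((t' * y * t'⁻¹) * (t' * x) * t'⁻¹ * (t' * y * t'⁻¹)⁻¹) * y⁻¹ := by group
      _ = _ := by rw [hy.2.2, cx]; group
  obtain ⟨n, hn⟩ := exists_pow_eq_self_of_coprime (x := y) (n := 2) (Nat.coprime_two_left.2 (k.odd_ord hy.1))
  have e4 : y * x = x * y := hn ▸ (e3.pow_left n).eq
  exact ⟨e4, cy.symm, (b1 k ht hx.1 (iu_ne hx) hx.2.2).2.2.trans
    (kk k ht ht' hx.1 hy.1 hx.2.1 hy.2.1 e4.symm hx.2.2 hy.2.2 cy cx)⟩

theorem cm_same (k : Hm F S) (ht : Tt S t) (hx : x ∈ F) (hy : y ∈ F) (x1 : x ≠ 1) (y1 : y ≠ 1) (e : t * x * t⁻¹ = x⁻¹)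
    (e' : t * y * t⁻¹ = y⁻¹) (c : x * y = y * x) : cm x = cm y := by
  obtain ⟨h1, -, -⟩ := b1 k ht hx x1 e
  obtain ⟨h2, -, h3⟩ := b1 k ht hy y1 e'
  exact eq_of_le_of_card_ge (cm_le_of_inv (k.odd_ord hx) ht.sq e h3 (iv_cm' (.inl (mul_inv_eq_iff_eq_mul.2 c)))) (by omega)

/-- An abelian group inverted by `t` has at most 15 elements. -/
theorem card_le (k : Hm F S) (ht : Tt S t) {E : Subgroup (MulAut W)} (hE : E ≤ F) (c : E ≤ 𝐂 E)
    (e : ∀ x ∈ E, t * x * t⁻¹ = x⁻¹) (hz : z ∈ E) (z1 : z ≠ 1) : Nat.card E ≤ 16 := by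
  obtain ⟨u, hu, u1⟩ := exists_cm z1
  have s : ∀ x ∈ E, x ≠ 1 → cm x = cm z := fun x hx x1 =>
    cm_same k ht (hE hx) (hE hz) x1 z1 (e x hx) (e z hz) (c hz x hx)
  rw [← (b1 k ht (hE hz) z1 (e z hz)).1]
  refine Nat.card_le_card_of_injective (fun x : E => (⟨x.1 u, iv_cm' (.inl (mul_inv_eq_iff_eq_mul.2 (c hz x x.2))) u hu⟩ :
    cm z)) fun x y h => Subtype.ext (inv_mul_eq_one.1 ?_).symm
  by_contra n
  have m := E.mul_mem (E.inv_mem y.2) x.2
  refine u1 (one_of k.two (k.odd_ord (hE m)) (s _ m n ▸ hu) ?_)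
  rw [MulAut.mul_apply, show x.1 u = y.1 u from congrArg Subtype.val h]
  simp

theorem fix_small {Γ : Type*} [Group Γ] [Finite Γ] {B E : Subgroup Γ} {z : Γ} (oB : Odd (Nat.card B))
    (BE : ∀ b ∈ B, b * z * b⁻¹ ∈ E) (hz : z ≠ z⁻¹)
    (h : ∀ n, n ∣ Nat.card B → 2 * n + 1 ≤ Nat.card E → n = 1) : ∀ b ∈ B, b * z * b⁻¹ = z := by
  classical
  let _ : MulAction B Γ := MulAction.compHom Γ (MulAut.conj.comp B.subtype)
  have sm : ∀ (b : B) (x : Γ), b • x = b * x * b⁻¹ := fun _ _ => rfl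
  have h1 : (MulAction.orbit B z).ncard = 1 := by
    refine h _ (by rw [← MulAction.index_stabilizer]; exact index_dvd_card _) ?_
    have d : Disjoint (MulAction.orbit B z) (MulAction.orbit B z)⁻¹ := Set.disjoint_left.2 (by
      rintro _ ⟨b, rfl⟩ ⟨c, e⟩
      have e1 : (b⁻¹ * c : B) * z * ((b⁻¹ * c : B) : Γ)⁻¹ = z⁻¹ := by
        have e' : (c : Γ) * z * (c : Γ)⁻¹ = (b * z * (b : Γ)⁻¹)⁻¹ := e
        calc _ = (b : Γ)⁻¹ * (c * z * (c : Γ)⁻¹) * b := by simp [mul_assoc]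
          _ = _ := by rw [e']; group
      exact hz ((comm_of_inv (Odd.of_dvd_nat oB (ord_dvd (b⁻¹ * c).2)) e1).symm.trans e1))
    have n1 : (1 : Γ) ∉ MulAction.orbit B z ∪ (MulAction.orbit B z)⁻¹ := by
      rintro (⟨b, e⟩ | ⟨b, e⟩) <;> exact hz (by
        have : z = 1 := by simpa [sm] using e
        simp [this])
    have l : insert 1 (MulAction.orbit B z ∪ (MulAction.orbit B z)⁻¹) ⊆ (E : Set Γ) := by
      rintro x (rfl | ⟨b, rfl⟩ | ⟨b, e⟩)
      exacts [one_mem _, BE b b.2, inv_mem_iff.1 (e ▸ BE b b.2 : x⁻¹ ∈ E)]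
    have := Set.ncard_le_ncard l
    rwa [Set.ncard_insert_of_notMem n1, Set.ncard_union_eq d, Set.ncard_inv, ← two_mul, ← Nat.card_coe_set_eq] at this
  obtain ⟨a, ha⟩ := Set.ncard_eq_one.1 h1
  exact fun b hb => (ha.le (MulAction.mem_orbit z ⟨b, hb⟩)).trans (ha.le (MulAction.mem_orbit_self z)).symm

theorem Hn.no_tt (h : Hn A F) (k : Hm F S) (AS : A ≤ 𝐍 S)
    (n2 : ∀ x ∈ F, x ∈ 𝐂 A → ∀ s ∈ S, s ∈ 𝐂 A → x * s = s * x) (ht : Tt S t) : False := by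
  obtain ⟨D, hD⟩ : ∃ D, D = closure (Iu F t) := ⟨_, rfl⟩
  have DF : D ≤ F := hD ▸ (closure_le F).2 fun x hx => hx.1
  have ID : ∀ x ∈ Iu F t, x ∈ D := fun x hx => hD ▸ subset_closure hx
  have nD : ∀ g ∈ 𝐍 F, g * t * g⁻¹ = t → g ∈ 𝐍 D := fun g hg e => hD ▸ nrm_cl fun x hx =>
    subset_closure (e ▸ iu_cj hg hx)
  have tD : t ∈ 𝐍 D := nD t (k.nrm ht.mem) (by group)
  obtain ⟨x₀, m₀⟩ : ∃ x, x ∈ Iu F t := exists_inv k ht
  have fa : ∀ a ∈ A, a * t * a⁻¹ ≠ t → ∀ d ∈ D, a * d * a⁻¹ ∈ 𝐂 D ⊓ (centralizer {t} ⊓ stb (cm t)) := fun a ha n => by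
    rw [hD]
    refine (closure_le ((𝐂 (closure (Iu F t)) ⊓ (centralizer {t} ⊓ stb (cm t))).comap (MulAut.conj a).toMonoidHom)).2
      fun x hx => ?_
    have f := fun y hy => far (x := y) k ht (tt_cj ht (AS ha)) n.symm hy (iu_cj (h.AF ha) hx)
    exact ⟨centralizer_closure (Iu F t) ▸ fun y hy => (f y hy).1.symm, mem_centralizer_singleton_iff.2 (f x₀ m₀).2.1,
      (f x₀ m₀).2.2⟩
  have h4 := ht.le
  have cB : Nat.card (A ⊓ centralizer {t} : Subgroup (MulAut W)) ∣ Nat.card A := card_dvd_of_le inf_le_left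
  have BD : A ⊓ centralizer {t} ≤ 𝐍 D := fun b hb =>
    nD b (h.AF hb.1) (mul_inv_eq_iff_eq_mul.2 (mem_centralizer_singleton_iff.1 hb.2))
  have iv : ∀ g ∈ centralizer {t}, Iv g (cm t) := fun g hg =>
    iv_cm' (.inl (mul_inv_eq_iff_eq_mul.2 (mem_centralizer_singleton_iff.1 hg)))
  have mB : ∀ a ∈ A, a * t * a⁻¹ = t → a ∈ A ⊓ centralizer {t} := fun a ha e =>
    ⟨ha, mem_centralizer_singleton_iff.2 (mul_inv_eq_iff_eq_mul.1 e)⟩
  by_cases I : D ⊓ centralizer {t} ≤ stb (cm t)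
  swap
  · obtain ⟨c, hc, n⟩ := SetLike.not_le_iff_exists.1 I
    obtain ⟨w, n⟩ := not_forall.1 n
    obtain ⟨hw, n⟩ := Classical.not_imp.1 n
    have h3 : 3 ∣ orderOf c := by_contra fun e => n (triv k.two (h.oo (DF hc.1)) e h4 (iv c hc.2) hw)
    have tr : ∀ b ∈ A ⊓ centralizer {t}, ∀ u ∈ cm t, b u = u := fun b hb u hu =>
      triv k.two (h.oa hb.1) (h.not3 (DF hc.1) h3 hb.1) h4 (iv b hb.2) hu
    have ns : ∀ g ∈ centralizer {t}, g ∈ 𝐍 (stb (cm t)) := fun g hg => mem_normalizer_fintype fun y hy u hu => by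
      rw [MulAut.mul_apply, MulAut.mul_apply, hy _ (iv _ (inv_mem hg) u hu)]
      simp
    have nc : ∀ g ∈ centralizer {t}, g ∈ 𝐍 (centralizer {t}) := fun g hg => le_normalizer hg
    have _ := k.nil
    have nl : Group.IsNilpotent (D ⊓ centralizer {t} ⊓ stb (cm t) : Subgroup (MulAut W)) :=
      Group.nilpotent_of_mulEquiv (subgroupOfEquivOfLe (inf_le_left.trans (inf_le_left.trans DF)))
    obtain ⟨s, hs, e⟩ := CL.coprime_fixed_point_quotient (A ⊓ centralizer {t}) (D ⊓ centralizer {t} ⊓ stb (cm t))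
      (le_normalizer_inf (le_normalizer_inf BD fun b hb => nc b hb.2) fun b hb => ns b hb.2)
      ((h.cop.coprime_dvd_left cB).coprime_dvd_right (card_dvd_of_le (inf_le_left.trans (inf_le_left.trans DF))))
      (.inr inferInstance) c (le_normalizer_inf (A := D ⊓ centralizer {t}) le_normalizer (fun g hg => ns g hg.2) hc)
      fun b hb =>
        ⟨⟨D.mul_mem ((mem_normalizer_iff.1 (BD hb) c).1 hc.1) (D.inv_mem hc.1),
          Subgroup.mul_mem _ (Subgroup.mul_mem _ (Subgroup.mul_mem _ hb.2 hc.2) (Subgroup.inv_mem _ hb.2))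
            (Subgroup.inv_mem _ hc.2)⟩, fun u hu => by
          rw [MulAut.mul_apply, MulAut.mul_apply, MulAut.mul_apply, tr _ (inv_mem hb) _ (iv _ (inv_mem hc.2) u hu)]
          simpa using tr b hb u hu⟩
    have m := D.mul_mem hc.1 hs.1.1
    have := h.fix (w := w) (DF m) fun a ha => by
      by_cases q : a * t * a⁻¹ = t
      · exact .inl ⟨mul_inv_eq_iff_eq_mul.2 (e a (mB a ha q)), tr a (mB a ha q) w hw⟩
      · exact .inr ⟨((fa a ha q _ m).1 _ m).symm, (fa a ha q _ m).2.2 w hw⟩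
    rw [MulAut.mul_apply, hs.2 w hw] at this
    exact n this
  have Zi : ∀ z ∈ D ⊓ 𝐂 D, t * z * t⁻¹ = z⁻¹ := by
    have key : ∀ z ∈ D ⊓ 𝐂 D, z * t = t * z → z = 1 := fun z hz e => by
      have l : cm t ≤ fx z := I ⟨hz.1, mem_centralizer_singleton_iff.2 e⟩
      let K : Subgroup (MulAut W) :=
        { carrier := {g | cm g ≤ fx z}
          one_mem' := cm_one.le.trans bot_le
          mul_mem' := fun ha hb => (cm_mul _ _).trans (sup_le ha hb)
          inv_mem' := fun {g} ha => (cm_inv g).le.trans ha }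
      have DK : D ≤ K := hD ▸ (closure_le K).2 fun x hx => cm_le_of_inv (h.oo hx.1) ht.sq hx.2.2 l
        (iv_fx' (.inl (mul_inv_eq_iff_eq_mul.2 (hz.2 x (ID x hx)))))
      exact eq_one_of_cm (eq_bot_iff.2 fun u hu => one_of k.two (h.oo (DF hz.1)) hu (DK hz.1 hu))
    intro z hz
    have m : t * z * t⁻¹ ∈ D ⊓ 𝐂 D := (mem_normalizer_iff.1 (le_normalizer_inf (A := zpowers t) (zpowers_le.2 tD)
      (le_normalizer_centralizer (zpowers_le.2 tD)) (mem_zpowers t)) z).1 hz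
    refine eq_inv_of_mul_eq_one_right (key _ (mul_mem hz m) ?_)
    calc z * (t * z * t⁻¹) * t = (t * z * t⁻¹ * z) * t := by rw [m.2 z hz.1]
      _ = t * (z * (t * z * t⁻¹)) := by rw [inv_eq ht]; group
  have _ := k.nil
  have nl : Group.IsNilpotent D := Group.nilpotent_of_mulEquiv (subgroupOfEquivOfLe DF)
  have nt : Nontrivial D := (nontrivial_iff_ne_bot D).2 fun e => iu_ne m₀ (mem_bot.1 (e ▸ ID x₀ m₀))
  obtain ⟨⟨z₀, hz₀⟩, z1⟩ := ne_bot_iff_exists_ne_one.1 (Group.IsNilpotent.center_ne_bot D)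
  have mz : (z₀ : MulAut W) ∈ D ⊓ 𝐂 D := ⟨z₀.2, fun g hg => congrArg Subtype.val (mem_center_iff.1 hz₀ ⟨g, hg⟩)⟩
  obtain ⟨p, hp, d⟩ := Nat.exists_prime_and_dvd (n := Nat.card (D ⊓ 𝐂 D : Subgroup (MulAut W))) fun e =>
    z1 (Subtype.ext (Subtype.ext (mem_bot.1 (card_eq_one.1 e ▸ mz))))
  have := Fact.mk hp
  obtain ⟨⟨z, hz⟩, oz⟩ := exists_prime_orderOf_dvd_card' p d
  rw [← orderOf_coe] at oz
  replace oz : orderOf z = p := oz
  have zI : z ∈ Iu F t := ⟨DF hz.1, oz ▸ hp, Zi z hz⟩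
  let E : Subgroup (MulAut W) :=
    { carrier := {g | g ∈ D ⊓ 𝐂 D ∧ g ^ p = 1}
      one_mem' := ⟨one_mem _, one_pow _⟩
      mul_mem' := fun {a b} ha hb => ⟨mul_mem ha.1 hb.1, by
        rw [(show Commute a b from hb.1.2 a ha.1.1).mul_pow, ha.2, hb.2, mul_one]⟩
      inv_mem' := fun ha => ⟨inv_mem ha.1, by rw [inv_pow, ha.2, inv_one]⟩ }
  have zE : z ∈ E := ⟨hz, oz ▸ pow_orderOf_eq_one z⟩
  have c16 := card_le k ht (E := E) (fun g hg => DF hg.1.1) (fun g hg g' hg' => hg.1.2 g' hg'.1.1)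
    (fun g hg => Zi g hg.1) zE (iu_ne zI)
  obtain ⟨j, hj⟩ := IsPGroup.iff_card.1 (show IsPGroup p E from fun g => ⟨1, Subtype.ext (by simpa using g.2.2)⟩)
  have p15 : p ∣ 15 := by
    have := card_mod_one k.two hp (oz ▸ ne_two k zI.1) oz le_rfl (iv_of_cm_le le_rfl)
    rw [(b1 k ht zI.1 (iu_ne zI) zI.2.2).1] at this
    exact (Nat.modEq_iff_dvd' (by norm_num)).1 this.symm
  have fz := fix_small (B := A ⊓ centralizer {t}) (E := E) (z := z) (Odd.of_dvd_nat h.oA cB)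
    (fun b hb => ⟨(mem_normalizer_iff.1 (le_normalizer_inf BD (le_normalizer_centralizer BD) hb) z).1 hz,
      by rw [conj_pow, zE.2]; group⟩) (fun e => iu_ne zI (eq_one k zI.1 e)) fun n hn l => by
      have o : Odd n := Odd.of_dvd_nat h.oA (hn.trans cB)
      have c : n.Coprime p := (h.cop.coprime_dvd_left (hn.trans cB)).coprime_dvd_right (oz ▸ ord_dvd zI.1)
      rw [hj] at l c16
      have j2 : j ≤ 2 := by
        by_contra! q
        have := (Nat.pow_le_pow_left (hp.two_le.lt_of_ne' (oz ▸ ne_two k zI.1)) j).trans c16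
        have := (Nat.pow_le_pow_right (by norm_num : 0 < 2 + 1) q).trans this
        omega
      have pp : p = 3 ∨ p = 5 := by
        rcases (Nat.Prime.dvd_mul hp (m := 3) (n := 5)).1 p15 with e | e
        exacts [.inl ((Nat.prime_dvd_prime_iff_eq hp Nat.prime_three).1 e),
          .inr ((Nat.prime_dvd_prime_iff_eq hp Nat.prime_five).1 e)]
      obtain ⟨i, rfl⟩ := o
      rcases pp with rfl | rfl
      · have : i ≠ 1 := by rintro rfl; exact absurd c (by norm_num)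
        interval_cases j <;> omega
      · interval_cases j <;> omega
  refine iu_ne zI (n2_false k.odd h.AF AS n2 zI.1 ht.mem zI.2.2 fun a ha => ?_)
  by_cases q : a * t * a⁻¹ = t
  · exact .inl ⟨fz a (mB a ha q), q⟩
  · exact .inr ⟨((fa a ha q _ hz.1).1 _ hz.1).symm, mem_centralizer_singleton_iff.1 (fa a ha q _ hz.1).2.1,
      k.comm (tt_cj ht (AS ha)) ht⟩

end CL.FN
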