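import Cfsg.Agent.FGS.CO.FinB
import Cfsg.Agent.SOLV.CoprimeSylow
import Cfsg.Agent.SOLV.OddOrderCor
import Cfsg.Agent.SOLV.Fitting

/-!
# Theorem N: an element of order three with a four-group as commutator on an invariant elementary abelian group
-/

set_option autoImplicit false
set_option linter.unusedSectionVars false
open Cfsg Subgroup CL.Th CL.MSS CL.Push CL.BHS CL.B2
open CL.CO CL.CO.FinB
open scoped commutatorElement

namespace CL.FN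

variable {X : Type*} [Group X] [Finite X] {a c g t u v v' x y y' z z' : X} {A G H P U : Subgroup X}

/-- `[U, x] = V4 z v`. -/
structure Sm (U : Subgroup X) (z v x : X) : Prop extends A4 z v x where
  le : V4 z v ≤ U
  nU : x ∈ 𝐍 U
  cm : ∀ u ∈ U, x * u * x⁻¹ * u⁻¹ ∈ V4 z v

namespace M3

theorem card4 (k : A4 z v x) : Nat.card (V4 z v) = 4 := by
  have e : ((V4 z v : Subgroup X) : Set X) = {1, z, v, v * z} := Set.ext fun g => mem_V4 k.zz k.vv k.zv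
  have h1 := k.ne
  have h2 := k.v_ne
  have h3 := k.v_ne_z
  have h4 : v * z ≠ 1 := fun h => h3 (by rw [← iv k.zz]; exact eq_inv_of_mul_eq_one_left h)
  rw [← SetLike.coe_sort_coe, e, Nat.card_coe_set_eq, Set.ncard_insert_of_notMem (by simp [h1.symm, h2.symm, h4.symm]),
    Set.ncard_insert_of_notMem (by simp [h3.symm, h2]), Set.ncard_insert_of_notMem (by simp [h1]), Set.ncard_singleton]

theorem gen (k : A4 z v x) (ht : t ∈ V4 z v) (n : t ≠ 1) (h1 : t ∈ H) (h2 : x * t * x⁻¹ ∈ H) : V4 z v ≤ H := by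
  rcases (mem_V4 k.zz k.vv k.zv).1 ht with e | e | e | e <;> rw [e] at h1 h2
  · exact absurd e n
  · exact V4_le h1 (k.xz ▸ h2)
  · exact V4_le ((mul_mem_cancel_left h1).1 (k.xv ▸ h2)) h1
  · rw [k.xvz] at h2
    exact V4_le h2 ((mul_mem_cancel_right h2).1 h1)

theorem stab (k : A4 z v x) (ha : a ∈ 𝐍 (V4 z v)) (c : (orderOf a).Coprime 24) : a ∈ 𝐂 (V4 z v) := by
  refine mem_of_cop c (by rw [pow_orderOf_eq_one]; exact one_mem _) ?_
  have e := pow_card_eq_one' (x := MulAut.toPerm _ ((V4 z v).normalizerMonoidHom ⟨a, ha⟩))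
  rw [Nat.card_perm, card4 k, ← map_pow, ← map_pow] at e
  intro t ht
  have := congrArg (fun σ : Equiv.Perm (V4 z v) => (σ ⟨t, ht⟩ : X)) e
  exact (cm this).symm

theorem cj (k : Sm U z v x) (hg : g ∈ 𝐍 U) : Sm U (g * z * g⁻¹) (g * v * g⁻¹) (g * x * g⁻¹) := by
  refine ⟨k.toA4.cj g, by rw [← cj_V4, ← cj_eq_of_mem_normalizer hg]; exact cj_mono _ k.le,
    mul_mem (mul_mem hg k.nU) (inv_mem hg), fun u hu => ?_⟩
  obtain ⟨u₀, h₀, rfl⟩ := exists_cj hg hu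
  rw [← cj_V4]
  convert conj_mem_cj (g := g) (k.cm u₀ h₀) using 1
  group

theorem mul (k : Sm U z v x) (hc : c ∈ 𝐂 U) : Sm U z v (c * x) := by
  have e : ∀ u ∈ U, c * x * u * (c * x)⁻¹ = x * u * x⁻¹ := fun u hu => by
    rw [← fx (hc _ (cj_mem k.nU hu)).symm]; group
  exact ⟨⟨k.zz, k.vv, k.ne, k.zv, by rw [e _ (k.le z_V4), k.xz], by rw [e _ (k.le v_V4), k.xv]⟩, k.le,
    mul_mem (centralizer_le_normalizer _ hc) k.nU, fun u hu => by rw [e u hu]; exact k.cm u hu⟩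

theorem cube (k : Sm U z v x) (ab : U ≤ 𝐂 U) : x ^ 3 ∈ 𝐂 U := fun u hu => by
  obtain ⟨w, hw, e⟩ := k.toA4.onto (k.cm u hu)
  have c3 : ∀ t : X, x ^ 3 * t * (x ^ 3)⁻¹ = x * (x * (x * t * x⁻¹) * x⁻¹) * x⁻¹ := fun t => by
    rw [pow_three]; group
  have e1 : x ^ 3 ∈ 𝐂 (V4 z v) := cent_symm (V4_le (fun _ h => ?_) fun _ h => ?_ : V4 z v ≤ 𝐂 (zpowers (x ^ 3))) (mem_zpowers _)
  · have e2 : x * (w⁻¹ * u) * x⁻¹ = w⁻¹ * u := by
      have h := ab (cj_mem k.nU (k.le hw)) _ (cj_mem k.nU hu)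
      calc _ = (x * w * x⁻¹)⁻¹ * (x * u * x⁻¹ * u⁻¹) * u := by group
        _ = _ := by rw [← e]; group
    have c1 : Commute (x ^ 3) (w⁻¹ * u) := Commute.pow_left (cm e2) 3
    have c2 : Commute (x ^ 3) w := (e1 w hw).symm
    simpa using (c2.mul_right c1).symm.eq
  · obtain ⟨i, rfl⟩ := h
    exact (Commute.zpow_left (cm (by rw [c3, k.xz, k.xv, k.toA4.xvz])) i).eq
  · obtain ⟨i, rfl⟩ := h
    exact (Commute.zpow_left (cm (by rw [c3, k.xv, k.toA4.xvz, k.xz])) i).eq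

theorem three (k : Sm U z v x) (ab : U ≤ 𝐂 U) : ∃ m n : ℕ, (x ^ m) ^ 3 ^ n = 1 ∧ Sm U z v (x ^ m) := by
  obtain ⟨n, m, hm, e⟩ := Nat.exists_eq_pow_mul_and_not_dvd (orderOf_pos x).ne' 3 (by norm_num)
  obtain ⟨j, hj⟩ : ∃ j, m * m = 3 * j + 1 := ⟨m * m / 3, by
    have : m % 3 = 1 ∨ m % 3 = 2 := by omega
    have h2 : m * m % 3 = 1 := by rcases this with h | h <;> simp [Nat.mul_mod, h]
    omega⟩
  refine ⟨m * m, n, by rw [← pow_mul, show m * m * 3 ^ n = 3 ^ n * m * m by ring, ← e, pow_mul, pow_orderOf_eq_one, one_pow], ?_⟩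
  rw [hj, pow_succ, pow_mul]
  exact mul k (pow_mem (cube k ab) j)

theorem alt (k : Sm U z v y) (k' : Sm U z' v' y') (h : y' ∈ 𝐍 (V4 z v)) : V4 z' v' = V4 z v ∨ y' ∈ 𝐂 (V4 z v) := by
  refine or_iff_not_imp_right.2 fun n => ?_
  obtain ⟨w, hw, n⟩ : ∃ w ∈ V4 z v, ¬ w * y' = y' * w := by simpa [mem_centralizer_iff] using n
  have m : y' * w * y'⁻¹ * w⁻¹ ∈ V4 z v := mul_mem (cj_mem h hw) (inv_mem hw)
  exact eq_of_le_of_card_ge (gen k'.toA4 (k'.cm w (k.le hw)) (fun e => n (cm (mul_inv_eq_one.1 e)).symm) m (cj_mem h m))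
    (by rw [card4 k.toA4, card4 k'.toA4])

theorem bound (k : Sm U z v y) (k' : Sm U z' v' y') (ab : U ≤ 𝐂 U) :
    Nat.card ((V4 z v ⊔ V4 z' v') ⊓ 𝐜 y : Subgroup X) ≤ 4 := by
  have dec : ∀ t ∈ V4 z v ⊔ V4 z' v', ∃ w ∈ V4 z' v', t * w⁻¹ ∈ V4 z v := fun _ ht => by
    obtain ⟨p, hp, q, hq, rfl⟩ := (mem_sup_of_normalizes_left
      ((k'.le.trans (ab.trans (centralizer_anti k.le))).trans (centralizer_le_normalizer _))).1 ht
    exact ⟨q, hq, by simpa using hp⟩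
  choose f hf hf' using dec
  rw [← card4 k'.toA4]
  refine Nat.card_le_card_of_injective (fun t => ⟨f _ t.2.1, hf _ t.2.1⟩) fun p q e => Subtype.ext ?_
  have e1 : f _ p.2.1 = f _ q.2.1 := congrArg Subtype.val e
  have m := mul_mem (hf' _ p.2.1) (inv_mem (hf' _ q.2.1))
  rw [e1, show (p : X) * (f _ q.2.1)⁻¹ * (q * (f _ q.2.1)⁻¹)⁻¹ = p * (q : X)⁻¹ by group] at m
  exact mul_inv_eq_one.1 (k.toA4.fpf m (mem_centralizer_singleton_iff.1 (mul_mem p.2.2 (inv_mem q.2.2))).symm)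

theorem nrm (hP : IsPGroup 3 P) (PU : P ≤ 𝐍 U) (ab : U ≤ 𝐂 U) (k : Sm U z v y) (k' : Sm U z' v' y') (hy : y ∈ P)
    (hy' : y' ∈ P) : y' ∈ 𝐍 (V4 z v) := by
  by_contra n
  have : Fact (Nat.Prime 3) := ⟨Nat.prime_three⟩
  obtain ⟨T, eT⟩ : ∃ T, T = V4 z v ⊔ V4 z' v' := ⟨_, rfl⟩
  have l : V4 z v ≤ T := eT ▸ le_sup_left
  have TU : T ≤ U := eT ▸ sup_le k.le k'.le
  have nT : ∀ {z v y : X}, Sm U z v y → V4 z v ≤ T → y ∈ 𝐍 T := fun k l =>
    mem_normalizer_of_cj_le (cj_le_iff_forall.2 fun q hq => by simpa using mul_mem (l (k.cm q (TU hq))) hq)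
  obtain ⟨g, ⟨hg, gn⟩, g0⟩ := SetLike.exists_of_lt (lt_inf_normalizer_of_lt (hP.to_inf_left (K := 𝐍 T))
    (inf_lt_left.2 fun h : P ⊓ 𝐍 T ≤ 𝐍 (V4 z v) => n (h ⟨hy', nT k' (eT ▸ le_sup_right)⟩)))
  have key : ∀ g ∈ P ⊓ 𝐍 T, g ∈ 𝐍 (P ⊓ 𝐍 T ⊓ 𝐍 (V4 z v) : Subgroup X) → g ∉ 𝐍 (V4 z v) →
      g •ᶜ V4 z v = T ⊓ 𝐜 y := fun g hg gn g0 => by
    have k1 := cj k (PU hg.1)
    obtain ⟨y₁, h₁, e⟩ := exists_cj gn (b := y) ⟨⟨hy, nT k l⟩, k.toA4.norm⟩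
    have n1 : y ∈ 𝐍 (V4 (g * z * g⁻¹) (g * v * g⁻¹)) := by
      rw [← cj_V4, ← cj_normalizer, ← e]; exact conj_mem_cj h₁.2
    have c := (alt k1 k n1).resolve_left fun e => g0 (mem_normalizer_iff_cj.2 (by rw [cj_V4, e]))
    refine eq_of_le_of_card_ge (le_inf ((cj_mono _ l).trans (cj_eq_of_mem_normalizer hg.2).le) fun t ht =>
      mem_centralizer_singleton_iff.2 (c t (cj_V4 g z v ▸ ht))) ?_
    rw [card_cj, card4 k.toA4, eT]
    exact bound k k' ab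
  have g1 : g ∉ 𝐍 (V4 z v) := fun h => g0 ⟨hg, h⟩
  have e := (key g hg gn g1).trans (key g⁻¹ (inv_mem hg) (inv_mem gn) fun h => g1 (inv_mem_iff.1 h)).symm
  obtain ⟨m, hm⟩ := isPGroup_iff_forall_mem.1 hP g hg.1
  refine g1 (mem_of_cop (m := 2) (n := 3 ^ m) (Nat.Coprime.pow_right _ (by norm_num)) ?_ (hm ▸ one_mem _))
  rw [mem_normalizer_iff_cj, pow_two, cj_mul, e, cj_inv_cj]

theorem core (cop : (Nat.card A).Coprime (Nat.card G)) (c24 : (Nat.card A).Coprime 24)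
    (nil : Group.IsNilpotent (G ⊓ 𝐂 A : Subgroup X)) (el : IsElementaryAbelian 2 U) (UG : U ≤ G) (AU : A ≤ 𝐍 U)
    (hP : IsPGroup 3 P) (PG : P ≤ G) (PU : P ≤ 𝐍 U) (AP : A ≤ 𝐍 P) (k : Sm U z v y) (hy : y ∈ P) : False := by
  classical
  have : Fact (Nat.Prime 3) := ⟨Nat.prime_three⟩
  have ab : U ≤ 𝐂 U := le_centralizer_iff_isMulCommutative.2 el.1
  have kc := fun a : A => cj k (AU a.2)
  have alt2 : ∀ a b : A, (a : X) * z * (a : X)⁻¹ = b * z * (b : X)⁻¹ ∧ (a : X) * v * (a : X)⁻¹ = b * v * (b : X)⁻¹ ∨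
      (a : X) * y * (a : X)⁻¹ ∈ 𝐂 (V4 (b * z * (b : X)⁻¹) (b * v * (b : X)⁻¹)) := fun a b =>
    (alt (kc b) (kc a) (nrm hP PU ab (kc b) (kc a) (cj_mem (AP b.2) hy) (cj_mem (AP a.2) hy))).imp_left fun e => by
      have h := stab k.toA4 (a := (b : X)⁻¹ * a) (by rw [mem_normalizer_iff_cj, cj_mul, cj_V4, e, ← cj_V4, inv_cj_cj])
        (c24.coprime_dvd_left (orderOf_dvd_natCard _ (mul_mem (inv_mem b.2) a.2)))
      have h1 := fx (h z z_V4).symm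
      have h2 := fx (h v v_V4).symm
      exact ⟨by nth_rewrite 2 [← h1]; group, by nth_rewrite 2 [← h2]; group⟩
  let F : X → X → Prop := fun f b => f * (b * z * b⁻¹) * f⁻¹ = b * v * b⁻¹ ∧
    f * (b * v * b⁻¹) * f⁻¹ = b * v * b⁻¹ * (b * z * b⁻¹)
  have ex : ∀ s : Finset A, ∃ f ∈ P, ∀ b : A, ((∃ a ∈ s, (a : X) * z * (a : X)⁻¹ = b * z * (b : X)⁻¹) → F f b) ∧
      ((∀ a ∈ s, (a : X) * z * (a : X)⁻¹ ≠ b * z * (b : X)⁻¹) → f ∈ 𝐂 (V4 (b * z * (b : X)⁻¹) (b * v * (b : X)⁻¹))) := fun s => by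
    induction s using Finset.induction_on with
    | empty => exact ⟨1, one_mem _, fun b => ⟨by simp, fun _ => one_mem _⟩⟩
    | insert a s _ ih =>
      obtain ⟨f, hf, h⟩ := ih
      by_cases o : ∃ a' ∈ s, (a' : X) * z * (a' : X)⁻¹ = a * z * (a : X)⁻¹
      · refine ⟨f, hf, fun b => ⟨fun ⟨c, hc, e⟩ => (h b).1 ?_, fun e => (h b).2 fun c hc => e c (Finset.mem_insert_of_mem hc)⟩⟩
        rcases Finset.mem_insert.1 hc with rfl | hc
        exacts [e ▸ o, ⟨c, hc, e⟩]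
      push Not at o
      refine ⟨f * (a * y * (a : X)⁻¹), mul_mem hf (cj_mem (AP a.2) hy), fun b => ?_⟩
      have ec : ∀ t : X, f * (a * y * (a : X)⁻¹) * t * (f * (a * y * (a : X)⁻¹))⁻¹ =
        f * (a * y * (a : X)⁻¹ * t * (a * y * (a : X)⁻¹)⁻¹) * f⁻¹ := fun t => by group
      rcases alt2 a b with ⟨e1, e2⟩ | e
      · refine ⟨fun _ => ?_, fun e => absurd e1 (e a (Finset.mem_insert_self _ _))⟩
        have c := (h b).2 (e1 ▸ o)
        exact ⟨by rw [ec, ← e1, (kc a).xz, e2, fx (c _ v_V4).symm],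
          by rw [ec, ← e2, (kc a).xv, e1, e2, fx (c _ (mul_mem v_V4 z_V4)).symm]⟩
      refine ⟨fun ⟨c, hc, e'⟩ => ?_, fun e' => mul_mem ((h b).2 fun c hc => e' c (Finset.mem_insert_of_mem hc)) e⟩
      rcases Finset.mem_insert.1 hc with rfl | hc
      · exact absurd ((kc c).toA4.fpf z_V4 (e _ (e' ▸ z_V4)).symm) (kc c).ne
      · have := (h b).1 ⟨c, hc, e'⟩
        exact ⟨by rw [ec, fx (e _ z_V4).symm, this.1], by rw [ec, fx (e _ v_V4).symm, this.2]⟩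
  have := Fintype.ofFinite A
  obtain ⟨f, hf, h⟩ := ex Finset.univ
  replace h : ∀ b ∈ A, F f b := fun b hb => (h ⟨b, hb⟩).1 ⟨⟨b, hb⟩, Finset.mem_univ _, rfl⟩
  let E := ⨆ g : A, (g : X) •ᶜ V4 z v
  have aE : A ≤ 𝐍 E := fun a ha => mem_normalizer_of_cj_le (by
    rw [cj_iSup]
    exact iSup_le fun g => le_iSup_of_le (⟨a, ha⟩ * g) (cj_mul _ _ _).ge)
  have pK : IsPGroup 3 (P ⊓ 𝐂 E : Subgroup X) := hP.to_inf_left
  obtain ⟨s, hs, c⟩ := coprime_coset_centralizer A (P ⊓ 𝐂 E) (fun a ha => by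
      rw [mem_normalizer_iff_cj, cj_inf, cj_centralizer, cj_eq_of_mem_normalizer (AP ha), cj_eq_of_mem_normalizer (aE ha)])
    (cop.coprime_dvd_right (card_dvd_of_le (inf_le_left.trans PG))) (.inr (isSolvable_of_isPGroup pK)) f fun a ha => by
      refine ⟨by simpa [mul_assoc] using mul_mem (inv_mem hf) (cj_mem (AP ha) hf), cent_symm (iSup_le fun b => ?_ :
        E ≤ 𝐂 (zpowers (f⁻¹ * a * f * a⁻¹))) (mem_zpowers _)⟩
      obtain ⟨h1, h2⟩ := h _ (mul_mem (inv_mem ha) b.2)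
      obtain ⟨h3, h4⟩ := h _ b.2
      rw [cj_V4]
      refine V4_le (fun _ ⟨i, e⟩ => e ▸ (Commute.zpow_left (cm ?_) i).eq) fun _ ⟨i, e⟩ => e ▸ (Commute.zpow_left (cm ?_) i).eq
      · calc _ = f⁻¹ * (a * (f * (a⁻¹ * b * z * (a⁻¹ * b)⁻¹) * f⁻¹) * a⁻¹) * f := by group
          _ = f⁻¹ * (b * v * (b : X)⁻¹) * f := by rw [h1]; group
          _ = _ := by rw [← h3]; group
      · calc _ = f⁻¹ * (a * (f * (a⁻¹ * b * v * (a⁻¹ * b)⁻¹) * f⁻¹) * a⁻¹) * f := by group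
          _ = f⁻¹ * (b * v * (b : X)⁻¹ * (b * z * (b : X)⁻¹)) * f := by rw [h2]; group
          _ = _ := by rw [← h4]; group
  have hc : ∀ b ∈ A, f * s * (b * z * b⁻¹) * (f * s)⁻¹ = b * v * b⁻¹ := fun b hb => by
    rw [show f * s * (b * z * b⁻¹) * (f * s)⁻¹ = f * (s * (b * z * b⁻¹) * s⁻¹) * f⁻¹ by group,
      fx (hs.2 _ (le_iSup (fun g : A => (g : X) •ᶜ V4 z v) ⟨b, hb⟩ (conj_mem_cj z_V4))).symm, (h b hb).1]
  have cP := mul_mem hf hs.1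
  generalize f * s = c₀ at *
  let Ω : Finset X := (Set.toFinite {t | ∃ a ∈ A, a * z * a⁻¹ = t}).toFinset
  have mΩ : ∀ {t}, t ∈ Ω ↔ ∃ a ∈ A, a * z * a⁻¹ = t := Set.Finite.mem_toFinset _
  have ΩU : ∀ t ∈ Ω, t ∈ U := fun t ht => let ⟨a, ha, e⟩ := mΩ.1 ht; e ▸ cj_mem (AU ha) (k.le z_V4)
  have cm' : (Ω : Set X).Pairwise (Function.onFun Commute id) := fun a ha b hb _ => ab (ΩU b hb) a (ΩU a ha)
  have tU : Ω.noncommProd id cm' ∈ U := noncommProd_mem _ _ ΩU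
  have tA : Ω.noncommProd id cm' ∈ 𝐂 A := fun a ha => by
    have inj : Set.InjOn (fun b => a * b * a⁻¹) Ω := fun _ _ _ _ e => cj_can e
    have im : Ω.image (fun b => a * b * a⁻¹) = Ω := Finset.eq_of_subset_of_card_le (fun b hb => by
      obtain ⟨c, hc, rfl⟩ := Finset.mem_image.1 hb
      obtain ⟨d, hd, rfl⟩ := mΩ.1 hc
      exact mΩ.2 ⟨a * d, mul_mem ha hd, by group⟩) (Finset.card_image_of_injOn inj).ge
    refine cm ((Finset.map_noncommProd Ω id cm' (MulAut.conj a)).trans ?_)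
    unfold Finset.noncommProd
    congr 1
    rw [Multiset.map_id]
    exact (Finset.image_val_of_injOn inj).symm.trans (congrArg Finset.val im)
  obtain ⟨m, hm⟩ := isPGroup_iff_forall_mem.1 hP _ cP
  have com := congrArg Subtype.val (commute_of_coprime_of_isNilpotent (G := (G ⊓ 𝐂 A : Subgroup X)) (x := ⟨c₀, PG cP, c⟩)
    (y := ⟨_, UG tU, tA⟩) (((Nat.Coprime.pow_left m (by norm_num : Nat.Coprime 3 2)).coprime_dvd_left
      (orderOf_dvd_of_pow_eq_one (Subtype.ext hm))).coprime_dvd_right (orderOf_dvd_of_pow_eq_one (Subtype.ext (el.2 _ tU))))).eq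
  have z0 : z ∈ Ω := mΩ.2 ⟨1, one_mem _, by simp⟩
  have r := noncommProd_mem (𝐜 y ⊓ c₀⁻¹ •ᶜ 𝐜 y) (t := Ω.erase z) (f := id)
    (cm'.mono (Finset.coe_subset.2 (Finset.erase_subset _ _))) fun t ht => by
      obtain ⟨a, ha, rfl⟩ := mΩ.1 (Finset.mem_of_mem_erase ht)
      have e := (alt2 1 ⟨a, ha⟩).resolve_left fun e => Finset.ne_of_mem_erase ht (by simpa using e.1.symm)
      simp only [coe_one, one_mul, inv_one, mul_one] at e
      refine mem_inf.2 ⟨mem_centralizer_singleton_iff.2 (e _ z_V4), ?_⟩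
      rw [mem_cj, inv_inv, id, hc a ha]
      exact mem_centralizer_singleton_iff.2 (e _ v_V4)
  have e := fx (show c₀ * Ω.noncommProd id cm' = Ω.noncommProd id cm' * c₀ from com)
  rw [← Finset.mul_noncommProd_erase _ z0, cjm, id] at e
  have h1 := hc 1 (one_mem _)
  simp only [one_mul, inv_one, mul_one] at h1
  rw [h1] at e
  obtain ⟨r1, r2⟩ := mem_inf.1 r
  rw [mem_cj, inv_inv] at r2
  have r3 := mul_mem r1 (inv_mem r2)
  rw [mul_inv_eq_iff_eq_mul.2 ((eq_inv_mul_iff_mul_eq.2 e.symm).trans (mul_assoc _ _ _).symm)] at r3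
  exact k.toA4.v_ne_z (inv_mul_eq_one.1 (k.toA4.fpf (mul_mem (inv_mem z_V4) v_V4) (mem_centralizer_singleton_iff.1 r3).symm)).symm

end M3

/-- If `x ∈ N_G(U)` has commutator `V4 z v` on the invariant elementary abelian group `U`, then `C_G(A)` is not
nilpotent. -/
theorem m3 (cop : (Nat.card A).Coprime (Nat.card G)) (nil : Group.IsNilpotent (G ⊓ 𝐂 A : Subgroup X)) (AG : A ≤ 𝐍 G)
    (el : IsElementaryAbelian 2 U) (UG : U ≤ G) (AU : A ≤ 𝐍 U) (xG : x ∈ G) (xU : x ∈ 𝐍 U) (k : A4 z v x)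
    (VU : V4 z v ≤ U) (c : ∀ u ∈ U, x * u * x⁻¹ * u⁻¹ ∈ V4 z v) : False := by
  have : Fact (Nat.Prime 3) := ⟨Nat.prime_three⟩
  obtain ⟨m, n, e, k1⟩ := M3.three ⟨k, VU, xU, c⟩ (le_centralizer_iff_isMulCommutative.2 el.1)
  have yG := pow_mem xG m
  generalize x ^ m = y at *
  have cN : (Nat.card A).Coprime (Nat.card (G ⊓ 𝐍 U : Subgroup X)) := cop.coprime_dvd_right (card_dvd_of_le inf_le_left)
  obtain ⟨P, AP⟩ := coprime_exists_invariant_sylow A (G ⊓ 𝐍 U) (fun a ha => by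
    rw [mem_normalizer_iff_cj, cj_inf, cj_normalizer, cj_eq_of_mem_normalizer (AG ha), cj_eq_of_mem_normalizer (AU ha)]) cN
    (isSolvable_or_of_coprime _ _ cN) 3
  have hP := sylIn_map_subtype P
  obtain ⟨g, hg, l⟩ := hP.exists_conj_le (R := zpowers y) (isPGroup_iff_forall_mem.2 fun _ ⟨i, h⟩ =>
    ⟨n, by rw [← h, ← zpow_natCast, ← zpow_mul, mul_comm, zpow_mul, zpow_natCast, e, one_zpow]⟩) (zpowers_le.2 ⟨yG, k1.nU⟩)
  have d2 : 2 ∣ Nat.card G := by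
    have := orderOf_dvd_natCard _ (UG (VU z_V4))
    rwa [orderOf_eq_prime (by rw [pow_two, k.zz]) k.ne] at this
  have d3 : 3 ∣ Nat.card G := by
    by_contra h
    have := mem_of_cop (C := ⊥) (((Nat.Prime.coprime_iff_not_dvd Nat.prime_three).2 h).pow_left n) (mem_bot.2 e)
      (mem_bot.2 (orderOf_dvd_iff_pow_eq_one.1 (orderOf_dvd_natCard _ yG)))
    exact k.ne (k1.toA4.fpf z_V4 (by rw [mem_bot.1 this, one_mul, mul_one]))
  exact M3.core cop (((cop.coprime_dvd_right d2).pow_right 3).mul_right (cop.coprime_dvd_right d3)) nil el UG AU hP.pgroup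
    (hP.le.trans inf_le_left) (hP.le.trans inf_le_right) AP (M3.cj k1 hg.2) (l (conj_mem_cj (mem_zpowers y)))

end CL.FN
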