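import Cfsg.Agent.FGS.FN.M2
import Cfsg.Agent.FGS.FZ.MG
import Cfsg.Agent.SOLV.CoprimeSylow

/-!
# Coprime action with nilpotent fixed points, module lemma: there are no 2F-offenders
-/

set_option autoImplicit false
set_option linter.unusedSectionVars false
open Cfsg Subgroup CL.Th CL.MSS CL.B2 CL.FZ.Mo CL.FZ.MG
open CL.B2.PUq (br pre mem_br br_mono br_norm)
open scoped commutatorElement IsMulCommutative

namespace CL.FN

variable {X : Type*} [Group X] [Finite X] {A M S V B : Subgroup X}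

theorem comm_nil {Γ : Type*} [Group Γ] [Finite Γ] {C : Subgroup Γ} (nil : Group.IsNilpotent C) {x y : Γ} (hx : x ∈ C)
    (hy : y ∈ C) (h : (orderOf x).Coprime (orderOf y)) : x * y = y * x :=
  congrArg Subtype.val (CL.commute_of_coprime_of_isNilpotent (x := (⟨x, hx⟩ : C)) (y := ⟨y, hy⟩)
    (by rwa [← orderOf_coe, ← orderOf_coe])).eq

theorem odd_A (cop : (Nat.card A).Coprime (Nat.card M)) (VM : V ≤ M) (hV : IsElementaryAbelian 2 V) (V0 : V ≠ ⊥) :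
    Odd (Nat.card A) := by
  obtain ⟨n, hn⟩ := IsPGroup.iff_card.1 (Th.elemAb_isPGroup hV)
  rcases n with _ | n
  · exact absurd (card_eq_one.1 hn) V0
  · exact Nat.coprime_two_right.1 (cop.coprime_dvd_right ((hn ▸ dvd_pow_self 2 n.succ_ne_zero).trans (card_dvd_of_le VM)))

section
variable [IsMulCommutative V]

theorem card_br {Γ : Type*} [Group Γ] {N : Subgroup X} (π : N →* Γ) (h : A ≤ N) : Nat.card (br π A) ∣ Nat.card A :=
  (card_map_dvd _ π).trans (Nat.card_congr (subgroupOfEquivOfLe h).toEquiv).dvd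

/-- fixed points lift -/
theorem lift (cop : (Nat.card A).Coprime (Nat.card M)) (AM : A ≤ 𝐍 M) (hs : Group.IsSolvable M) (MV : M ≤ 𝐍 V)
    (AV : A ≤ 𝐍 V) {x : MulAut V} (hx : x ∈ br (ρ V) M) (hc : x ∈ 𝐂 (br (ρ V) A)) :
    ∃ m : (𝐍 V : Subgroup X), (m : X) ∈ M ⊓ 𝐂 A ∧ ρ V m = x := by
  obtain ⟨k, hk, rfl⟩ := hx
  obtain ⟨s, hs', e⟩ := CL.coprime_fixed_point_quotient A (M ⊓ 𝐂 V) (le_normalizer_inf AM (le_normalizer_centralizer AV))
    (cop.coprime_dvd_right (card_dvd_of_le inf_le_left))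
    (.inr (Group.isSolvable_of_isSolvable_injective (inclusion_injective inf_le_left))) k
    (le_normalizer_inf le_normalizer (le_normalizer_centralizer MV) hk) fun a ha =>
      ⟨M.mul_mem ((mem_normalizer_iff.1 (AM ha) _).1 hk) (M.inv_mem hk),
        ρ_one.1 (show ρ V (⟨a, AV ha⟩ * k * ⟨a, AV ha⟩⁻¹ * k⁻¹) = 1 by
          rw [map_mul, map_mul, map_mul, hc _ (mem_br (x := ⟨a, AV ha⟩) ha)]
          simp)⟩
  exact ⟨k * ⟨s, MV hs'.1⟩, ⟨M.mul_mem hk hs'.1, e⟩, by rw [map_mul, (ρ_one (g := ⟨s, MV hs'.1⟩)).2 hs'.2, mul_one]⟩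

variable (cop : (Nat.card A).Coprime (Nat.card M)) (nil : Group.IsNilpotent (M ⊓ 𝐂 A : Subgroup X)) (AM : A ≤ 𝐍 M)
  (hs : Group.IsSolvable M) (VM : V ≤ M) (MV : M ≤ 𝐍 V) (AV : A ≤ 𝐍 V) (hV : IsElementaryAbelian 2 V)
include cop nil AM hs MV AV

theorem n2_of {x s : MulAut V} (hx : x ∈ br (ρ V) M) (cx : x ∈ 𝐂 (br (ρ V) A)) (hs' : s ∈ br (ρ V) M)
    (cs : s ∈ 𝐂 (br (ρ V) A)) (h : (orderOf x).Coprime (orderOf s)) : x * s = s * x := by
  obtain ⟨m, hm, rfl⟩ := lift cop AM hs MV AV hx cx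
  obtain ⟨m', hm', rfl⟩ := lift cop AM hs MV AV hs' cs
  have := Group.nilpotent_of_mulEquiv (subgroupOfEquivOfLe (inf_le_left.trans MV : M ⊓ 𝐂 A ≤ 𝐍 V)).symm
  exact comm_nil (C := br (ρ V) (M ⊓ 𝐂 A)) (Group.nilpotent_of_surjective _ (MonoidHom.subgroupMap_surjective (ρ V) _))
    (mem_br hm) (mem_br hm') h

include VM hV

theorem hn (V0 : V ≠ ⊥) (o : O2 (br (ρ V) M) = ⊥) : Hn (br (ρ V) A) (fittingOf (br (ρ V) M)) := by
  have odd : Odd (Nat.card (fittingOf (br (ρ V) M))) := Nat.coprime_two_right.1 (coprime_card_fittingOf o)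
  refine ⟨fun w => Subtype.ext ((pow_two _).symm.trans (hV.2 _ w.2)), odd, isNilpotent_fittingOf _,
    (br_norm AM MV).trans (normalizer_le_normalizer_fittingOf _), (cop.coprime_dvd_left (card_br _ AV)).coprime_dvd_right
      ((card_dvd_of_le (fittingOf_le _)).trans (card_br _ MV)), Odd.of_dvd_nat (odd_A cop VM hV V0) (card_br _ AV),
    fun x hx cx w hw => ?_⟩
  obtain ⟨m, hm, rfl⟩ := lift cop AM hs MV AV (fittingOf_le _ hx) cx
  obtain ⟨k, hk⟩ := oU_exists_pow_coprime (p := 2) (m : X)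
  have e := comm_nil nil (pow_mem hm (2 ^ k)) (y := w) ⟨VM w.2, fun a ha => mul_inv_eq_iff_eq_mul.1
    (congrArg Subtype.val (mem_fxs.1 hw _ (mem_br (x := ⟨a, AV ha⟩) ha)))⟩
    (hk.coprime_dvd_right (orderOf_dvd_of_pow_eq_one (hV.2 _ w.2)))
  have e' : w ∈ fx (ρ V m ^ 2 ^ k) := by
    rw [← map_pow]
    exact Subtype.ext (mul_inv_eq_iff_eq_mul.2 e)
  rwa [fx_of_pow ((Nat.coprime_two_left.2 (Odd.of_dvd_nat odd (ord_dvd hx))).pow_left k)] at e'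

theorem hm (V0 : V ≠ ⊥) (o : O2 (br (ρ V) M) = ⊥) {T : Subgroup (MulAut V)} (hT : IsPGroup 2 T)
    (TM : T ≤ br (ρ V) M) : Hm (fittingOf (br (ρ V) M)) T := by
  have h := hn cop nil AM hs VM MV AV hV V0 o
  have sv : Group.IsSolvable (br (ρ V) M) := by
    have : Group.IsSolvable (M.subgroupOf (𝐍 V)) := Group.isSolvable_of_surjective
      (f := (subgroupOfEquivOfLe MV).symm.toMonoidHom) (subgroupOfEquivOfLe MV).symm.surjective
    exact Group.isSolvable_of_surjective (MonoidHom.subgroupMap_surjective (ρ V) _)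
  exact ⟨h.two, h.odd, h.nil, hT, TM.trans (le_normalizer_fittingOf _), eq_bot_of_le_fittingOf o (hT.to_le inf_le_left)
    (le_trans (le_inf inf_le_right (inf_le_left.trans TM)) (centralizer_fittingOf_inf_le sv)), fun _ => h.big⟩

end

theorem strict2F (cop : (Nat.card A).Coprime (Nat.card M)) (nil : Group.IsNilpotent (M ⊓ 𝐂 A : Subgroup X))
    (AM : A ≤ 𝐍 M) (hs : Group.IsSolvable M) (VM : V ≤ M) (MV : M ≤ 𝐍 V) (AV : A ≤ 𝐍 V)
    (hV : IsElementaryAbelian 2 V) (red : ∀ P ≤ M, M ≤ 𝐍 P → (∀ p ∈ P, ∃ n : ℕ, p ^ 2 ^ n ∈ 𝐂 V) → P ≤ 𝐂 V)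
    (hB : B ≤ M) (sq : ∀ b ∈ B, b * b ∈ 𝐂 V) (hn' : ¬ B ≤ 𝐂 V) : (𝐂 V).relIndex B ^ 2 < (𝐂 B).relIndex V := by
  have := hV.1
  have o := o2 MV red
  have V0 : V ≠ ⊥ := fun e => hn' fun b _ v hv => by rw [mem_bot.1 (e ▸ hv : v ∈ (⊥ : Subgroup X)), one_mul, mul_one]
  have s2 : ∀ y ∈ br (ρ V) B, y * y = 1 := by
    rintro _ ⟨b, hb, rfl⟩
    rw [← map_mul]; exact ρ_one.2 (sq _ hb)
  have el : IsElementaryAbelian 2 (br (ρ V) B) := ⟨⟨⟨fun a b => Subtype.ext (by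
    have i : ∀ y ∈ br (ρ V) B, y⁻¹ = y := fun y hy => inv_eq_of_mul_eq_one_right (s2 y hy)
    rw [coe_mul, coe_mul, ← i _ (mul_mem a.2 b.2), mul_inv_rev, i _ a.2, i _ b.2])⟩⟩, fun y hy => (pow_two _).trans (s2 y hy)⟩
  have pB : IsPGroup 2 (br (ρ V) B) := fun y => ⟨1, Subtype.ext ((pow_two _).trans (s2 y y.2))⟩
  have e1 : (𝐂 V).relIndex B = Nat.card (br (ρ V) B) := by
    rw [br, ← relIndex_ker, ← relIndex_subgroupOf (hB.trans MV)]
    congr 1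
    ext g; exact ρ_one.symm
  have e2 : (𝐂 B).relIndex V = (fxs (br (ρ V) B)).index := by
    rw [relIndex]
    congr 1
    ext v
    rw [mem_fxs]
    exact ⟨by rintro h _ ⟨b, hb, rfl⟩; exact Subtype.ext (mul_inv_eq_iff_eq_mul.2 (h b hb)), fun h b hb =>
      mul_inv_eq_iff_eq_mul.1 (congrArg Subtype.val (h _ (mem_br (x := ⟨b, MV (hB hb)⟩) hb)))⟩
  rw [e1, e2]
  by_contra! le
  obtain ⟨t, ht, tt⟩ := (hm cop nil AM hs VM MV AV hV V0 o pB (br_mono hB)).rank le_rfl el (fun e => hn' fun b hb =>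
    ρ_one.1 (mem_bot.1 (e ▸ mem_br (x := ⟨b, MV (hB hb)⟩) hb))) le
  obtain ⟨P, AS⟩ := CL.coprime_exists_invariant_sylow A M AM cop (.inr hs) 2
  have syl := sylIn_map_subtype P
  generalize (P : Subgroup M).map M.subtype = S at AS syl
  have sy : SylIn 2 (br (ρ V) S) (br (ρ V) M) := (syl.subgroupOf MV).map _
  obtain ⟨g, -, hg⟩ := sy.exists_conj_le pB (br_mono hB)
  have h := hn cop nil AM hs VM MV AV hV V0 o
  refine h.no_tt (hm cop nil AM hs VM MV AV hV V0 o sy.pgroup sy.le) (br_norm AS (syl.le.trans MV))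
    (fun x hx cx s hs' cs => n2_of cop nil AM hs MV AV (fittingOf_le _ hx) cx (sy.le hs') cs ?_) (t := g * t * g⁻¹)
    ⟨hg ⟨t, ht, rfl⟩, by rw [conj_mul, tt.sq]; simp, by simpa using tt.ne, by rw [card_cm_cj]; exact tt.le⟩
  obtain ⟨n, hn⟩ := isPGroup_iff_forall_mem.1 sy.pgroup s hs'
  exact ((Nat.coprime_two_right.2 (h.oo hx)).pow_right n).coprime_dvd_right (orderOf_dvd_of_pow_eq_one hn)

end CL.FN
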