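import Cfsg.Agent.FGS.FN.BlB
import Cfsg.Agent.FGS.FN.M3

/-!
# Theorem N: there is no block over the field with four elements
-/

set_option autoImplicit false
set_option linter.unusedSectionVars false
open Cfsg Subgroup CL.Th CL.MSS CL.Push CL.BHS CL.B2 CL.Dickson CL.Quad
open CL.CO CL.CO.FinB
open scoped commutatorElement MatrixGroups

namespace CL.FN

theorem four_elts {F : Type} [Field F] [Fintype F] [CharP F 2] (h4 : Nat.card F = 4) :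
    ∃ c : F, c ≠ 0 ∧ c ≠ 1 ∧ c ^ 3 = 1 ∧ ∀ t : F, t = 0 ∨ t = 1 ∨ t = c ∨ t = c + 1 := by
  have two : (2 : F) = 0 := CharTwo.two_eq_zero
  have p4 : ∀ t : F, t ^ 4 = t := fun t => by rw [← h4, Nat.card_eq_fintype_card, FiniteField.pow_card]
  obtain ⟨d, d0, d1⟩ := SL.exists_sq_ne_one_of_four_le_card (F := F) h4.ge
  have d2 : d ≠ 1 := fun e => d1 (by rw [e, one_pow])
  have d3 : d ^ 3 = 1 := mul_left_cancel₀ d0 (by linear_combination p4 d)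
  have d4 : d ^ 2 + d + 1 = 0 := (mul_eq_zero.1 (show (d - 1) * (d ^ 2 + d + 1) = 0 by linear_combination d3)).resolve_left
    (sub_ne_zero.2 d2)
  refine ⟨d, d0, d2, d3, fun t => ?_⟩
  have : t * ((t - 1) * ((t - d) * (t - (d + 1)))) = 0 := by
    linear_combination p4 t + (t ^ 2 - t) * d4 + (-t ^ 3 - t ^ 3 * d + t ^ 2 * d + t) * two
  simpa only [mul_eq_zero, sub_eq_zero] using this

variable {X : Type*} [Group X] [Finite X] {A G S P E B Q W V : Subgroup X}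

theorem Bl.q4 {F : Type} [Field F] [Fintype F] [CharP F 2] {r : X → SL(2, F)} {ψ : X → Fin 2 → F}
    (m : Bl F P E B Q W r ψ) (h : Hc A G S) (PG : P ≤ G) (hV : V ≤ oz B) (nV : ¬ V ≤ 𝐂 P) (hN : P ⊓ 𝐍 B ≤ 𝐍 V)
    (AV : A ≤ 𝐍 V) (h4 : Nat.card F = 4) : False := by
  obtain ⟨c, c0, c1, c3, all⟩ := four_elts h4
  obtain ⟨k, kE, kB, ko, rk⟩ := m.tor c c0
  have kP := m.EP kE
  have kV : k ∈ 𝐍 V := hN ⟨kP, kB⟩
  have VY := hV.trans m.ozB
  have el : IsElementaryAbelian 2 V := elemAb_of_le (oz_elem B) hV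
  have com : ∀ {a b : X}, a ∈ V → b ∈ V → a * b = b * a := fun ha hb =>
    le_centralizer_iff_isMulCommutative.2 el.1 hb _ ha
  have sq : ∀ {a : X}, a ∈ V → a * a = 1 := fun ha => m.Ysq (VY ha)
  have p1 : ∀ u ∈ V, ψ u 1 = 0 := fun u hu => (m.cent (VY hu)).1 (mem_oz.1 (hV hu)).2.1
  have ext : ∀ {a b : X}, a ∈ V → b ∈ V → ψ a 0 = ψ b 0 → a⁻¹ * b ∈ 𝐂 P := fun ha hb e =>
    (m.ψ_eq_iff (VY ha) (VY hb)).1 (vec_ext e ((p1 _ ha).trans (p1 _ hb).symm))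
  have ak : ∀ u ∈ V, ψ (k * u * k⁻¹) 0 = c * ψ u 0 := fun u hu => by rw [m.act k kP u (VY hu), rk, dg_smul]; rfl
  have ad : ∀ {a b : X}, a ∈ V → b ∈ V → ψ (a * b) 0 = ψ a 0 + ψ b 0 := fun ha hb => by
    rw [m.add _ (VY ha) _ (VY hb)]; rfl
  have k3 : ∀ u ∈ V, k * (k * (k * u * k⁻¹) * k⁻¹) * k⁻¹ = u := fun u hu => by
    have e0 : k * (k * (k * u * k⁻¹) * k⁻¹) * k⁻¹ = k ^ 3 * u * (k ^ 3)⁻¹ := by rw [pow_three]; group
    have m1 := cj_mem kV (cj_mem kV (cj_mem kV hu))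
    have e := ext hu m1 (by rw [ak _ (cj_mem kV (cj_mem kV hu)), ak _ (cj_mem kV hu), ak _ hu]; linear_combination (-ψ u 0) * c3)
    have e2 := sq (mul_mem (inv_mem hu) m1)
    rw [e0] at e e2 ⊢
    refine fx (mem_centralizer_singleton_iff.1 (mem_of_cop (C := 𝐜 u) (y := k ^ 3) (m := orderOf k) (n := 2)
      (Nat.coprime_two_right.2 ko) (by rw [← pow_mul, mul_comm, pow_mul, pow_orderOf_eq_one, one_pow]; exact one_mem _)
      (mem_centralizer_singleton_iff.2 (cm ?_))))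
    have e3 := fx (e _ (pow_mem kP 3))
    generalize k ^ 3 = d at *
    calc _ = d * u * d⁻¹ * (d * (u⁻¹ * (d * u * d⁻¹)) * d⁻¹) := by rw [pow_two]; group
      _ = u * (u⁻¹ * (d * u * d⁻¹) * (u⁻¹ * (d * u * d⁻¹))) := by rw [e3]; group
      _ = u := by rw [e2, mul_one]
  obtain ⟨u, hu, nu⟩ := SetLike.not_le_iff_exists.1 nV
  have u0 : ψ u 0 ≠ 0 := fun e => nu ((m.zero u (VY hu)).1 (vec_ext e (p1 u hu)))
  have h1 := cj_mem kV hu
  have h2 := cj_mem kV h1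
  have hz := mul_mem h1 hu
  have hv := cj_mem kV hz
  have z0 : ψ (k * u * k⁻¹ * u) 0 ≠ 0 := by
    rw [ad h1 hu, ak u hu, ← add_one_mul]
    exact mul_ne_zero (fun e => c1 (by rw [← CharTwo.neg_eq (1 : F)]; exact eq_neg_of_add_eq_zero_left e)) u0
  have a4 : A4 (k * u * k⁻¹ * u) (k * (k * u * k⁻¹ * u) * k⁻¹) k := ⟨sq hz, sq hv, fun e => z0 (by rw [e, m.ψ_one]; rfl),
    com hz hv, rfl, by
      rw [cjm k (k * u * k⁻¹) u, cjm k (k * (k * u * k⁻¹) * k⁻¹), k3 u hu, com hu h2, mul_assoc (k * (k * u * k⁻¹) * k⁻¹), ← mul_assoc (k * u * k⁻¹), sq h1, one_mul]⟩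
  have ev := ak _ hz
  generalize k * u * k⁻¹ * u = z at *
  generalize k * z * k⁻¹ = v at *
  have l := V4_le hz hv
  refine m3 h.cop h.nil h.nrm el (hV.trans ((oz_le B).trans (m.BP.trans PG))) AV (PG kP) kV a4 l fun y hy => ?_
  obtain ⟨w, hw, e⟩ : ∃ w ∈ V4 z v, ψ w 0 = ψ y 0 := by
    rcases all (ψ y 0 / ψ z 0) with e | e | e | e <;> rw [div_eq_iff z0] at e
    · exact ⟨1, one_mem _, by rw [m.ψ_one, e, zero_mul]; rfl⟩
    · exact ⟨z, z_V4, by rw [e, one_mul]⟩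
    · exact ⟨v, v_V4, by rw [e, ev]⟩
    · exact ⟨v * z, mul_mem v_V4 z_V4, by rw [ad hv hz, e, ev, add_one_mul]⟩
  have e1 := fx (ext (l hw) hy e k kP)
  have : k * y * k⁻¹ * y⁻¹ = k * w * k⁻¹ * w⁻¹ := by
    calc _ = k * w * k⁻¹ * (k * (w⁻¹ * y) * k⁻¹) * y⁻¹ := by group
      _ = _ := by rw [e1]; group
  exact this ▸ mul_mem (cj_mem a4.norm hw) (inv_mem hw)

end CL.FN
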