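import Cfsg.Agent.FGS.CO.Defs

/-!
# Theorem N: squares in the centralizer of a block
-/

set_option autoImplicit false
set_option linter.unusedSectionVars false
open Cfsg Subgroup CL.Th CL.MSS CL.B2
open scoped commutatorElement

namespace CL.FN

variable {X : Type*} [Group X] [Finite X] {b c g x : X} {L P T W Y : Subgroup X}

theorem cjm (h : g ∈ 𝐍 W) (hx : x ∈ W) : g * x * g⁻¹ ∈ W := (mem_normalizer_iff.1 h x).1 hx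

/-- If `g` is trivial on `P / Y` and on `Y / W` then `g ^ 2` centralizes the squares of `P ≤ C(W)`. -/
theorem sq_comm (W2 : ∀ w ∈ W, w * w = 1) (Y2 : ∀ y ∈ Y, y * y = 1) (h1 : ⁅g, c⁆ ∈ Y)
    (h2 : ∀ y ∈ Y, ⁅g, y⁆ ∈ W) (hc : c ∈ 𝐂 W) : g ^ 2 * (c * c) * (g ^ 2)⁻¹ = c * c := by
  have k := h2 _ h1
  have e : ⁅g, c⁆⁻¹ = ⁅g, c⁆ := inv_eq_of_mul_eq_one_right (Y2 _ h1)
  have f : g ^ 2 * c * (g ^ 2)⁻¹ = ⁅g, ⁅g, c⁆⁆ * c := by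
    rw [commutatorElement_def g ⁅g, c⁆, e, commutatorElement_def, pow_two]; group
  have k3 := hc _ k
  have k4 := W2 _ k
  generalize ⁅g, ⁅g, c⁆⁆ = d at f k3 k4
  calc g ^ 2 * (c * c) * (g ^ 2)⁻¹ = (g ^ 2 * c * (g ^ 2)⁻¹) * (g ^ 2 * c * (g ^ 2)⁻¹) := by group
    _ = d * (c * d) * c := by rw [f]; group
    _ = c * c := by rw [← k3, ← mul_assoc, k4, one_mul]

/-- Frattini for the Sylow subgroup `T ⊓ C(W)` of `L ⊓ C(W)`. -/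
theorem sq_fix (hT : SylIn 2 T L) (LW : L ≤ 𝐍 W) (LY : L ≤ 𝐍 Y) (W2 : ∀ w ∈ W, w * w = 1)
    (Y2 : ∀ y ∈ Y, y * y = 1) (h1 : ∀ y ∈ T ⊓ 𝐂 W, ⁅b, y⁆ ∈ Y) (h2 : ∀ y ∈ Y, ⁅b, y⁆ ∈ W) (hx : x ∈ L)
    (hb : b ∈ L) (hc : c ∈ T ⊓ 𝐂 W) (cc : c * c ∈ W) : Commute ((b * (x * b * x⁻¹)) ^ 2) (c * c) := by
  have nC : L ≤ 𝐍 (𝐂 W) := CL.MSS.le_normalizer_centralizer LW
  obtain ⟨n, hn, y, hy, rfl⟩ := (hT.inf_normal nC).frattini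
    (CL.MSS.le_normalizer_inf le_normalizer nC hx)
  have yL : y ∈ L := (L.mul_mem_cancel_left hn.1).1 hx
  have b'L : y * b * y⁻¹ ∈ L := mul_mem (mul_mem yL hb) (inv_mem yL)
  have cj : ∀ p : X, ⁅y * b * y⁻¹, p⁆ = y * ⁅b, y⁻¹ * p * y⁻¹⁻¹⁆ * y⁻¹ := fun p => by
    simp only [commutatorElement_def]; group
  have ml : ∀ p : X, ⁅b * (y * b * y⁻¹), p⁆ = b * ⁅y * b * y⁻¹, p⁆ * b⁻¹ * ⁅b, p⁆ := fun p => by
    simp only [commutatorElement_def]; group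
  have k := sq_comm (g := b * (y * b * y⁻¹)) W2 Y2
    (ml c ▸ mul_mem (cjm (LY hb) (cj c ▸ cjm (LY yL) (h1 _ (cjm (inv_mem hy) hc)))) (h1 c hc))
    (fun p hp => ml p ▸ mul_mem (cjm (LW hb) (cj p ▸ cjm (LW yL) (h2 _ (cjm (inv_mem (LY yL)) hp))))
      (h2 p hp)) hc.2
  have act : ∀ w ∈ W, b * (n * y * b * (n * y)⁻¹) * w * (b * (n * y * b * (n * y)⁻¹))⁻¹ =
      b * (y * b * y⁻¹) * w * (b * (y * b * y⁻¹))⁻¹ := fun w hw => by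
    have e1 : n⁻¹ * w * n = w := by rw [mul_assoc, hn.2 w hw, inv_mul_cancel_left]
    have e2 := hn.2 _ (cjm (LW b'L) hw)
    calc _ = b * (n * (y * b * y⁻¹ * (n⁻¹ * w * n) * (y * b * y⁻¹)⁻¹) * n⁻¹) * b⁻¹ := by group
      _ = _ := by rw [e1, ← e2]; group
  have gW : b * (y * b * y⁻¹) ∈ 𝐍 W := LW (mul_mem hb b'L)
  refine mul_inv_eq_iff_eq_mul.1 (Eq.trans ?_ k)
  have e3 := act _ (cjm gW cc)
  rw [← act _ cc] at e3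
  generalize b * (n * y * b * (n * y)⁻¹) = g₀ at act e3 ⊢
  have e4 := act _ cc
  generalize b * (y * b * y⁻¹) = g₁ at e3 e4 ⊢
  calc g₀ ^ 2 * (c * c) * (g₀ ^ 2)⁻¹ = g₀ * (g₀ * (c * c) * g₀⁻¹) * g₀⁻¹ := by rw [pow_two]; group
    _ = g₁ * (g₁ * (c * c) * g₁⁻¹) * g₁⁻¹ := by rw [e3, e4]
    _ = _ := by rw [pow_two]; group

end CL.FN
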