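import Cfsg.Agent.FGS.FN.TI0
import Cfsg.Agent.TECH.PRed2

/-!
# Theorem N: weakly closed root groups are TI
-/

set_option autoImplicit false
set_option linter.unusedSectionVars false
open Cfsg Subgroup CL.Th CL.MSS CL.B2
open CL.B2.PUq
open scoped IsMulCommutative

namespace CL.FN
open CL.FZ.Mo

namespace TI

section
variable {V : Type*} [CommGroup V] [Finite V] {T H N : Subgroup (MulAut V)} {U : Subgroup V} {a x : MulAut V}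

theorem mp_mul (g h : MulAut V) : U.map (g * h).toMonoidHom = (U.map h.toMonoidHom).map g.toMonoidHom := by
  rw [Subgroup.map_map]; rfl

theorem card_mp (g : MulAut V) : Nat.card (U.map g.toMonoidHom) = Nat.card U :=
  card_map_of_injective g.injective

theorem fam (two : ∀ w : V, w * w = 1) (q : Tq T U) (TH : T ≤ H) (big : 4 < Nat.card U) (sol : Group.IsSolvable N)
    (NT : N ≤ 𝐍 T) (irr : ∀ U₀ ≤ U, (∀ n ∈ N, Iv n U₀) → U₀ = ⊥ ∨ U₀ = U)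
    (wc : ∀ g ∈ H, IsPGroup 2 (T ⊔ g •ᶜ T : Subgroup (MulAut V)) → g ∈ N) :
    Fa {p | ∃ g ∈ H, p = (g •ᶜ T, U.map g.toMonoidHom)} := by
  have pT : IsPGroup 2 T := isPGroup_iff_forall_mem.2 fun a ha => ⟨1, by rw [pow_one, pow_two, q.sq a ha]⟩
  refine ⟨two, ?_, ?_, ?_, ?_, ?_, ?_⟩
  · rintro _ ⟨g, -, rfl⟩
    exact q.cj g
  · rintro _ ⟨g, -, rfl⟩ _ ⟨g', -, rfl⟩
    rw [card_mp, card_mp]
  · rintro _ ⟨g, -, rfl⟩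
    rwa [card_mp]
  · rintro _ ⟨g, hg, rfl⟩ _ ⟨g', hg', rfl⟩ j hj
    exact ⟨j * g', mul_mem (cj_le_of_mem TH hg hj) hg', by rw [cj_mul, mp_mul]⟩
  · rintro _ ⟨g, hg, rfl⟩ _ ⟨g', hg', rfl⟩ e
    have := cj_eq_of_mem_normalizer (NT (wc (g⁻¹ * g') (mul_mem (inv_mem hg) hg') (by
      have := isPGroup_cj g⁻¹ e
      rwa [cj_sup, inv_cj_cj, ← cj_mul] at this)))
    show g •ᶜ T = g' •ᶜ T
    rw [← mul_inv_cancel_left g g', cj_mul, this]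
  · rintro _ ⟨g, hg, rfl⟩
    refine ⟨g •ᶜ N, Group.isSolvable_of_surjective (f := (cjEquiv g N).toMonoidHom) (cjEquiv g N).surjective,
      fun n hn => (q.cj g).iv (cj_eq_of_mem_normalizer (cj_normalizer g T ▸ cj_mono g NT hn)), fun U₀ h1 h2 => ?_, ?_⟩
    · have e : U₀ = (U₀.map g⁻¹.toMonoidHom).map g.toMonoidHom := by
        rw [← mp_mul, mul_inv_cancel]; exact (Subgroup.map_id _).symm
      rcases irr (U₀.map g⁻¹.toMonoidHom) (by rintro _ ⟨u, hu, rfl⟩; exact mem_mp.1 (h1 hu)) (by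
        rintro n hn _ ⟨u, hu, rfl⟩
        exact ⟨_, h2 _ (conj_mem_cj hn) u hu, by simp⟩) with h | h
      · exact .inl (by rw [e, h, Subgroup.map_bot])
      · exact .inr (by rw [e, h])
    · rintro _ ⟨g', hg', rfl⟩ j hj e
      refine mem_cj.2 (wc _ (mul_mem (mul_mem (inv_mem hg) (cj_le_of_mem TH hg' hj)) hg) ?_)
      dsimp only at e
      rwa [cj_mul, cj_mul, e, inv_cj_cj, sup_idem]

theorem lin (q : Tq T U) (TH : T ≤ H) (h : Fa {p | ∃ g ∈ H, p = (g •ᶜ T, U.map g.toMonoidHom)}) (hx : x ∈ H)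
    (nx : x •ᶜ T ≠ T) (ha : a ∈ H) (aT : a •ᶜ T = T) (aY : ∀ y, a y * y⁻¹ ∈ fxs T) :
    ∃ t ∈ T, ∀ u ∈ U, (t⁻¹ * a) (x u) = x u := by
  have m0 : (T, U) ∈ {p | ∃ g ∈ H, p = (g •ᶜ T, U.map g.toMonoidHom)} :=
    ⟨1, one_mem _, by rw [cj_one]; exact congrArg _ (Subgroup.map_id _).symm⟩
  have m : ∀ {g}, g ∈ H → (g •ᶜ T, U.map g.toMonoidHom) ∈ {p | ∃ g ∈ H, p = (g •ᶜ T, U.map g.toMonoidHom)} :=
    fun hg => ⟨_, hg, rfl⟩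
  have z := h.ti m0 (m hx) nx.symm
  have q' := q.cj (a * x)
  obtain ⟨s, hs, s1⟩ := q'.ex
  obtain ⟨⟨w, hw⟩, w1⟩ : ∃ w : ((U ⊔ U.map x.toMonoidHom) ⊓ fx s : Subgroup V), w ≠ 1 := by
    refine ne_bot_iff_exists_ne_one.1 fun e => ?_
    have a1 := card_map_cm s (U ⊔ U.map x.toMonoidHom)
    have a2 := card_sup_inf U (U.map x.toMonoidHom)
    have a3 : Nat.card ((U ⊔ U.map x.toMonoidHom).map (s.toMonoidHom / MonoidHom.id V)) ≤ Nat.card U :=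
      (card_le_of_le (by rintro _ ⟨w, -, rfl⟩; simpa [div_eq_mul_inv] using q'.cz s hs w)).trans (card_mp (a * x)).le
    have a4 := h.big _ m0
    rw [eq_bot_iff.2 (show U ⊓ U.map x.toMonoidHom ≤ ⊥ from fun u hu => z.le ⟨hu.2, q.le h.two hu.1⟩), card_bot,
      card_mp] at a2
    rw [e, card_bot] at a1
    dsimp only at a4
    nlinarith
  replace w1 : w ≠ 1 := fun e => w1 (Subtype.ext e)
  have wZ := q'.fix s hs s1 w hw.2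
  have eq : ∀ {g}, g ∈ H → w ∈ U.map g.toMonoidHom → (a * x) •ᶜ T = g •ᶜ T := fun hg hw' => by
    by_contra n
    exact w1 (mem_bot.1 ((h.ti (m (mul_mem ha hx)) (m hg) n).le ⟨hw', wZ⟩))
  obtain ⟨u, hu, u', hu', rfl⟩ := mem_sup.1 hw.1
  have n' : u' ∉ fxs T := fun k => nx (by
    have := eq (one_mem _) ⟨u, hu, by rw [mem_bot.1 (z.le ⟨hu', k⟩), mul_one]; rfl⟩
    rwa [cj_one, cj_mul, ← aT, cj_inj, aT] at this)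
  obtain ⟨t, ht, e⟩ := q.on1 u' n' u hu
  have e2 := eq (mul_mem (TH ht) hx) (by rw [mp_mul]; exact ⟨u', hu', by rw [← e]; simp⟩)
  have l := (e2 ▸ q').uniq (q.cj (t * x))
  refine ⟨t, ht, fun v hv => mul_inv_eq_one.1 (mem_bot.1 (z.le (mem_inf.2 ⟨mul_mem ?_ (inv_mem ⟨v, hv, rfl⟩), ?_⟩)))⟩
  · have := l ⟨v, hv, rfl⟩
    rw [mp_mul] at this
    exact mem_mp.1 this
  · simpa [mul_assoc] using mul_mem (q.le h.two (q.cz _ (inv_mem ht) (a (x v)))) (aY (x v))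

theorem triv (q : Tq T U) (aT : a ∈ 𝐍 T) (aa : a * a = 1) (aU : ∀ u ∈ U, a u = u)
    (y : V) : a y * y⁻¹ ∈ fxs T := by
  have pT : IsPGroup 2 T := isPGroup_iff_forall_mem.2 fun a ha => ⟨1, by rw [pow_one, pow_two, q.sq a ha]⟩
  obtain ⟨⟨t, ht⟩, t1⟩ := ne_bot_iff_exists_ne_one.1 (inf_centralizer_ne_bot (isPGroup_zpowers (k := 1)
    (by rw [pow_one, pow_two, aa])) pT (zpowers_le.2 aT) q.ne)
  have c : a * t = t * a := ht.2 a (mem_zpowers a)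
  refine q.fix t ht.1 (fun e => t1 (Subtype.ext e)) _ ?_
  have := aU _ (q.cz t ht.1 y)
  rw [map_mul, map_inv, ← MulAut.mul_apply, c, MulAut.mul_apply] at this
  rw [map_mul, map_inv, eq_mul_of_mul_inv_eq this]
  apply Additive.ofMul.injective
  simp only [ofMul_mul, ofMul_inv]
  abel

end

variable {X : Type*} [Group X] [Finite X] {H J U Y : Subgroup X} {a g x : X}

/-- weak closure modulo `C(Y)` -/
theorem wcl (HY : H ≤ 𝐍 Y) (hp : IsPGroup 2 J) (JH : J ≤ H) (ov : ∀ P : Subgroup X, IsPGroup 2 P → P ≤ H → J ≤ P → Jt P = J)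
    (hg : g ∈ H) (two : ∀ s ∈ J ⊔ g •ᶜ J, ∃ n : ℕ, s ^ 2 ^ n ∈ 𝐂 Y) : ∃ c ∈ H ⊓ 𝐂 Y, c * g ∈ 𝐍 J := by
  have LH : J ⊔ g •ᶜ J ≤ H := sup_le JH (cj_le_of_mem JH hg)
  obtain ⟨P, hP, JP⟩ := exists_sylIn_ge hp (le_sup_left : J ≤ J ⊔ g •ᶜ J)
  obtain ⟨l, hl, e⟩ := hP.exists_conj_le (isPGroup_cj g hp) le_sup_right
  have nC := le_normalizer_centralizer (LH.trans HY)
  obtain ⟨p, hp', c, hc, rfl⟩ := (mem_sup_of_normalizes_right (hP.le.trans (le_normalizer_inf le_normalizer nC))).1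
    ((hP.le_sup_of_pow_mem le_rfl le_normalizer nC two).trans (sup_le_sup_right inf_le_left _) hl)
  rw [cj_mul, cj_le_iff, cj_eq_of_mem (inv_mem hp'), ← cj_mul] at e
  refine ⟨c, ⟨LH hc.1, hc.2⟩, mem_normalizer_of_cj_le ?_⟩
  have eP := ov P hP.pgroup (hP.le.trans LH) JP
  obtain ⟨A, hA⟩ := maxElemAbIn_nonempty (p := 2) P
  have AJ : A ≤ J := eP ▸ le_thompsonSubgroupOf hA
  have k := thompsonSubgroupOf_mono_of_mem (mem_maxElemAbIn_of_card_le hA ((cj_mono _ AJ).trans e)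
    (cj_Am (c * g) hA).2.1 (card_cj _ _).ge) (cj_mono _ AJ) e
  exact ((congrArg _ (ov J hp JH le_rfl).symm).trans (cj_Jt _ _)).le.trans (k.trans eP.le)

variable [IsMulCommutative Y]

theorem fx_iff (JY : J ≤ 𝐍 Y) {y : Y} : y ∈ fxs (br Y.normalizerMonoidHom J) ↔ (y : X) ∈ 𝐂 J := by
  rw [mem_fxs]
  constructor
  · exact fun h t ht => mul_inv_eq_iff_eq_mul.1 (congrArg Subtype.val (h _ (mem_br (x := ⟨t, JY ht⟩) ht)))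
  · rintro h _ ⟨t, ht, rfl⟩
    exact Subtype.ext (mul_inv_eq_iff_eq_mul.2 (h t ht))

theorem tq (JY : J ≤ 𝐍 Y) (sq : ∀ t ∈ J, t * t ∈ 𝐂 Y)
    (fix : ∀ t ∈ J, t ∉ 𝐂 Y → ∀ y ∈ Y, t * y = y * t → y ∈ 𝐂 J) (cz : ∀ t ∈ J, ∀ y ∈ Y, t * y * t⁻¹ * y⁻¹ ∈ U)
    (on1 : ∀ y ∈ Y, y ∉ 𝐂 J → ∀ u ∈ U, ∃ t ∈ J, t * y * t⁻¹ * y⁻¹ = u)
    (on2 : ∀ t ∈ J, t ∉ 𝐂 Y → ∀ u ∈ U, ∃ y ∈ Y, t * y * t⁻¹ * y⁻¹ = u) (ne : ¬ J ≤ 𝐂 Y) :
    Tq (br Y.normalizerMonoidHom J) (U.subgroupOf Y) := by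
  refine ⟨?_, ?_, ?_, fun y hy u hu => ?_, ?_, fun e => ne fun t ht => ?_⟩
  · rintro _ ⟨t, ht, rfl⟩
    rw [← map_mul]
    exact CL.FZ.MG1.one_iff.2 (sq t ht)
  · rintro _ ⟨t, ht, rfl⟩ n y e
    exact (fx_iff JY).2 (fix t ht (mt CL.FZ.MG1.one_iff.2 n) y y.2 (mul_inv_eq_iff_eq_mul.1 (congrArg Subtype.val e)))
  · rintro _ ⟨t, ht, rfl⟩ y
    exact cz t ht y y.2
  · obtain ⟨t, ht, e⟩ := on1 y y.2 (mt (fx_iff JY).2 hy) u hu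
    exact ⟨_, mem_br (x := ⟨t, JY ht⟩) ht, Subtype.ext e⟩
  · rintro _ ⟨t, ht, rfl⟩ n u hu
    obtain ⟨y, hy, e⟩ := on2 t ht (mt CL.FZ.MG1.one_iff.2 n) u hu
    exact ⟨⟨y, hy⟩, Subtype.ext e⟩
  · exact (CL.FZ.MG1.one_iff (g := ⟨t, JY ht⟩)).1 (mem_bot.1 (e ▸ mem_br (x := ⟨t, JY ht⟩) ht))

end TI

open CL.FN.TI

variable {X : Type*} [Group X] [Finite X] {H J U Y : Subgroup X} {a x : X}

/-- An element normalizing `J` and trivial on `Y / C_Y(J)` acts on the opposite centre like an element of `J`. -/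
theorem ti (el : IsElementaryAbelian 2 Y) (HY : H ≤ 𝐍 Y) (hp : IsPGroup 2 J) (JH : J ≤ H)
    (ov : ∀ P : Subgroup X, IsPGroup 2 P → P ≤ H → J ≤ P → Jt P = J) (UY : U ≤ Y) (sq : ∀ t ∈ J, t * t ∈ 𝐂 Y)
    (fix : ∀ t ∈ J, t ∉ 𝐂 Y → ∀ y ∈ Y, t * y = y * t → y ∈ 𝐂 J) (cz : ∀ t ∈ J, ∀ y ∈ Y, t * y * t⁻¹ * y⁻¹ ∈ U)
    (on1 : ∀ y ∈ Y, y ∉ 𝐂 J → ∀ u ∈ U, ∃ t ∈ J, t * y * t⁻¹ * y⁻¹ = u)
    (on2 : ∀ t ∈ J, t ∉ 𝐂 Y → ∀ u ∈ U, ∃ y ∈ Y, t * y * t⁻¹ * y⁻¹ = u) (ne : ¬ J ≤ 𝐂 Y) (big : 4 < Nat.card U)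
    (sol : Group.IsSolvable (H ⊓ 𝐍 J : Subgroup X)) (irr : ∀ U0 ≤ U, H ⊓ 𝐍 J ≤ 𝐍 U0 → U0 = ⊥ ∨ U0 = U)
    (hx : x ∈ H) (nx : x ∉ 𝐍 U) (ha : a ∈ H ⊓ 𝐍 J) (aY : ∀ y ∈ Y, a * y * a⁻¹ * y⁻¹ ∈ 𝐂 J) :
    ∃ t ∈ J, t⁻¹ * a ∈ 𝐂 (x •ᶜ U : Subgroup X) := by
  have := el.1
  have JY := JH.trans HY
  have q := tq JY sq fix cz on1 on2 ne
  have bc : ∀ g : 𝐍 Y, br Y.normalizerMonoidHom ((g : X) •ᶜ J) =
      Y.normalizerMonoidHom g •ᶜ br Y.normalizerMonoidHom J := fun g => by rw [br, br, ← cj_subgroupOf, map_cj]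
  have f := fam (H := br Y.normalizerMonoidHom H) (N := br Y.normalizerMonoidHom (H ⊓ 𝐍 J))
    (fun w => Subtype.ext ((pow_two (w : X)).symm.trans (el.2 w w.2))) q (br_mono JH)
    (by rwa [Nat.card_congr (subgroupOfEquivOfLe UY).toEquiv])
    (CL.FZ.MG1.br_solv _ (inf_le_left.trans HY) sol) (br_norm inf_le_right JY) (fun U₀ h1 h2 => ?_) ?_
  · obtain ⟨_, ⟨t, ht, rfl⟩, e⟩ := lin (x := Y.normalizerMonoidHom ⟨x, HY hx⟩) (a := Y.normalizerMonoidHom ⟨a, HY ha.1⟩)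
      q (br_mono JH) f (mem_br hx)
      (fun e => nx (mem_normalizer_fintype fun u hu => q.iv e ⟨u, UY hu⟩ hu)) (mem_br ha.1)
      (by rw [← bc, cj_eq_of_mem_normalizer ha.2]) fun y => (fx_iff JY).2 (aY y y.2)
    refine ⟨t, ht, ?_⟩
    rintro _ ⟨u, hu, rfl⟩
    have := congrArg Subtype.val (e ⟨u, UY hu⟩ hu)
    rw [← map_inv, ← map_mul] at this
    exact (mul_inv_eq_iff_eq_mul.1 this).symm
  · rcases irr (U₀.map Y.subtype) (map_le_iff_le_comap.2 h1) (fun n hn => mem_normalizer_fintype (by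
      rintro _ ⟨u, hu, rfl⟩
      exact ⟨_, h2 _ (mem_br (x := ⟨n, HY hn.1⟩) hn) u hu, rfl⟩)) with h | h
    · exact .inl ((map_eq_bot_iff_of_injective _ (subtype_injective _)).1 h)
    · exact .inr (by rw [← h, subgroupOf, comap_map_eq_self_of_injective (subtype_injective _)])
  · rintro _ ⟨g, hg, rfl⟩ e
    have l : J ⊔ (g : X) •ᶜ J ≤ 𝐍 Y := sup_le JY (cj_le_of_mem JY g.2)
    rw [← bc, ← br_sup JY (cj_le_of_mem JY g.2)] at e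
    obtain ⟨c, hc, k⟩ := wcl HY hp JH ov hg fun s hs => by
      obtain ⟨n, hn⟩ := isPGroup_iff_forall_mem.1 e _ (mem_br (x := ⟨s, l hs⟩) hs)
      rw [← map_pow] at hn
      exact ⟨n, CL.FZ.MG1.one_iff.1 hn⟩
    have := mem_br (π := Y.normalizerMonoidHom) (A := H ⊓ 𝐍 J) (x := ⟨c, HY hc.1⟩ * g) ⟨mul_mem hc.1 hg, k⟩
    rwa [map_mul, CL.FZ.MG1.one_iff.2 hc.2, one_mul] at this

/-- An element normalizing `J`, centralizing `U`, with square in `C(Y)` is trivial on `Y / C_Y(J)`. -/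
theorem ti_triv (el : IsElementaryAbelian 2 Y) (JY : J ≤ 𝐍 Y) (sq : ∀ t ∈ J, t * t ∈ 𝐂 Y)
    (fix : ∀ t ∈ J, t ∉ 𝐂 Y → ∀ y ∈ Y, t * y = y * t → y ∈ 𝐂 J) (cz : ∀ t ∈ J, ∀ y ∈ Y, t * y * t⁻¹ * y⁻¹ ∈ U)
    (on1 : ∀ y ∈ Y, y ∉ 𝐂 J → ∀ u ∈ U, ∃ t ∈ J, t * y * t⁻¹ * y⁻¹ = u)
    (on2 : ∀ t ∈ J, t ∉ 𝐂 Y → ∀ u ∈ U, ∃ y ∈ Y, t * y * t⁻¹ * y⁻¹ = u) (ne : ¬ J ≤ 𝐂 Y)
    (aY : a ∈ 𝐍 Y) (aJ : a ∈ 𝐍 J) (aU : a ∈ 𝐂 U) (aa : a * a ∈ 𝐂 Y) : ∀ y ∈ Y, a * y * a⁻¹ * y⁻¹ ∈ 𝐂 J := fun y hy => by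
  have := el.1
  exact (fx_iff JY).1 (triv (a := Y.normalizerMonoidHom ⟨a, aY⟩)
    (tq JY sq fix cz on1 on2 ne) (br_norm (A := zpowers a) (zpowers_le.2 aJ) JY (mem_br (mem_zpowers a)))
    (by rw [← map_mul]; exact CL.FZ.MG1.one_iff.2 aa)
    (fun u hu => Subtype.ext (mul_inv_eq_iff_eq_mul.2 (aU u hu).symm)) ⟨y, hy⟩)

end CL.FN
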