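import Cfsg.Agent.FGS.FN.Bl0
import Cfsg.Agent.FGS.FN.Sq

/-!
# Theorem N: a block with a swapped partner is a natural module
-/

set_option autoImplicit false
set_option linter.unusedSectionVars false
open Cfsg Subgroup CL.Th CL.MSS CL.Push CL.BHS CL.B2 CL.Dickson CL.Quad
open scoped commutatorElement MatrixGroups

namespace CL.FN

namespace Z0

theorem lin {F : Type*} [Field F] [CharP F 2] {s t : F → F} {η : F} (h0 : η ≠ 0) (h1 : η + 1 ≠ 0)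
    (t0 : ∀ x, t x = 0 → x = 0) (st : ∀ x, s (t x) = x)
    (e : ∀ l y, l * y + s y * t l = l * l * y + s (l * l * y) * t 1) (ξ : F) : t ξ = t 1 * ξ := by
  have h2 : (2 : F) = 0 := CharTwo.two_eq_zero
  have n1 : t 1 ≠ 0 := fun q => one_ne_zero (t0 1 q)
  have k : ∀ x, (η + η * η) * t x = (t η + t 1 * η) * (x * x) + (t η + t 1 * (η * η)) * x := fun x => by
    have e1 := e x (η * η * 1)
    have e2 := e η (x * x * 1)
    have e3 := e x 1
    have e4 := e η 1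
    rw [show η * η * (x * x * 1) = x * x * (η * η * 1) by ring] at e2
    linear_combination t 1 * e1 - t 1 * e2 + t x * e4 - t η * e3 +
      (-(t η * x * x) + (η * η) * t x + t 1 * η * (x * x) * 0 - t 1 * (x * (η * η)) - t η * x * 0) * h2
  have hη : η + η * η ≠ 0 := by rw [show η + η * η = η * (η + 1) by ring]; exact mul_ne_zero h0 h1
  by_cases m0 : t η + t 1 * η = 0
  · refine mul_left_cancel₀ hη ?_
    linear_combination k ξ + (ξ * ξ + ξ) * m0 - t 1 * η * ξ * h2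
  · exfalso
    have n0 : t η + t 1 * (η * η) = 0 := by
      have := t0 ((t η + t 1 * (η * η)) / (t η + t 1 * η)) (mul_left_cancel₀ hη (by
        rw [k]; field_simp; linear_combination (t η + t 1 * η ^ 2) ^ 2 * h2))
      exact (div_eq_zero_iff.1 this).resolve_right m0
    have n0' : t η = t 1 * (η * η) := by linear_combination n0 - t 1 * η * η * h2
    have e1 := e η (t η)
    have q : η * η * t η = t (η * η) := mul_left_cancel₀ hη (by
      rw [k, n0']; linear_combination (-(t 1 * η ^ 4)) * h2)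
    rw [q, st, st, ← q, n0'] at e1
    exact mul_ne_zero (mul_ne_zero n1 (mul_ne_zero h0 h0)) (mul_ne_zero h1 h1) (by
      linear_combination (-1 : F) * e1 + (2 * t 1 * η ^ 3) * h2)

end Z0

variable {X : Type*} [Group X] [Finite X] {a b c g k t w x y z b' w' : X} {A D J P E B Q W V U Y : Subgroup X}
  {F : Type} [Field F] {r : X → SL(2, F)} {ψ : X → Fin 2 → F}

namespace Bl
variable (m : Bl F P E B Q W r ψ)
include m

theorem comm_mul (hw : w ∈ oz Q) (hb : b ∈ B) (hb' : b' ∈ B) : ⁅w, b * b'⁆ = ⁅w, b⁆ * ⁅w, b'⁆ := by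
  have := m.commZ hw hb' b hb
  calc ⁅w, b * b'⁆ = ⁅w, b⁆ * (b * ⁅w, b'⁆) * b⁻¹ := by simp only [commutatorElement_def]; group
    _ = _ := by rw [this]; group

/-- The commutator only depends on the coordinates. -/
theorem comm_eq [CharP F 2] (hw : w ∈ oz Q) (hw' : w' ∈ oz Q) (hb : b ∈ B) (hb' : b' ∈ B) (e1 : ψ w 1 = ψ w' 1)
    (e2 : r b 0 1 = r b' 0 1) : ⁅w, b⁆ = ⁅w', b'⁆ := by
  have k1 := (m.cent (mul_mem hw hw')).2 (by rw [m.α_mul hw hw', e1, CharTwo.add_self_eq_zero]) b hb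
  have k2 := m.QcY ((m.mem_Q (mul_mem hb hb')).2 (by rw [m.ρ_mul hb hb', e2, CharTwo.add_self_eq_zero])) w' hw'
  have k3 := m.comm_mul hw' hb hb'
  rw [commutatorElement_eq_one_iff_mul_comm.2 k2, eq_comm, mul_eq_one_iff_eq_inv,
    inv_eq_of_mul_eq_one_right (m.Ysq (m.commY hw' (m.le hb')))] at k3
  have i := inv_eq_of_mul_eq_one_right (m.Ysq hw)
  have i' := inv_eq_of_mul_eq_one_right (m.Ysq hw')
  have c := m.QcY (oz_le Q hw) w' hw'
  rw [← k3, commutatorElement_def, commutatorElement_def, i, i']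
  have c2 := m.QcY (oz_le Q (m.cjY (m.le hb) hw')) w hw
  have s' := m.Ysq (m.cjY (m.le hb) hw')
  calc w * b * w * b⁻¹ = w * (b * w * b⁻¹) * ((b * w' * b⁻¹) * (b * w' * b⁻¹)) := by rw [s']; group
    _ = w * (b * (w * w') * b⁻¹) * (b * w' * b⁻¹) := by group
    _ = (w * w) * w' * (b * w' * b⁻¹) := by rw [k1]; group
    _ = _ := by rw [m.Ysq hw]; group

/-- `V` covers the fixed line. -/
theorem V_onto [Finite F] (hV : V ≤ oz B) (nV : ¬ V ≤ 𝐂 P) (hN : P ⊓ 𝐍 B ≤ 𝐍 V) (z0 : ψ z 1 = 0) :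
    ∃ v ∈ V, ψ v = ψ z := by
  obtain ⟨v, hv, n⟩ := SetLike.not_le_iff_exists.1 nV
  have vY := m.ozB (hV hv)
  have v1 := (m.cent vY).1 (oz_cent B (hV hv))
  have v0 : ψ v 0 ≠ 0 := fun e => n ((m.zero v vY).1 (vec_ext e v1))
  by_cases e : ψ z 0 = 0
  · exact ⟨1, one_mem _, m.ψ_one.trans (vec_ext e z0).symm⟩
  · obtain ⟨k, hk, kB, -, ek⟩ := m.tor (ψ z 0 / ψ v 0) (div_ne_zero e v0)
    refine ⟨_, cjm (hN ⟨m.EP hk, kB⟩) hv, ?_⟩
    rw [m.act _ (m.EP hk) _ vY, ek, dg_smul]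
    exact vec_ext (by simp [v0]) (by simp [v1, z0])

/-- The subgroup `U = [V, k]`. -/
theorem exists_U [Fintype F] (hV : V ≤ oz B) (nV : ¬ V ≤ 𝐂 P) (hN : P ⊓ 𝐍 B ≤ 𝐍 V) {c : F} (c0 : c ≠ 0) (c1 : c ≠ 1)
    (gen : ∀ l : F, l ≠ 0 → ∃ n : ℕ, c ^ n = l) [CharP F 2] :
    ∃ U ≤ V, U ⊓ 𝐂 P = ⊥ ∧ ∀ l : F, l ≠ 0 → ∀ w ∈ W, ∀ b ∈ B, ∀ w' ∈ W, ∀ b' ∈ B, ψ w' 1 = l * ψ w 1 →
      l * l * r b' 0 1 = r b 0 1 → ⁅w, b⁆⁻¹ * ⁅w', b'⁆ ∈ U := by
  obtain ⟨k, hk, kB, -, ek⟩ := m.tor c⁻¹ (inv_ne_zero c0)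
  have kP := m.EP hk
  have kV : k ∈ 𝐍 V := hN ⟨kP, kB⟩
  have VY := hV.trans m.ozB
  have ab : ∀ {x y}, x ∈ oz Q → y ∈ oz Q → x * y = y * x := fun hx hy => m.QcY (oz_le Q hy) _ hx
  let U : Subgroup X :=
    { carrier := {u | ∃ v ∈ V, v⁻¹ * (k * v * k⁻¹) = u}
      one_mem' := ⟨1, one_mem _, by group⟩
      mul_mem' := by
        rintro _ _ ⟨v, hv, rfl⟩ ⟨v', hv', rfl⟩
        refine ⟨v * v', mul_mem hv hv', ?_⟩
        have := ab (VY (mul_mem (inv_mem hv) (cjm kV hv))) (VY (inv_mem hv'))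
        calc _ = v'⁻¹ * (v⁻¹ * (k * v * k⁻¹)) * (k * v' * k⁻¹) := by group
          _ = _ := by rw [← this]; group
      inv_mem' := by
        rintro _ ⟨v, hv, rfl⟩
        refine ⟨v⁻¹, inv_mem hv, ?_⟩
        rw [mul_inv_rev, inv_inv, ab (VY hv) (VY (cjm kV (inv_mem hv)))]
        group }
  have st : ∀ z ∈ oz Q, ψ z 1 = 0 → z⁻¹ * (k * z * k⁻¹) ∈ U := fun z hz z0 => by
    obtain ⟨v, hv, e⟩ := m.V_onto hV nV hN z0
    have z1 := (m.ψ_eq_iff (VY hv) hz).1 e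
    refine ⟨v, hv, ?_⟩
    have e1 := z1 k kP
    have e2 := ab (mul_mem (inv_mem (VY hv)) (m.cjY kP (VY hv))) (mul_mem (inv_mem (VY hv)) hz)
    calc _ = (v⁻¹ * z)⁻¹ * ((v⁻¹ * z) * (v⁻¹ * (k * v * k⁻¹))) := by group
      _ = (v⁻¹ * z)⁻¹ * (v⁻¹ * (k * v * k⁻¹)) * ((v⁻¹ * z) * k) * k⁻¹ := by rw [← e2]; group
      _ = z⁻¹ * (k * v * k⁻¹) * (k * (v⁻¹ * z)) * k⁻¹ := by rw [← e1]; group
      _ = _ := by group
  have pw : ∀ n : ℕ, (∀ z ∈ oz Q, ψ (k ^ n * z * (k ^ n)⁻¹) 1 = c ^ n * ψ z 1) ∧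
      (∀ b ∈ B, c ^ n * c ^ n * r (k ^ n * b * (k ^ n)⁻¹) 0 1 = r b 0 1) ∧
      ∀ z ∈ oz Q, ψ z 1 = 0 → z⁻¹ * (k ^ n * z * (k ^ n)⁻¹) ∈ U := fun n => by
    induction n with
    | zero => exact ⟨by simp, by simp, fun z _ _ => by simp⟩
    | succ n ih =>
      have sp : ∀ w : X, k ^ (n + 1) * w * (k ^ (n + 1))⁻¹ = k * (k ^ n * w * (k ^ n)⁻¹) * k⁻¹ := fun w => by group
      refine ⟨fun z hz => ?_, fun b hb => ?_, fun z hz z0 => ?_⟩
      · rw [sp, m.act _ kP _ (m.cjY (pow_mem kP n) hz), ek, dg_smul]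
        simp [ih.1 z hz, pow_succ]; ring
      · have hb' := cjm (pow_mem kB n) hb
        rw [sp, m.r_conj kP (m.le hb'), ek, m.eq_u hb', dg_u, ← ih.2.1 b hb]
        simp only [u01]
        field_simp
        ring
      · have := mul_mem (ih.2.2 z hz z0) (st _ (m.cjY (pow_mem kP n) hz) (by rw [ih.1 z hz, z0, mul_zero]))
        rwa [mul_assoc, mul_inv_cancel_left, ← sp] at this
  refine ⟨U, ?_, eq_bot_iff.2 ?_, fun l l0 w hw b hb w' hw' b' hb' e1 e2 => ?_⟩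
  · rintro _ ⟨v, hv, rfl⟩
    exact mul_mem (inv_mem hv) (cjm kV hv)
  · rintro _ ⟨⟨v, hv, rfl⟩, h⟩
    have e := congrFun ((m.ψ_eq_iff (VY hv) (m.cjY kP (VY hv))).2 h) 0
    rw [m.act _ kP _ (VY hv), ek, dg_smul] at e
    have e0 : ψ v 0 = 0 := by
      simp only [Matrix.cons_val_zero] at e
      field_simp at e
      exact (mul_eq_zero.1 (show (c - 1) * ψ v 0 = 0 by linear_combination e)).resolve_left (sub_ne_zero.2 c1)
    rw [mem_bot, (m.zero v (VY hv)).1 (vec_ext e0 ((m.cent (VY hv)).1 (oz_cent B (hV hv)))) k kP]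
    group
  · obtain ⟨n, rfl⟩ := gen l l0
    obtain ⟨p1, p2, p3⟩ := pw n
    have := p3 _ (m.commY (m.WY hw) (m.le hb)) (by rw [m.ψ_commB (m.WY hw) hb]; rfl)
    rwa [conjugate_commutatorElement, m.comm_eq (m.cjY (pow_mem kP n) (m.WY hw)) (m.WY hw') (cjm (pow_mem kB n) hb) hb'
      ((p1 w (m.WY hw)).trans e1.symm) (mul_left_cancel₀ (mul_ne_zero l0 l0) ((p2 b hb).trans e2.symm))] at this

/-- Step (1) of the swap case. -/
theorem z0 [Fintype F] [CharP F 2] (h8 : 8 ≤ Nat.card F) (hV : V ≤ oz B) (nV : ¬ V ≤ 𝐂 P) (hN : P ⊓ 𝐍 B ≤ 𝐍 V)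
    (aa : a * a = 1) (aV : a ∈ 𝐂 V) (aW : a •ᶜ W ≤ B) (n : ¬ W ≤ 𝐂 (a •ᶜ W : Subgroup X)) :
    W ⊓ 𝐂 P = ⊥ ∧ W ⊓ 𝐂 B ≤ V := by
  classical
  have h2 : (2 : F) = 0 := CharTwo.two_eq_zero
  obtain ⟨c, hc⟩ := IsCyclic.exists_generator (α := Fˣ)
  have c3 : (c : F) ^ 3 ≠ 1 := fun e => by
    have := Nat.le_of_dvd (by decide) (orderOf_dvd_of_pow_eq_one (Units.ext e : c ^ 3 = 1))
    rw [orderOf_eq_card_of_forall_mem_zpowers hc, Nat.card_units] at this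
    omega
  obtain ⟨U, UV, U1, K⟩ := m.exists_U hV nV hN c.ne_zero (fun e => c3 (by rw [e, one_pow])) fun l l0 => by
    obtain ⟨n, e⟩ := (mem_powers_iff_mem_zpowers.2 (hc (Units.mk0 l l0)) : _ ∈ Submonoid.powers c)
    exact ⟨n, congrArg Units.val e⟩
  have aB : ∀ {w}, w ∈ W → a * w * a⁻¹ ∈ B := fun hw => aW (conj_mem_cj hw)
  have ai : a⁻¹ = a := inv_eq_of_mul_eq_one_right aa
  have back : ∀ w : X, a * (a * w * a⁻¹) * a⁻¹ = w := fun w => by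
    rw [ai, ← mul_assoc, ← mul_assoc, aa, one_mul, mul_assoc, aa, mul_one]
  have kk : ∀ w ∈ W, r (a * w * a⁻¹) 0 1 = 0 ↔ ψ w 1 = 0 := fun w hw => by
    rw [← m.mem_Q' (aB hw)]
    refine ⟨fun h => by_contra fun n1 => n fun w' hw' => ?_, fun h w' hw' => ?_⟩
    · rintro _ ⟨y, hy, rfl⟩
      refine (m.QcW (by_contra fun n2 => n1 (m.α_zero (m.WY hw) (aB hy) n2 ?_)) w' hw').symm
      rw [← back w, ← conjugate_commutatorElement, commutatorElement_eq_one_iff_mul_comm.2 (h y hy).symm]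
      simp
    · have := (m.cent (m.WY hw)).2 h _ (aB hw')
      calc w' * (a * w * a⁻¹) = a * (a * w' * a⁻¹) * a⁻¹ * (a * w * a⁻¹) := by rw [back]
        _ = a * (a * w' * a⁻¹ * w) * a⁻¹ := by group
        _ = a * w * a⁻¹ * (a * (a * w' * a⁻¹) * a⁻¹) := by rw [this]; group
        _ = _ := by rw [back]
  choose ω ωW ωe using m.α_onto
  let t : F → F := fun x => r (a * ω x * a⁻¹) 0 1
  have ad : ∀ w ∈ W, ∀ w' ∈ W, r (a * w * a⁻¹) 0 1 = r (a * w' * a⁻¹) 0 1 ↔ ψ w 1 = ψ w' 1 := fun w hw w' hw' => by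
    have := kk _ (mul_mem hw hw')
    rwa [← conj_mul, m.ρ_mul (aB hw) (aB hw'), m.α_mul (m.WY hw) (m.WY hw'), CharTwo.add_eq_zero,
      CharTwo.add_eq_zero] at this
  have ti : Function.Injective t := fun x y e => by rw [← ωe x, ← ωe y]; exact (ad _ (ωW x) _ (ωW y)).1 e
  obtain ⟨s, ts⟩ := (Finite.injective_iff_surjective.1 ti).hasRightInverse
  replace ts : ∀ y, t (s y) = y := ts
  have st : ∀ x, s (t x) = x := fun x => ti (ts _)
  have t0 : ∀ x, t x = 0 ↔ x = 0 := fun x => by rw [← ωe x]; simp only [t, ωe]; rw [kk _ (ωW x), ωe]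
  let β : F → F → X := fun x y => ⁅ω x, a * ω y * a⁻¹⁆
  have βY : ∀ x y, β x y ∈ oz Q := fun x y => m.commY (m.WY (ωW x)) (m.le (aB (ωW y)))
  have βψ : ∀ x y, ψ (β x y) 0 = t y * x := fun x y => by
    simp only [β]; rw [m.ψ_commB (m.WY (ωW x)) (aB (ωW y)), ωe]; exact CharTwo.neg_eq _
  have sw : ∀ x y, a * β x y * a⁻¹ = β y x := fun x y => by
    simp only [β]
    rw [conjugate_commutatorElement, back, ← commutatorElement_inv]
    exact inv_eq_of_mul_eq_one_right (m.Ysq (βY y x))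
  have sw' : ∀ {x y x' y'}, (β x y)⁻¹ * β x' y' ∈ U → (β y x)⁻¹ * β y' x' = (β x y)⁻¹ * β x' y' :=
    fun {x y x' y'} h => by rw [← sw x y, ← sw x' y', conj_inv, conj_mul, ← aV _ (UV h), mul_inv_cancel_right]
  have K' : ∀ l : F, l ≠ 0 → ∀ x y y', l * l * t y' = t y → (β x y)⁻¹ * β (l * x) y' ∈ U := fun l l0 x y y' e =>
    K l l0 _ (ωW x) _ (aB (ωW y)) _ (ωW _) _ (aB (ωW y')) (by rw [ωe, ωe]) e
  have lin := Z0.lin (s := s) (t := t) c.ne_zero (fun e => c3 (by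
    rw [CharTwo.add_eq_zero.1 e, one_pow])) (fun x => (t0 x).1) st fun l y => by
    by_cases l0 : l = 0
    · have s0 : s 0 = 0 := by simpa only [(t0 0).2 rfl] using st 0
      simp [l0, (t0 0).2 rfl, s0]
    · have e := congrArg (fun z => ψ z 0) (sw' (K' l l0 1 (s (l * l * y)) (s y) (by rw [ts, ts])))
      simp only [m.add _ (inv_mem (βY _ _)) _ (βY _ _), m.ψ_inv (βY _ _), Pi.add_apply, Pi.neg_apply, βψ, ts,
        mul_one] at e
      linear_combination e + (l * y - l * l * y) * h2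
  have βm : ∀ x y y', (β x y)⁻¹ * β x y' = β x (y + y') := fun x y y' => by
    rw [inv_eq_of_mul_eq_one_right (m.Ysq (βY x y))]
    simp only [β]
    rw [← m.comm_mul (m.WY (ωW x)) (aB (ωW y)) (aB (ωW y')), conj_mul]
    exact m.comm_eq (m.WY (ωW x)) (m.WY (ωW x)) (aB (mul_mem (ωW y) (ωW y'))) (aB (ωW _)) rfl
      ((ad _ (mul_mem (ωW y) (ωW y')) _ (ωW _)).2 (by rw [m.α_mul (m.WY (ωW y)) (m.WY (ωW y')), ωe, ωe, ωe]))
  have βU : ∀ x y, β x y ∈ U := fun x y => by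
    have d : (c : F) ^ 4 + c ≠ 0 := fun e => c3 (mul_left_cancel₀ c.ne_zero (by linear_combination e - c * h2))
    obtain ⟨y, rfl⟩ : ∃ y', ((c : F) ^ 4 + c) * y' = y := ⟨_, mul_div_cancel₀ y d⟩
    have e1 := K' c c.ne_zero y (c * c * x) x (by rw [lin x, lin (_ * x)]; ring)
    have e2 := K' (c * c) (mul_ne_zero c.ne_zero c.ne_zero) x (c ^ 4 * y) y (by rw [lin y, lin (_ * y)]; ring)
    have := mul_mem e2 (sw' e1 ▸ e1)
    rwa [mul_assoc, mul_inv_cancel_left, βm, ← add_mul] at this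
  have ZU : W ⊓ 𝐂 B ≤ U := m.Zeq ▸ commutator_le.2 fun w hw b hb => by
    rw [m.comm_eq (m.WY hw) (m.WY (ωW (ψ w 1))) hb (aB (ωW (s (r b 0 1)))) (ωe _).symm (ts _).symm]
    exact βU _ _
  exact ⟨eq_bot_iff.2 fun w hw => U1.le ⟨ZU ⟨hw.1, centralizer_le m.le hw.2⟩, hw.2⟩, ZU.trans UV⟩

end Bl

end CL.FN
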