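import Cfsg.Agent.FGS.FN.Bl0
import Cfsg.Agent.FGS.FN.TI
import Cfsg.Agent.FGS.FN.Sq
import Cfsg.Agent.FGS.FN.Z0
import Cfsg.Agent.FGS.CY.BigA

set_option autoImplicit false
set_option linter.unusedSectionVars false
set_option linter.unusedVariables false
open Cfsg Subgroup CL.Th CL.MSS CL.Push CL.BHS CL.B2 CL.Dickson CL.Quad
open CL.CY (Wq)
open scoped commutatorElement MatrixGroups

namespace CL.FN

variable {X : Type*} [Group X] [Finite X] {a c g n t w x y : X} {A B E G H P Q T V W Y : Subgroup X}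
  {F : Type} [Field F] [Fintype F] [CharP F 2] {r : X → SL(2, F)} {ψ : X → Fin 2 → F}

/-- Apply `ti` (FN/TI) with `H = G ⊓ N(oz Q)`, `J = Jt B`, `Y = oz Q`, `U = W ⊓ C(B)`; `ψ` is injective on `W` by
`h0`.  `sq`: `r (t t) = u (2 s) = 1`, so `t t ∈ Q ≤ C(Y)`.  `fix`: `(b.wq b.WY le_rfl le_rfl _).fix`.  `cz`: every
`y ∈ Y` is `w z` with `w ∈ W` (`surj`), `z ∈ C(P)`; `commW`, `commZ`.  `on1`, `on2`: `ψ_commB`, `ρ_ontoJ`, `α_onto`.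
`big`: `u ↦ ψ u 0` maps `U` onto `F`.  `irr`: the elements `k` of `tor` lie in `H ⊓ N(J)` and are transitive on `U#`.
`x ∈ E` with `r x = !![0, 1; 1, 0]` (`mk2 0 1 1 0`) does not normalize `U`, and `W ≤ U ⊔ x •ᶜ U`.  `aY`: `ti_triv`.
`t⁻¹ n` also centralizes `U ≤ V`. -/
theorem Bl.act_J (b : Bl F P E B Q W r ψ) (PG : P ≤ G) (q8 : 8 ≤ Nat.card F) (h0 : W ⊓ 𝐂 P = ⊥) (hU : W ⊓ 𝐂 B ≤ V)
    (ov : ∀ T : Subgroup X, IsPGroup 2 T → T ≤ G ⊓ 𝐍 (oz Q) → Jt B ≤ T → Jt T = Jt B)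
    (sol : Group.IsSolvable (G ⊓ 𝐍 (Jt B) : Subgroup X)) (nG : n ∈ G) (nY : n ∈ 𝐍 (oz Q)) (nJ : n ∈ 𝐍 (Jt B))
    (nV : n ∈ 𝐂 V) (nn : n * n = 1) : ∃ t ∈ Jt B, t⁻¹ * n ∈ 𝐂 W := by
  have JB : Jt B ≤ B := thompsonSubgroupOf_le B
  have inj : ∀ {x y : X}, x ∈ W → y ∈ W → ψ x 0 = ψ y 0 → ψ x 1 = ψ y 1 → x = y := fun hx hy e0 e1 =>
    inv_mul_eq_one.1 (mem_bot.1 (h0.le ⟨W.mul_mem (W.inv_mem hx) hy, (b.ψ_eq_iff (b.WY hx) (b.WY hy)).1 (vec_ext e0 e1)⟩))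
  have cm : ∀ {t y : X}, t ∈ B → y ∈ oz Q → t * y * t⁻¹ * y⁻¹ = ⁅y, t⁆ := fun {t y} ht hy => by
    rw [← inv_eq_of_mul_eq_one_right (b.Ysq (b.commY hy (b.BP ht))), commutatorElement_inv, commutatorElement_def]
  have cW : ∀ {t y : X}, t ∈ B → y ∈ oz Q → ⁅y, t⁆ ∈ W := fun {t y} ht hy => by
    obtain ⟨w, hw, e⟩ := b.α_onto (ψ y 1)
    rw [← b.comm_eq (b.WY hw) hy ht ht e rfl]
    exact b.commW hw (b.BP ht)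
  have u1 : ∀ {u : X}, u ∈ W ⊓ 𝐂 B → ψ u 1 = 0 := fun hu => (b.cent (b.WY hu.1)).1 hu.2
  have uo : ∀ s : F, ∃ u ∈ W ⊓ 𝐂 B, ψ u 0 = s := fun s =>
    let ⟨w, hw, e⟩ := b.surj ![s, 0]; ⟨w, ⟨hw, (b.cent (b.WY hw)).2 (by rw [e]; rfl)⟩, by rw [e]; rfl⟩
  have on : ∀ {t y u : X}, t ∈ B → y ∈ oz Q → u ∈ W ⊓ 𝐂 B → -(r t 0 1 * ψ y 1) = ψ u 0 → t * y * t⁻¹ * y⁻¹ = u :=
    fun ht hy hu e => by
      rw [cm ht hy]
      exact inj (cW ht hy) hu.1 (by rw [b.ψ_commB hy ht, ← e]; rfl) (by rw [b.ψ_commB hy ht, u1 hu]; rfl)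
  have JY : Jt B ≤ 𝐍 (oz Q) := JB.trans (b.BP.trans b.nY)
  have sq : ∀ t ∈ Jt B, t * t ∈ 𝐂 (oz Q) := fun t ht => b.QcY ((b.mem_Q (JB (mul_mem ht ht))).2 (by
    rw [b.ρ_mul (JB ht) (JB ht), CharTwo.add_self_eq_zero]))
  have fix := (b.wq b.WY le_rfl le_rfl JB).fix
  have cz : ∀ t ∈ Jt B, ∀ y ∈ oz Q, t * y * t⁻¹ * y⁻¹ ∈ W ⊓ 𝐂 B := fun t ht y hy =>
    cm (JB ht) hy ▸ ⟨cW (JB ht) hy, b.commZ hy (JB ht)⟩
  have on1 : ∀ y ∈ oz Q, y ∉ 𝐂 (Jt B) → ∀ u ∈ W ⊓ 𝐂 B, ∃ t ∈ Jt B, t * y * t⁻¹ * y⁻¹ = u := fun y hy k u hu => by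
    have k' := mt (b.centJ hy).2 k
    obtain ⟨t, ht, e⟩ := b.ρ_ontoJ (-ψ u 0 / ψ y 1)
    exact ⟨t, ht, on (JB ht) hy hu (by rw [e]; field_simp)⟩
  have on2 : ∀ t ∈ Jt B, t ∉ 𝐂 (oz Q) → ∀ u ∈ W ⊓ 𝐂 B, ∃ y ∈ oz Q, t * y * t⁻¹ * y⁻¹ = u := fun t ht k u hu => by
    have k' : r t 0 1 ≠ 0 := fun e => k (b.QcY ((b.mem_Q (JB ht)).2 e))
    obtain ⟨y, hy, e⟩ := b.α_onto (-ψ u 0 / r t 0 1)
    exact ⟨y, b.WY hy, on (JB ht) (b.WY hy) hu (by rw [e]; field_simp)⟩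
  have ne : ¬ Jt B ≤ 𝐂 (oz Q) := fun e => b.jq (b.Q_eq ▸ le_inf JB (e.trans (centralizer_le b.WY)))
  obtain ⟨x, xE, rx⟩ := b.onto (mk2 0 1 (-1) 0 (by simp))
  have xP := b.EP xE
  have ax : ∀ {u : X}, u ∈ W → ψ (x * u * x⁻¹) 0 = ψ u 1 ∧ ψ (x * u * x⁻¹) 1 = -ψ u 0 := fun hu => by
    rw [b.act x xP _ (b.WY hu), rx]
    exact ⟨by simp [smul_fin_two, mk00, mk01], by simp [smul_fin_two, mk10, mk11]⟩
  obtain ⟨t, ht, e⟩ := ti (H := G ⊓ 𝐍 (oz Q)) (U := W ⊓ 𝐂 B) (x := x) (a := n) (oz_elem Q) inf_le_right (b.pg.to_le JB)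
    (le_inf (JB.trans (b.BP.trans PG)) JY) ov (inf_le_left.trans b.WY) sq fix cz on1 on2 ne
    (lt_of_lt_of_le (by omega) (Nat.card_le_card_of_surjective (fun u : (W ⊓ 𝐂 B : Subgroup X) => ψ u 0) fun s =>
      let ⟨u, hu, e⟩ := uo s; ⟨⟨u, hu⟩, e⟩))
    (Group.isSolvable_of_isSolvable_injective (inclusion_injective (inf_le_inf_right _ inf_le_left)))
    (fun U0 l k => or_iff_not_imp_left.2 fun e => le_antisymm l fun u hu => by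
      obtain ⟨⟨u0, h1⟩, h2⟩ := ne_bot_iff_exists_ne_one.1 e
      have z : ∀ {u : X}, u ∈ W ⊓ 𝐂 B → ψ u 0 = 0 → u = 1 := fun hu e =>
        inj hu.1 (one_mem _) (by rw [e, b.ψ_one]; rfl) (by rw [u1 hu, b.ψ_one]; rfl)
      have h3 : ψ u0 0 ≠ 0 := fun e => h2 (Subtype.ext (z (l h1) e))
      by_cases h4 : ψ u 0 = 0
      · exact z hu h4 ▸ one_mem _
      obtain ⟨c, cE, cB, -, rc⟩ := b.tor _ (div_ne_zero h4 h3)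
      have cP := b.EP cE
      have a := b.act c cP _ (b.WY (l h1).1)
      rw [rc, dg_smul] at a
      rw [← inj (b.cjW cP (l h1).1) hu.1 (by rw [a]; exact div_mul_cancel₀ _ h3) (by rw [a, u1 hu, u1 (l h1)]; exact mul_zero _)]
      exact cjm (k ⟨⟨PG cP, b.nY cP⟩, normalizer_le_normalizer_thompsonSubgroupOf _ cB⟩) h1)
    ⟨PG xP, b.nY xP⟩ (fun k => by
      obtain ⟨u, hu, e⟩ := uo 1
      have := (ax hu.1).2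
      rw [u1 (cjm k hu), e] at this
      exact one_ne_zero (neg_eq_zero.1 this.symm)) ⟨⟨nG, nY⟩, nJ⟩
    (ti_triv (oz_elem Q) JY sq fix cz on1 on2 ne nY nJ (centralizer_le hU nV) (nn ▸ one_mem _))
  refine ⟨t, ht, fun w hw => ?_⟩
  have e' : t⁻¹ * n ∈ 𝐂 (W ⊓ 𝐂 B : Subgroup X) :=
    mul_mem (inv_mem (cent_symm inf_le_right (JB ht))) (centralizer_le hU nV)
  obtain ⟨p, hp, e1⟩ := uo (ψ w 0)
  obtain ⟨q, hq, e2⟩ := uo (-ψ w 1)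
  have hx := b.cjW xP hq.1
  have a := b.add _ (b.WY hp.1) _ (b.WY hx)
  rw [← inj (mul_mem hp.1 hx) hw (by rw [a, Pi.add_apply, e1, (ax hq.1).1, u1 hq, add_zero])
    (by rw [a, Pi.add_apply, u1 hp, (ax hq.1).2, e2, neg_neg, zero_add])]
  exact (Commute.mul_left (e' p hp) (e _ (conj_mem_cj hq))).eq

end CL.FN
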