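import Cfsg.Agent.FGS.FN.Bl0
import Cfsg.Agent.FGS.FN.TI
import Cfsg.Agent.FGS.FN.Sq
import Cfsg.Agent.FGS.CY.BigA

set_option autoImplicit false
set_option linter.unusedSectionVars false
set_option linter.unusedVariables false
open Cfsg Subgroup CL.Th CL.MSS CL.Push CL.BHS CL.B2 CL.Dickson CL.Quad
open CL.CY (Wq)
open scoped commutatorElement MatrixGroups

namespace CL.FN

variable {X : Type*} [Group X] [Finite X] {a c g n t w x y : X} {A B E G H P Q T V W Y : Subgroup X}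
  {F : Type} [Field F] [Fintype F] [CharP F 2] {r : X → SL(2, F)} {ψ : X → Fin 2 → F}

theorem SwC.cov {J W' : Subgroup X} (q : Wq J W) (q' : Wq J W') (n : ¬ W ≤ 𝐂 W') (ht : t ∈ J) :
    ∃ w ∈ W', w⁻¹ * t ∈ 𝐂 W := by
  have key : ∀ {V V' : Subgroup X}, Wq J V → Wq J V' → ¬ V ≤ 𝐂 V' → (𝐂 V).relIndex V' = (𝐂 V').relIndex J :=
    fun {V V'} p p' m => by
      rw [p'.idx, ← inf_relIndex_right, ← inf_relIndex_right (𝐂 J)]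
      congr 1
      ext w
      exact and_congr_left fun hw => p.inf_cent p' m hw
  have k1 := key q q' n
  have k2 := key q' q fun m => n (cent_symm m)
  have l1 := relIndex_le_of_le_right (H := 𝐂 W) q'.le index_ne_zero_of_finite
  have l2 := relIndex_le_of_le_right (H := 𝐂 W') q.le index_ne_zero_of_finite
  exact CL.CY.BigA.cover (C := 𝐂 W) q'.le (by omega) ht

theorem SwC.fpf {s d : F} (hs : s ≠ 0) {M : SL(2, F)} (m0 : M 0 0 = 0) (m1 : M 0 1 = 1) (m2 : M 1 0 = 1)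
    (m3 : M 1 1 = 0) (e : (u s * (M * u s * M⁻¹)) ^ 2 • ![d, 0] = ![d, 0]) : d = 0 := by
  have := congrFun e 1
  have h2 : (2 : F) = 0 := CharTwo.two_eq_zero
  simp only [pow_two, smul_fin_two, mul_apply2, inv00, inv01, inv10, inv11, u00, u01, u10, u11, m0, m1, m2, m3,
    Matrix.cons_val_zero, Matrix.cons_val_one] at this
  have k : s ^ 3 * d = 0 := by
    grind
  exact (mul_eq_zero.1 k).resolve_left (pow_ne_zero 3 hs)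

/-- Put `J = Jt B`, `Y = oz Q`, `W₂ = a •ᶜ W ≤ J`.  `Wq J W`, `Wq J W₂` (`wq`, `Wq.cj`); `J ⊆ W₂ C(W)` (`BigA.cover` as in
`Wq.invol`, or `ρ` is onto on `W₂`), so `w₂⁻¹ n ∈ C(W)` for some `w₂ = a w a⁻¹`, `w ∈ W`; conjugating by `a`,
`w⁻¹ n ∈ C(W₂)`.  So `c = w₂ n ∈ C(W)` and `c c = w₂ (n w₂ n⁻¹) = w₂ w w₂ w = ⁅w₂, w⁆ ∈ W`.  Let `L = G ⊓ N(Y) ⊓ N(W)`
(it contains `P` and `n`) and `T` a Sylow 2-subgroup of `L` over `J ⊔ ⟨n⟩`; `T ≤ N(J)` by `ov`.  Apply `sq_fix`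
(FN/Sq) with `b₀ ∈ W₂`, `r b₀ 0 1 = s ≠ 0`, `x ∈ E`, `r x = !![0, 1; 1, 0]`.  `h1`: `y ∈ T ⊓ C(W)` normalizes
`a •ᶜ Y` (`nrm`), so `⁅b₀, y⁆ ∈ a •ᶜ Y ⊓ C(W) ≤ C(J)` (`Wq.inf_cent` for `W` and `a •ᶜ Y`), an involution of
`J ⊓ C(J)`, so in `oz J ≤ oz B ≤ oz Q` (`baum`, `ozB`).  `h2`: `y = w z`, `z ∈ C(P)`.  Now
`r ((b₀ (x b₀ x⁻¹)) ^ 2) = !![1 + s² + s⁴, s³; s³, 1 + s²]` fixes `ψ (c c) = ![c₁, 0]`, so `c₁ = 0`, `c c ∈ W ⊓ C(P) = 1`,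
`ψ_commB`: `r w₂ 0 1 = 0` or `ψ w 1 = 0` (then `w ∈ C(J)`, `w₂ ∈ C(J)`).  So `w₂ ∈ C(W)`. -/
theorem Bl.cent_W (b : Bl F P E B Q W r ψ) (PG : P ≤ G) (h0 : W ⊓ 𝐂 P = ⊥)
    (ov : ∀ T : Subgroup X, IsPGroup 2 T → T ≤ G ⊓ 𝐍 (oz Q) → Jt B ≤ T → Jt T = Jt B)
    (aa : a * a = 1) (aJ : a ∈ 𝐍 (Jt B)) (sw : ¬ W ≤ 𝐂 (a •ᶜ W : Subgroup X))
    (nrm : ∀ y ∈ 𝐍 (Jt B), y ∈ 𝐍 (oz Q) → y ∈ 𝐍 (a •ᶜ oz Q : Subgroup X))
    (nG : n ∈ G) (nY : n ∈ 𝐍 (oz Q)) (nJ : n ∈ 𝐍 (Jt B)) (nn : n * n = 1) (an : a * n = n * a)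
    (ht : t ∈ Jt B) (e : t⁻¹ * n ∈ 𝐂 W) : n ∈ 𝐂 W := by
  have JB : Jt B ≤ B := thompsonSubgroupOf_le B
  have q1 : Wq (Jt B) W := b.wq le_rfl b.WY le_rfl JB
  have q2 := q1.cj aJ
  have q3 := (b.wq b.WY le_rfl le_rfl JB).cj aJ
  have WY' : a •ᶜ W ≤ a •ᶜ oz Q := cj_mono a b.WY
  obtain ⟨w₂, h2, e2⟩ := SwC.cov q1 q2 sw ht
  have hc : w₂⁻¹ * n ∈ 𝐂 W := by simpa [mul_assoc] using mul_mem e2 e
  have w2J := q2.le h2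
  have w2B := JB w2J
  have i2 : w₂⁻¹ = w₂ := inv_eq_of_mul_eq_one_right (q2.two _ h2)
  have ia : a⁻¹ = a := inv_eq_of_mul_eq_one_right aa
  have iN : n⁻¹ = n := inv_eq_of_mul_eq_one_right nn
  obtain ⟨w, hw, ew⟩ : ∃ w ∈ W, a * w * a⁻¹ = w₂ := h2
  have i1 : w⁻¹ = w := inv_eq_of_mul_eq_one_right (b.Wsq hw)
  have cc : w₂⁻¹ * n * (w₂⁻¹ * n) = ⁅w, w₂⁆ := by
    have k := hc w hw
    have k1 : a * (w₂⁻¹ * n) * a⁻¹ = w⁻¹ * n := by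
      rw [← ew]
      calc a * ((a * w * a⁻¹)⁻¹ * n) * a⁻¹ = a * a * w⁻¹ * a⁻¹ * (n * a⁻¹) := by group
        _ = a * a * w⁻¹ * a⁻¹ * (a * n) := by rw [ia, an]
        _ = _ := by rw [aa]; group
    have k2 : w₂ * (w⁻¹ * n) = w⁻¹ * n * w₂ := by
      rw [← k1, ← ew, conj_mul, ew, k, ← ew, conj_mul]
    have k3 := b.Wsq (b.commW hw (b.le w2B))
    rw [← inv_eq_of_mul_eq_one_right k3, commutatorElement_inv, commutatorElement_def, i2]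
    calc w₂ * n * (w₂ * n) = w₂ * w * (w⁻¹ * n * w₂) * n := by group
      _ = w₂ * w * w₂ * w⁻¹ * (n * n) := by rw [← k2]; group
      _ = _ := by rw [nn, mul_one]
  suffices w₂ ∈ 𝐂 W by simpa using mul_mem this hc
  have PL : P ≤ G ⊓ 𝐍 (oz Q) ⊓ 𝐍 W := le_inf (le_inf PG b.nY) b.nW
  have nL : n ∈ G ⊓ 𝐍 (oz Q) ⊓ 𝐍 W :=
    ⟨⟨nG, nY⟩, by simpa using mul_mem (b.nW (b.le w2B)) (cent_le_norm le_rfl hc)⟩
  obtain ⟨T, hT, le⟩ := exists_sylIn_ge (p := 2) (R := Jt B ⊔ zpowers n) (H := G ⊓ 𝐍 (oz Q) ⊓ 𝐍 W)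
    ((b.pg.to_le JB).to_sup_of_normal_left' (isPGroup_zpowers (k := 1) ((pow_two n).trans nn))
      (zpowers_le.2 nJ)) (sup_le (JB.trans (b.le.trans PL)) (zpowers_le.2 nL))
  have JT : Jt B ≤ T := le_sup_left.trans le
  have TJ : T ≤ 𝐍 (Jt B) := ov T hT.pgroup (hT.le.trans inf_le_left) JT ▸
    le_normalizer.trans (normalizer_le_normalizer_thompsonSubgroupOf T)
  obtain ⟨b₀, h0', n0⟩ := SetLike.not_le_iff_exists.1 fun m : a •ᶜ W ≤ 𝐂 W => sw (cent_symm m)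
  have b0B := JB (q2.le h0')
  have b0P := b.le b0B
  obtain ⟨x, hx, ex⟩ := b.onto (mk2 0 1 1 0 (by simp [CharTwo.neg_eq]))
  have xP := b.EP hx
  have ccW : ⁅w, w₂⁆ ∈ W := b.commW hw (b.le w2B)
  have k := sq_fix (b := b₀) (Y := oz Q) hT inf_le_right (inf_le_left.trans inf_le_right)
    (fun _ => b.Wsq) (fun _ => b.Ysq) (fun y hy => ?_) (fun y hy => ?_) (PL xP) (PL b0P)
    (c := w₂⁻¹ * n) (mem_inf.2 ⟨mul_mem (inv_mem (JT w2J)) (le (mem_sup_right (mem_zpowers n))), hc⟩)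
    (cc ▸ ccW)
  · have gP : b₀ * (x * b₀ * x⁻¹) ∈ P := mul_mem b0P (mul_mem (mul_mem xP b0P) (inv_mem xP))
    have k1 := b.act _ (pow_mem gP 2) _ (b.WY ccW)
    rw [cc] at k
    rw [k.eq, mul_inv_cancel_right, b.ψ_commB (b.WY hw) w2B, b.r_pow gP,
      b.mul _ b0P _ (mul_mem (mul_mem xP b0P) (inv_mem xP)), b.r_conj xP b0P, b.eq_u b0B, ex] at k1
    have k2 := SwC.fpf (mt (b.mem_Q' b0B).2 n0) rfl rfl rfl rfl k1.symm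
    rcases mul_eq_zero.1 (neg_eq_zero.1 k2) with m | m
    · exact (b.mem_Q' w2B).2 m
    · exact ew ▸ centralizer_le b.WJ (conj_mem_of_normalizes
        (CL.MSS.le_normalizer_centralizer (zpowers_le.2 aJ)) (mem_zpowers a) ((b.centJ (b.WY hw)).2 m))
  · have m1 : ⁅b₀, y⁆ ∈ a •ᶜ oz Q := by
      simpa [commutatorElement_def, mul_assoc] using mul_mem (WY' h0')
        (cjm (nrm y (TJ hy.1) (hT.le hy.1).1.2) (inv_mem (WY' h0')))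
    have m2 : ⁅b₀, y⁆ ∈ 𝐂 W :=
      mul_mem (cjm (CL.MSS.le_normalizer_centralizer b.nW b0P) hy.2) (inv_mem hy.2)
    have m3 := (q1.inf_cent q3 (fun m => sw (m.trans (centralizer_le WY'))) m1).1 m2
    have sq : ⁅b₀, y⁆ ^ 2 = 1 := (pow_two _).trans (q3.two _ m1)
    exact b.ozB (mem_oz.2 ⟨JB (q3.le m1), cent_symm b.baum (mem_oz.2 ⟨q3.le m1, m3, sq⟩), sq⟩)
  · obtain ⟨v, hv, ev⟩ := b.surj (ψ y)
    have z := (b.ψ_eq_iff (b.WY hv) hy).1 ev b₀ b0P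
    have : ⁅b₀, y⁆ = ⁅v, b₀⁆⁻¹ := by
      rw [commutatorElement_inv, commutatorElement_def, commutatorElement_def]
      calc b₀ * y * b₀⁻¹ * y⁻¹ = b₀ * v * (v⁻¹ * y * b₀⁻¹) * y⁻¹ := by group
        _ = b₀ * v * (b₀⁻¹ * (b₀ * (v⁻¹ * y)) * b₀⁻¹) * y⁻¹ := by group
        _ = _ := by rw [z]; group
    exact this ▸ inv_mem (b.commW hv b0P)

end CL.FN
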