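import Cfsg.Agent.FGS.FZ.MG1
import Cfsg.Agent.FGS.CO.Bas
import Cfsg.Agent.SOLV.CoprimeGen

/-!
# Theorem N: weakly closed root groups are TI (linear form)
-/

set_option autoImplicit false
set_option linter.unusedSectionVars false
open Cfsg Subgroup CL.Th CL.MSS CL.B2
open CL.CO (V4 mem_V4 sq_V4 z_V4 v_V4 V4_le)

namespace CL.FN.TI
open CL.FZ.Mo

variable {V : Type*} [CommGroup V] {T T' N : Subgroup (MulAut V)} {U U' I : Subgroup V}
  {d e f g j t : MulAut V} {u y : V}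

/-- trivial on `U` and on `V / U` -/
def Kq (U : Subgroup V) : Subgroup (MulAut V) where
  carrier := {g | (∀ u ∈ U, g u = u) ∧ ∀ y, g y * y⁻¹ ∈ U}
  one_mem' := ⟨fun _ _ => rfl, fun y => by simp⟩
  mul_mem' := fun {a b} ha hb => ⟨fun u hu => by rw [MulAut.mul_apply, hb.1 u hu, ha.1 u hu], fun y => by
    simpa [mul_assoc] using mul_mem (ha.2 (b y)) (hb.2 y)⟩
  inv_mem' := fun {a} ha => ⟨fun u hu => by rw [MulAut.inv_apply, MulEquiv.symm_apply_eq, ha.1 u hu], fun y => by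
    simpa using inv_mem (ha.2 (a⁻¹ y))⟩

theorem Kq_sq (two : ∀ w : V, w * w = 1) (h : g ∈ Kq U) : g * g = 1 := MulEquiv.ext fun y => by
  have := h.1 _ (h.2 y)
  rw [map_mul, map_inv, mul_inv_eq_iff_eq_mul, mul_right_comm, two, one_mul, inv_eq_of_mul_eq_one_right (two y)] at this
  exact this

theorem Kq_cj (h1 : Iv f U) (h2 : Iv f⁻¹ U) (h : g ∈ Kq U) : f * g * f⁻¹ ∈ Kq U :=
  ⟨fun u hu => by rw [MulAut.mul_apply, MulAut.mul_apply, h.1 _ (h2 u hu)]; simp, fun y => by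
    simpa using h1 _ (h.2 (f⁻¹ y))⟩

theorem mem_mp : y ∈ U.map g.toMonoidHom ↔ g⁻¹ y ∈ U := by
  constructor
  · rintro ⟨u, hu, rfl⟩
    simpa using hu
  · exact fun h => ⟨_, h, by simp⟩

theorem mem_fc : y ∈ fxs (g •ᶜ T) ↔ g⁻¹ y ∈ fxs T := by
  simp only [mem_fxs]
  constructor
  · intro h b hb
    have := h _ (conj_mem_cj (g := g) hb)
    rw [MulAut.mul_apply, MulAut.mul_apply] at this
    exact g.injective (by simpa using this)
  · rintro h _ ⟨b, hb, rfl⟩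
    show g (b (g⁻¹ y)) = y
    rw [h b hb]; simp

/-- a root group with centre `U` -/
structure Tq (T : Subgroup (MulAut V)) (U : Subgroup V) : Prop where
  sq : ∀ t ∈ T, t * t = 1
  fix : ∀ t ∈ T, t ≠ 1 → ∀ y, t y = y → y ∈ fxs T
  cz : ∀ t ∈ T, ∀ y, t y * y⁻¹ ∈ U
  on1 : ∀ y, y ∉ fxs T → ∀ u ∈ U, ∃ t ∈ T, t y * y⁻¹ = u
  on2 : ∀ t ∈ T, t ≠ 1 → ∀ u ∈ U, ∃ y, t y * y⁻¹ = u
  ne : T ≠ ⊥

namespace Tq

theorem ex (q : Tq T U) : ∃ t ∈ T, t ≠ 1 := by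
  by_contra! h
  exact q.ne (eq_bot_iff.2 h)

theorem uniq (q : Tq T U) (q' : Tq T U') : U ≤ U' := fun u hu => by
  obtain ⟨t, ht, n⟩ := q.ex
  obtain ⟨y, rfl⟩ := q.on2 t ht n u hu
  exact q'.cz t ht y

theorem le (q : Tq T U) (two : ∀ w : V, w * w = 1) : U ≤ fxs T := fun u hu => by
  obtain ⟨t, ht, n⟩ := q.ex
  obtain ⟨y, rfl⟩ := q.on2 t ht n u hu
  exact q.fix t ht n _ (cm_le_fx two (q.sq t ht) (cm_mem t y))

theorem cj (q : Tq T U) (g : MulAut V) : Tq (g •ᶜ T) (U.map g.toMonoidHom) := by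
  have k : ∀ (t : MulAut V) (y : V), (g * t * g⁻¹) (g y) * (g y)⁻¹ = g (t y * y⁻¹) := fun t y => by simp
  have n : ∀ {t : MulAut V}, g * t * g⁻¹ ≠ 1 → t ≠ 1 := fun h e => h (by simp [e])
  refine ⟨?_, ?_, ?_, fun y hy => ?_, ?_, fun e => q.ne (cj_eq_bot_iff.1 e)⟩
  · rintro _ ⟨t, ht, rfl⟩
    rw [← map_mul, q.sq t ht, map_one]
  · rintro _ ⟨t, ht, rfl⟩ h y e
    refine mem_fc.2 (q.fix t ht (n h) _ (g.injective ?_))
    simpa using e
  · rintro _ ⟨t, ht, rfl⟩ y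
    obtain ⟨y, rfl⟩ := g.surjective y
    exact ⟨_, q.cz t ht y, (k t y).symm⟩
  · rintro _ ⟨u, hu, rfl⟩
    obtain ⟨y, rfl⟩ := g.surjective y
    obtain ⟨t, ht, rfl⟩ := q.on1 y (fun h => hy (mem_fc.2 (by simpa using h))) u hu
    exact ⟨_, conj_mem_cj ht, k t y⟩
  · rintro _ ⟨t, ht, rfl⟩ h _ ⟨u, hu, rfl⟩
    obtain ⟨y, rfl⟩ := q.on2 t ht (n h) u hu
    exact ⟨g y, k t y⟩

theorem iv (q : Tq T U) (h : g •ᶜ T = T) : Iv g U := fun u hu => (h ▸ q.cj g).uniq q ⟨u, hu, rfl⟩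

end Tq

variable [Finite V]

theorem iv_inv (h : Iv g U) : Iv g⁻¹ U := by
  rw [← mul_one g⁻¹, ← pow_orderOf_eq_one g, ← Nat.succ_pred_eq_of_pos (orderOf_pos g), pow_succ', inv_mul_cancel_left]
  exact h.pow _

/-- a four-group in an irreducible solvable group -/
theorem four0 (two : ∀ w : V, w * w = 1) (sol : Group.IsSolvable N)
    (irr : ∀ U : Subgroup V, (∀ n ∈ N, Iv n U) → U = ⊥ ∨ U = ⊤) (hd : d ∈ N) (he : e ∈ N) (dd : d * d = 1)
    (ee : e * e = 1) (de : d * e = e * d) (f1 : fx e = fx d) (f2 : fx (e * d) = fx d) : d = 1 := by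
  by_contra d1
  have one : ∀ {a : MulAut V}, fx a = fx d → a ≠ 1 := fun h a1 => d1 (MulEquiv.ext fun y =>
    mem_fx.1 (h ▸ (show y ∈ fx _ from a1 ▸ rfl)))
  have o2 : O2 N = ⊥ := by
    rcases irr (fxs (O2 N)) (fun n hn y hy => by
      rw [← show n •ᶜ O2 N = O2 N from cj_eq_of_mem_normalizer (oP_normal N hn)]
      exact mem_fc.2 (by simpa using hy)) with h | h
    · refine absurd (by rw [h, inf_bot_eq]) (exists_fix two (oP_isPGroup N) (U := ⊤) (fun _ _ _ _ => trivial) fun h => ?_)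
      exact d1 (MulEquiv.ext fun y => by rw [show y = 1 from mem_bot.1 (h.le (mem_top y))]; simp)
    · exact eq_bot_iff.2 fun a ha => MulEquiv.ext fun y => mem_fxs.1 (h ▸ mem_top y) a ha
  have od := CL.FZ.MG1.odd_fit o2
  have sq := fun a (ha : a ∈ V4 d e) => sq_V4 dd ee de ha
  have pA : IsPGroup 2 (V4 d e) := isPGroup_iff_forall_mem.2 fun a ha => ⟨1, by rw [pow_one, pow_two, sq a ha]⟩
  have : IsMulCommutative (V4 d e) := ⟨⟨fun a b => Subtype.ext (by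
    have i : ∀ y ∈ V4 d e, y⁻¹ = y := fun y hy => inv_eq_of_mul_eq_one_right (sq y hy)
    show (a : MulAut V) * b = b * a
    rw [← i _ (mul_mem a.2 b.2), mul_inv_rev, i _ a.2, i _ b.2])⟩⟩
  have nF : N ≤ 𝐍 (fittingOf N) := le_normalizer_fittingOf N
  obtain ⟨k, hk⟩ := pA.exists_card_eq
  have gen := coprime_iSup_centralizer_noncyclic (V4 d e) (fittingOf N) (fun ⟨⟨c, hc⟩⟩ => by
      have k : ∀ a (ha : a ∈ V4 d e), a ≠ 1 → a = c := fun a ha n => by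
        obtain ⟨i, hi⟩ := hc ⟨a, ha⟩
        replace hi : (c : MulAut V) ^ i = a := congrArg Subtype.val hi
        obtain ⟨m, rfl | rfl⟩ := Int.even_or_odd' i
        · exact absurd (by rw [← hi, zpow_mul, zpow_two, sq c c.2, one_zpow]) n
        · rw [← hi, zpow_add_one, zpow_mul, zpow_two, sq c c.2, one_zpow, one_mul]
      exact one f2 (by rw [k e v_V4 (one f1), ← k d z_V4 d1, dd]))
    ((V4_le hd he).trans nF) (hk ▸ Nat.Coprime.pow_left _ (Nat.coprime_two_left.2 od))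
  have iv : ∀ f ∈ fittingOf N, Iv f (fx d) := by
    let P : Subgroup (MulAut V) := {
      carrier := {f | Iv f (fx d)}
      one_mem' := fun _ h => h
      mul_mem' := Iv.mul
      inv_mem' := iv_inv }
    refine (gen.ge.trans (iSup₂_le fun a ha f hf => ?_) : _ ≤ P)
    have ea : fx a = fx d := by
      rcases (mem_V4 dd ee de).1 ha.1 with h | h | h | h
      exacts [absurd h ha.2, h ▸ rfl, h ▸ f1, h ▸ f2]
    show Iv f (fx d)
    exact ea ▸ iv_fx' (.inl (mul_inv_eq_iff_eq_mul.2 (mem_centralizer_singleton_iff.1 hf.2)))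
  have odd : ∀ c ∈ fittingOf N, c * c = 1 → c = 1 := fun c hc h => orderOf_eq_one_iff.1 ((Nat.coprime_self _).1
    ((Nat.Coprime.coprime_dvd_left (orderOf_dvd_of_pow_eq_one (pow_two c ▸ h))
      (Nat.coprime_two_left.2 od)).coprime_dvd_right ((fittingOf N).orderOf_dvd_natCard hc)))
  have dK : d ∈ Kq (fx d) := ⟨fun _ h => h, fun y => cm_le_fx two dd (cm_mem d y)⟩
  refine d1 (odd d (centralizer_fittingOf_inf_le sol ⟨fun f hf => ?_, hd⟩) dd)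
  have := odd (f * d * f⁻¹ * d⁻¹) (by simpa only [mul_assoc] using mul_mem hf (conj_mem_of_normalizes nF hd (inv_mem hf)))
    (Kq_sq two (mul_mem (Kq_cj (iv f hf) (iv _ (inv_mem hf)) dK) (inv_mem dK)))
  rwa [mul_inv_eq_one, mul_inv_eq_iff_eq_mul] at this

theorem four1 (two : ∀ w : V, w * w = 1) (sol : Group.IsSolvable N) (nU : ∀ n ∈ N, Iv n U)
    (irr : ∀ U₀ ≤ U, (∀ n ∈ N, Iv n U₀) → U₀ = ⊥ ∨ U₀ = U) (hd : d ∈ N) (he : e ∈ N) (dd : d * d = 1)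
    (ee : e * e = 1) (de : d * e = e * d) (f1 : fx e = fx d) (f2 : fx (e * d) = fx d) : U ≤ fx d := by
  let : MulDistribMulAction N U := {
    smul := fun n u => ⟨n.1 u, nU n n.2 u u.2⟩
    one_smul := fun _ => rfl
    mul_smul := fun _ _ _ => rfl
    smul_one := fun n => Subtype.ext (map_one n.1)
    smul_mul := fun n a b => Subtype.ext (map_mul n.1 _ _) }
  let π := MulDistribMulAction.toMulAut N U
  have val : ∀ (n : N) (u : U), (π n u : V) = n.1 u := fun _ _ => rfl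
  have fe : ∀ n : N, fx n.1 = fx d → fx (π n) = fx (π ⟨d, hd⟩) := fun n h => Subgroup.ext fun u => by
    rw [mem_fx, mem_fx, Subtype.ext_iff, Subtype.ext_iff, val, val, ← mem_fx, h, mem_fx]
  have := four0 (V := U) (N := π.range) (d := π ⟨d, hd⟩) (e := π ⟨e, he⟩) (fun w => Subtype.ext (two w))
    (Group.isSolvable_of_surjective π.rangeRestrict_surjective) (fun U₀ h => ?_) ⟨_, rfl⟩ ⟨_, rfl⟩
    (by rw [← map_mul, ← map_one π]; exact congrArg π (Subtype.ext dd))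
    (by rw [← map_mul, ← map_one π]; exact congrArg π (Subtype.ext ee))
    (by rw [← map_mul, ← map_mul]; exact congrArg π (Subtype.ext de)) (fe _ f1) (by rw [← map_mul]; exact fe _ f2)
  · exact fun u hu => mem_fx.2 ((val ⟨d, hd⟩ ⟨u, hu⟩).symm.trans (by rw [this]; rfl))
  · rcases irr (U₀.map U.subtype) (map_subtype_le _) (by
      rintro n hn _ ⟨u, hu, rfl⟩
      exact ⟨_, h _ ⟨⟨n, hn⟩, rfl⟩ u hu, rfl⟩) with h | h
    · exact .inl ((map_eq_bot_iff_of_injective _ (subtype_injective _)).1 h)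
    · exact .inr (map_injective (subtype_injective U) (by rw [h, ← MonoidHom.range_eq_map, range_subtype]))

/-- a weakly closed family of root groups -/
structure Fa (F : Set (Subgroup (MulAut V) × Subgroup V)) : Prop where
  two : ∀ w : V, w * w = 1
  tq : ∀ p ∈ F, Tq p.1 p.2
  card : ∀ p ∈ F, ∀ p' ∈ F, Nat.card p.2 = Nat.card p'.2
  big : ∀ p ∈ F, 4 < Nat.card p.2
  cj : ∀ p ∈ F, ∀ p' ∈ F, ∀ j ∈ p.1, (j •ᶜ p'.1, p'.2.map j.toMonoidHom) ∈ F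
  wc : ∀ p ∈ F, ∀ p' ∈ F, IsPGroup 2 (p.1 ⊔ p'.1 : Subgroup (MulAut V)) → p.1 = p'.1
  sol : ∀ p ∈ F, ∃ N : Subgroup (MulAut V), Group.IsSolvable N ∧ (∀ n ∈ N, Iv n p.2) ∧
    (∀ U₀ ≤ p.2, (∀ n ∈ N, Iv n U₀) → U₀ = ⊥ ∨ U₀ = p.2) ∧ ∀ p' ∈ F, ∀ j ∈ p'.1, j •ᶜ p.1 = p.1 → j ∈ N

namespace Fa
variable {F : Set (Subgroup (MulAut V) × Subgroup V)} (h : Fa F)
include h

theorem nle (h1 : (T, U) ∈ F) (h2 : (T', U') ∈ F) (l : U' ≤ fxs T) : T = T' := by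
  have q := h.tq _ h2
  have iv : ∀ t ∈ T, Iv t U' := fun t ht => iv_of_le_fx fun u hu => mem_fxs.1 (l hu) t ht
  refine h.wc _ h1 _ h2 ((isPGroup_sup_of_normalizes (A := T) (B := Kq U') ?_ ?_
    (le_normalizer_of_cj_le fun t ht => cj_le_iff_forall.2 fun g hg => Kq_cj (iv t ht) (iv _ (inv_mem ht)) hg)).to_le
    (sup_le_sup_left (fun t ht => ⟨fun u hu => mem_fxs.1 (q.le h.two hu) t ht, q.cz t ht⟩) _))
  · exact isPGroup_iff_forall_mem.2 fun a ha => ⟨1, by rw [pow_one, pow_two, (h.tq _ h1).sq a ha]⟩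
  · exact isPGroup_iff_forall_mem.2 fun a ha => ⟨1, by rw [pow_one, pow_two, Kq_sq h.two ha]⟩

theorem both (h1 : (T, U) ∈ F) (h2 : (T', U') ∈ F) (ne : T ≠ T')
    (mx : ∀ p ∈ F, ∀ p' ∈ F, p.1 ≠ p'.1 →
      Nat.card (p'.2 ⊓ fxs p.1 : Subgroup V) ≤ Nat.card (U' ⊓ fxs T : Subgroup V)) : U ⊓ fxs T' = ⊥ := by
  have q : Tq T U := h.tq _ h1
  have q' : Tq T' U' := h.tq _ h2
  have i2 : ∀ w : V, w⁻¹ = w := fun w => inv_eq_of_mul_eq_one_right (h.two w)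
  obtain ⟨y, hy, ny⟩ := SetLike.not_le_iff_exists.1 (mt (h.nle h1 h2) ne)
  have nrm : ∀ j ∈ T, j y * y⁻¹ ∈ fxs T' → j •ᶜ T' = T' := fun j hj e => by
    by_contra n
    have l : U' ⊓ fxs T ≤ U'.map j.toMonoidHom ⊓ fxs T' := fun u hu =>
      ⟨⟨u, hu.1, mem_fxs.1 hu.2 j hj⟩, q'.le h.two hu.1⟩
    have e' := eq_of_le_of_card_ge l (mx _ h2 _ (h.cj _ h1 _ h2 j hj) (Ne.symm n))
    have m : j y ∈ U' ⊓ fxs T := e'.ge ⟨⟨y, hy, rfl⟩, by simpa using mul_mem e (q'.le h.two hy)⟩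
    exact ny (j.injective (mem_fxs.1 m.2 j hj) ▸ m.2)
  have fe : ∀ j ∈ T, j ≠ 1 → fx j = fxs T := fun j hj n =>
    le_antisymm (q.fix j hj n) fun w hw => mem_fxs.1 hw j hj
  by_contra hb
  obtain ⟨⟨u₀, h0⟩, n0⟩ := (ne_bot_iff_exists_ne_one).1 hb
  replace n0 : u₀ ≠ 1 := fun e => n0 (Subtype.ext e)
  obtain ⟨d, hd, ed⟩ := q.on1 y ny u₀ h0.1
  have d1 : d ≠ 1 := fun e => n0 (by rw [← ed, e]; simp)
  have dn := nrm d hd (ed ▸ h0.2)
  by_cases c : U ⊓ fxs T' ≤ zpowers u₀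
  · have c2 : Nat.card (zpowers u₀) ≤ 2 := by
      rw [Nat.card_zpowers]; exact orderOf_le_of_pow_eq_one two_pos (pow_two u₀ ▸ h.two u₀)
    have cm : ∀ w ∈ U', d w * w⁻¹ ∈ zpowers u₀ := fun w hw =>
      c ⟨q.cz d hd w, q'.le h.two (mul_mem (q'.iv dn w hw) (inv_mem hw))⟩
    obtain ⟨x, hx, nx⟩ : ∃ x ∈ U, x ∉ fxs T' := by
      by_contra! e
      have := card_le_of_le (le_trans (le_inf le_rfl e) c)
      have := h.big _ h1
      dsimp only at this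
      omega
    obtain ⟨u, hu, nu⟩ : ∃ u ∈ U' ⊓ fx d, u ∉ zpowers u₀ := by
      by_contra! e
      have a1 := card_le_of_le (show U' ⊓ fx d ≤ zpowers u₀ from e)
      have a2 : Nat.card (U'.map (d.toMonoidHom / MonoidHom.id V)) ≤ Nat.card (zpowers u₀) := card_le_of_le (by
        rintro _ ⟨w, hw, rfl⟩
        simpa [div_eq_mul_inv] using cm w hw)
      have a3 := card_map_cm d U'
      have a4 := h.big _ h2
      dsimp only at a4
      nlinarith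
    obtain ⟨t, ht, et⟩ := q'.on1 x nx u hu.1
    have dx : d x = x := mem_fxs.1 (q.le h.two hx) d hd
    have tx : t x = u * x := by rw [← et, inv_mul_cancel_right]
    have dt : d * t = t * d := by
      by_contra n
      refine nx (q'.fix (t⁻¹ * (d * t * d⁻¹)) (mul_mem (inv_mem ht) (dn ▸ conj_mem_cj ht)) (fun e => n ?_) x ?_)
      · rw [inv_mul_eq_one] at e
        exact mul_inv_eq_iff_eq_mul.1 e.symm
      · rw [MulAut.mul_apply, MulAut.mul_apply, MulAut.mul_apply, show d⁻¹ x = x from mem_fxs.1 (q.le h.two hx) _ (inv_mem hd),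
          tx, map_mul, mem_fx.1 hu.2, dx, ← tx]
        simp
    obtain ⟨v, ev⟩ := q.on2 d hd d1 x hx
    have dv : d v = x * v := by rw [← ev, inv_mul_cancel_right]
    have k := cm _ (q'.cz t ht v)
    rw [map_mul, map_inv, ← MulAut.mul_apply, dt, MulAut.mul_apply, dv, map_mul, tx] at k
    refine nu (by convert k using 1; apply Additive.ofMul.injective; simp only [ofMul_mul, ofMul_inv]; abel)
  · obtain ⟨u₁, h3, n1⟩ := SetLike.not_le_iff_exists.1 c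
    obtain ⟨e, he, ee⟩ := q.on1 y ny u₁ h3.1
    have e1 : e ≠ 1 := fun k => n1 (by rw [← ee, k]; simp)
    have ed1 : e * d ≠ 1 := fun k => n1 (by
      rw [← ee, eq_inv_of_mul_eq_one_left k, inv_eq_of_mul_eq_one_right (q.sq d hd), ed]; exact mem_zpowers _)
    obtain ⟨N, s1, s2, s3, s4⟩ := h.sol _ h2
    have i : ∀ a ∈ T, a⁻¹ = a := fun a ha => inv_eq_of_mul_eq_one_right (q.sq a ha)
    exact ny (fe d hd d1 ▸ four1 h.two s1 s2 s3 (s4 _ h1 d hd dn) (s4 _ h1 e he (nrm e he (ee ▸ h3.2))) (q.sq d hd)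
      (q.sq e he) (by rw [← i _ (mul_mem hd he), mul_inv_rev, i _ hd, i _ he]) ((fe e he e1).trans (fe d hd d1).symm)
      ((fe _ (mul_mem he hd) ed1).trans (fe d hd d1).symm) hy)

/-- the TI property -/
theorem ti (h1 : (T, U) ∈ F) (h2 : (T', U') ∈ F) (ne : T ≠ T') : U' ⊓ fxs T = ⊥ := by
  obtain ⟨⟨⟨T₁, U₁⟩, ⟨T₂, U₂⟩⟩, ⟨k1, k2, k3⟩, mx⟩ := Set.exists_max_image
    {p : (Subgroup (MulAut V) × Subgroup V) × (Subgroup (MulAut V) × Subgroup V) | p.1 ∈ F ∧ p.2 ∈ F ∧ p.1.1 ≠ p.2.1}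
    (fun p => Nat.card (p.2.2 ⊓ fxs p.1.1 : Subgroup V)) (Set.toFinite _) ⟨((T, U), (T', U')), h1, h2, ne⟩
  replace mx : ∀ p ∈ F, ∀ p' ∈ F, p.1 ≠ p'.1 → Nat.card (p'.2 ⊓ fxs p.1 : Subgroup V) ≤
    Nat.card (U₂ ⊓ fxs T₁ : Subgroup V) := fun p a p' b c => mx (p, p') ⟨a, b, c⟩
  dsimp only at k1 k2 k3
  have q : Tq T₁ U₁ := h.tq _ k1
  have q' : Tq T₂ U₂ := h.tq _ k2
  have b := h.both k1 k2 k3 mx
  obtain ⟨t, ht, t1⟩ := q'.ex
  have tt : t⁻¹ = t := inv_eq_of_mul_eq_one_right (q'.sq t ht)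
  have z : U₁ ⊓ fx t = ⊥ := eq_bot_iff.2 (b ▸ inf_le_inf_left _ (q'.fix t ht t1))
  let φ := t.toMonoidHom / MonoidHom.id V
  have eφ : ∀ w, φ w = t w * w⁻¹ := fun w => div_eq_mul_inv _ _
  have on : U₁.map φ = U₂ := eq_of_le_of_card_ge (by rintro _ ⟨w, -, rfl⟩; exact eφ w ▸ q'.cz t ht w) (by
    have := card_map_cm t U₁
    rw [z, card_bot, mul_one] at this
    exact (h.card _ k2 _ k1).le.trans this.ge)
  have k4 := h.cj _ k2 _ k1 t ht
  have k5 : T₁ ≠ t •ᶜ T₁ := fun e => k3 (h.nle k2 k1 fun w hw => q'.fix t ht t1 w (mul_inv_eq_one.1 (mem_bot.1 (b.le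
    (mem_inf.2 ⟨mul_mem (q.iv e.symm w hw) (inv_mem hw), q'.le h.two (q'.cz t ht w)⟩))))).symm
  have l : U₂ ⊓ fxs T₁ ≤ (U₁.map t.toMonoidHom ⊓ fxs T₁).map φ := fun u hu => by
    obtain ⟨w, hw, rfl⟩ := on.ge hu.1
    refine ⟨t w, ⟨⟨w, hw, rfl⟩, by simpa [eφ] using mul_mem hu.2 (q.le h.two hw)⟩, ?_⟩
    rw [eφ, eφ, ← MulAut.mul_apply, q'.sq t ht, ← inv_eq_of_mul_eq_one_right (h.two (t w * w⁻¹))]
    simp
  have b' := h.both k1 k4 k5 fun p a p' b c => (mx p a p' b c).trans ((card_le_of_le l).trans (Nat.card_le_card_of_surjective _ (φ.subgroupMap_surjective _)))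
  have b'' : U₁.map t.toMonoidHom ⊓ fxs T₁ = ⊥ := eq_bot_iff.2 fun w hw => by
    have := mem_bot.1 (b'.le ⟨mem_mp.1 hw.1, mem_fc.2 (by rw [tt, ← MulAut.mul_apply, q'.sq t ht]; exact hw.2)⟩)
    exact mem_bot.2 (by simpa using this)
  rw [b'', Subgroup.map_bot, le_bot_iff] at l
  have := mx _ h1 _ h2 ne
  rw [l, card_bot] at this
  exact (card_le_one_iff_eq_bot _).1 this

end Fa

end CL.FN.TI
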